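import Cfsg.Agent.Lib.C3.Defs

/-! # 3-closure of a solvable group: lines, additivity, semilinearity (package ADD) -/

set_option autoImplicit false

namespace H64.C3

section
variable {F V Γ : Type*} [Field F] [Finite F] [AddCommGroup V] [Module F V] [Group Γ]
  [DistribMulAction Γ V]

namespace AddP

omit [Finite F] in
theorem hom_eq {σ τ : F →+* F} {ζ : Fˣ} (hζ : ∀ x : Fˣ, x ∈ Submonoid.powers ζ)
    (h : σ ζ ^ 2 = τ ζ * ζ) : τ ζ = ζ := by
  have h1 : ∀ x : F, σ x ^ 2 = τ x * x := by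
    intro x
    by_cases hx : x = 0
    · simp [hx]
    · obtain ⟨i, hi⟩ := hζ (Units.mk0 x hx)
      have h2 : x = (ζ : F) ^ i := by
        have := congrArg Units.val hi
        simpa using this.symm
      rw [h2, map_pow, map_pow, ← pow_mul, mul_comm i 2, pow_mul, h, mul_pow]
  have h2 := h1 (ζ + 1)
  rw [map_add, map_add, map_one, map_one] at h2
  have h3 : 2 * σ ζ = τ ζ + ζ := by linear_combination h2 - h
  have h4 : (τ ζ - ζ) ^ 2 = 0 := by
    linear_combination (-(2 * σ ζ + (τ ζ + ζ))) * h3 + 4 * h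
  exact sub_eq_zero.1 ((pow_eq_zero_iff two_ne_zero).1 h4)

theorem surj (σ : F →+* F) : Function.Surjective σ :=
  Finite.surjective_of_injective σ.injective

end AddP

theorem line (G : Subgroup Γ) (hσ : ∀ g ∈ G, Semi F V g) (k : V → V)
    (hk : ∀ x y, ∃ g ∈ G, g • x = k x ∧ g • y = k y) (v : V) :
    ∃ g ∈ G, ∀ f : F, k (f • v) = g • f • v := by
  have k0 : k 0 = 0 := by
    obtain ⟨g, -, h1, -⟩ := hk 0 0
    rw [← h1, smul_zero]
  by_cases hv : v = 0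
  · exact ⟨1, G.one_mem, fun f => by simp [hv, k0]⟩
  obtain ⟨ζ, hζ⟩ := IsCyclic.exists_monoid_generator (α := Fˣ)
  obtain ⟨g, hg, h1, h2⟩ := hk v ((ζ : F) • v)
  refine ⟨g, hg, ?_⟩
  have step : ∀ u : V, u ≠ 0 → k u = g • u → k ((ζ : F) • u) = g • (ζ : F) • u →
      k ((ζ : F) • (ζ : F) • u) = g • (ζ : F) • (ζ : F) • u := by
    intro u hu a1 a2
    obtain ⟨g1, hg1, b1, b2⟩ := hk ((ζ : F) • u) ((ζ : F) • (ζ : F) • u)
    obtain ⟨g2, hg2, c1, c2⟩ := hk u ((ζ : F) • (ζ : F) • u)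
    obtain ⟨τ, hτ⟩ := hσ (g⁻¹ * g1) (G.mul_mem (G.inv_mem hg) hg1)
    obtain ⟨σ, hσ'⟩ := hσ (g⁻¹ * g2) (G.mul_mem (G.inv_mem hg) hg2)
    have d1 : (g⁻¹ * g1) • (ζ : F) • u = (ζ : F) • u := by
      rw [mul_smul, b1, a2, inv_smul_smul]
    have d2 : (g⁻¹ * g2) • u = u := by rw [mul_smul, c1, a1, inv_smul_smul]
    have e1 : g⁻¹ • k ((ζ : F) • (ζ : F) • u) = (τ ζ * ζ) • u := by
      rw [← b2, ← mul_smul, hτ, d1, smul_smul]
    have e2 : g⁻¹ • k ((ζ : F) • (ζ : F) • u) = (σ ζ ^ 2) • u := by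
      rw [← c2, ← mul_smul, hσ', hσ', d2, smul_smul, sq]
    have e3 : σ ζ ^ 2 = τ ζ * ζ := smul_left_injective F hu (e2.symm.trans e1)
    rw [AddP.hom_eq hζ e3, inv_smul_eq_iff, mul_smul] at e1
    exact e1
  have key : ∀ j : ℕ, k (((ζ : F) ^ j) • v) = g • ((ζ : F) ^ j) • v ∧
      k ((ζ : F) • ((ζ : F) ^ j) • v) = g • (ζ : F) • ((ζ : F) ^ j) • v := by
    intro j
    induction j with
    | zero => simpa using ⟨h1.symm, h2.symm⟩
    | succ j ih =>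
      have hu : ((ζ : F) ^ j) • v ≠ 0 := smul_ne_zero (pow_ne_zero _ ζ.ne_zero) hv
      rw [pow_succ', mul_smul]
      exact ⟨ih.2, step _ hu ih.1 ih.2⟩
  intro f
  by_cases hf : f = 0
  · simp [hf, k0]
  · obtain ⟨i, hi⟩ := hζ (Units.mk0 f hf)
    have h2 : f = (ζ : F) ^ i := by
      have := congrArg Units.val hi
      simpa using this.symm
    rw [h2]
    exact (key i).1

namespace AddP

/-- `h` maps an affine line semilinearly -/
theorem aline (G : Subgroup Γ) (hσ : ∀ g ∈ G, Semi F V g) (h : V → V)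
    (hh : ∀ a b c, ∃ g ∈ G, ∃ t : V, g • a + t = h a ∧ g • b + t = h b ∧ g • c + t = h c)
    (x v : V) : ∃ σ : F →+* F, ∀ f : F, h (x + f • v) = h x + σ f • (h (x + v) - h x) := by
  obtain ⟨g, hg, h1⟩ := line G hσ (fun v => h (x + v) - h x) (by
    intro a b
    obtain ⟨g, hg, t, a1, a2, a3⟩ := hh x (x + a) (x + b)
    refine ⟨g, hg, ?_, ?_⟩
    · rw [← a1, ← a2, smul_add]; abel
    · rw [← a1, ← a3, smul_add]; abel) v
  obtain ⟨σ, hs⟩ := hσ g hg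
  refine ⟨σ, fun f => ?_⟩
  have h2 := h1 1
  have h3 := h1 f
  simp only [one_smul] at h2 h3
  rw [h2, ← hs, ← h3]
  abel

theorem coef (G : Subgroup Γ) (hσ : ∀ g ∈ G, Semi F V g) (h : V → V)
    (hinj : Function.Injective h)
    (hh : ∀ a b c, ∃ g ∈ G, ∃ t : V, g • a + t = h a ∧ g • b + t = h b ∧ g • c + t = h c)
    (h0 : h 0 = 0) {x y : V} (hx : h x = x) (hy : h y = y) (hxy : ∀ f : F, x ≠ f • y) {a b : F}
    (hab : h (x + y) = a • x + b • y) : a = 1 := by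
  by_contra ha
  obtain ⟨σ, h1⟩ := aline G hσ h hh x y
  obtain ⟨τ, h2⟩ := aline G hσ h hh 0 y
  have ha' : 1 - a ≠ 0 := sub_ne_zero.2 (Ne.symm ha)
  obtain ⟨f, hf⟩ := surj σ (1 - a)⁻¹
  obtain ⟨f', hf'⟩ := surj τ ((1 - a)⁻¹ * b)
  have h3 : h (x + f • y) = h (0 + f' • y) := by
    rw [h1, h2, hf, hf', hab, hx, zero_add y, hy, h0]
    have : (1 - a)⁻¹ * (a - 1) = -1 := by field_simp; ring
    have h4 : (1 - a)⁻¹ • (a • x + b • y - x) =
        ((1 - a)⁻¹ * (a - 1)) • x + ((1 - a)⁻¹ * b) • y := by module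
    rw [h4, this]
    module
  have h5 := hinj h3
  apply hxy (f' - f)
  rw [sub_smul, eq_sub_iff_add_eq, h5, zero_add]

theorem norm (G : Subgroup Γ) (hσ : ∀ g ∈ G, Semi F V g) (h3 : ∃ l : F, l ≠ 0 ∧ l ≠ 1)
    (h : V → V) (hinj : Function.Injective h)
    (hh : ∀ a b c, ∃ g ∈ G, ∃ t : V, g • a + t = h a ∧ g • b + t = h b ∧ g • c + t = h c)
    (h0 : h 0 = 0) {x y : V} (hx : h x = x) (hy : h y = y) (hxy : ∀ f : F, x ≠ f • y)
    (hyx : ∀ f : F, y ≠ f • x) : h (x + y) = x + y := by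
  obtain ⟨l, l0, l1⟩ := h3
  have l1' : 1 - l ≠ 0 := sub_ne_zero.2 (Ne.symm l1)
  obtain ⟨σ, a1⟩ := aline G hσ h hh ((1 - l)⁻¹ • y) (l⁻¹ • x - (1 - l)⁻¹ • y)
  obtain ⟨τ, a2⟩ := aline G hσ h hh 0 y
  obtain ⟨ρ, a3⟩ := aline G hσ h hh 0 x
  have b1 := a1 l
  have b2 := a2 (1 - l)⁻¹
  have b3 := a3 l⁻¹
  have e1 : (1 - l)⁻¹ • y + l • (l⁻¹ • x - (1 - l)⁻¹ • y) = x + y := by
    have : (1 - l)⁻¹ • y + l • (l⁻¹ • x - (1 - l)⁻¹ • y) =
        (l * l⁻¹) • x + ((1 - l) * (1 - l)⁻¹) • y := by module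
    rw [this, mul_inv_cancel₀ l0, mul_inv_cancel₀ l1', one_smul, one_smul]
  simp only [zero_add, h0, hx, hy, sub_zero] at b2 b3
  rw [e1, add_sub_cancel, b2, b3] at b1
  have hab : h (x + y) = (σ l * ρ l⁻¹) • x + ((1 - σ l) * τ (1 - l)⁻¹) • y := by
    rw [b1]; module
  have c1 := coef G hσ h hinj hh h0 hx hy hxy hab
  have c2 := coef G hσ h hinj hh h0 hy hx hyx (by rw [add_comm y x, hab, add_comm])
  rw [hab, c1, c2, one_smul, one_smul]

end AddP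

theorem additive (G : Subgroup Γ) (hσ : ∀ g ∈ G, Semi F V g) (h3 : ∃ l : F, l ≠ 0 ∧ l ≠ 1)
    (h : V → V) (hinj : Function.Injective h)
    (hh : ∀ a b c, ∃ g ∈ G, ∃ t : V, g • a + t = h a ∧ g • b + t = h b ∧ g • c + t = h c)
    (x y : V) : h (x + y) - h 0 = (h x - h 0) + (h y - h 0) := by
  have dep : ∀ (x : V) (f : F), h (x + f • x) - h 0 = (h x - h 0) + (h (f • x) - h 0) := by
    intro x f
    obtain ⟨σ, a1⟩ := AddP.aline G hσ h hh 0 x
    have b1 := a1 (1 + f)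
    have b2 := a1 f
    rw [zero_add, zero_add, add_smul, one_smul, map_add, map_one] at b1
    rw [zero_add, zero_add] at b2
    rw [b1, b2]
    module
  by_cases hyx : ∃ f : F, y = f • x
  · obtain ⟨f, rfl⟩ := hyx
    exact dep x f
  by_cases hxy : ∃ f : F, x = f • y
  · obtain ⟨f, rfl⟩ := hxy
    rw [add_comm, dep y f, add_comm]
  push Not at hyx hxy
  obtain ⟨g, hg, t, a0, a1, a2⟩ := hh 0 x y
  rw [smul_zero, zero_add] at a0
  have key := AddP.norm G hσ h3 (fun v => g⁻¹ • (h v - t))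
    (fun v w hvw => hinj (sub_left_injective (MulAction.injective g⁻¹ hvw))) (by
      intro a b c
      obtain ⟨g', hg', t', b1, b2, b3⟩ := hh a b c
      refine ⟨g⁻¹ * g', G.mul_mem (G.inv_mem hg) hg', g⁻¹ • (t' - t), ?_, ?_, ?_⟩
      · rw [← b1, mul_smul, ← smul_add, add_sub_assoc]
      · rw [← b2, mul_smul, ← smul_add, add_sub_assoc]
      · rw [← b3, mul_smul, ← smul_add, add_sub_assoc]) (by simp [a0]) (x := x) (y := y)
    (by simp [← a1]) (by simp [← a2]) hxy hyx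
  rw [inv_smul_eq_iff] at key
  rw [← a0, key, ← a1, ← a2, smul_add]
  abel

theorem semi_cl2 (G : Subgroup Γ) (hσ : ∀ g ∈ G, Semi F V g) : ∀ k ∈ cl2 G V, Semi F V k := by
  intro k hk
  have loc : ∀ v : V, ∃ σ : F →+* F, ∀ f : F, k • f • v = σ f • k • v := by
    intro v
    obtain ⟨g, hg, h1⟩ := line G hσ (fun v => k • v) (mem_cl2.1 hk) v
    obtain ⟨σ, hs⟩ := hσ g hg
    refine ⟨σ, fun f => ?_⟩
    have h2 := h1 1
    have h3 := h1 f
    simp only [one_smul] at h2 h3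
    rw [h3, hs, h2]
  rcases subsingleton_or_nontrivial V with hV | hV
  · exact ⟨RingHom.id F, fun _ _ => Subsingleton.elim _ _⟩
  obtain ⟨v₀, hv⟩ := exists_ne (0 : V)
  obtain ⟨σ, hs⟩ := loc v₀
  refine ⟨σ, fun f v => ?_⟩
  by_cases hdep : ∃ c : F, v = c • v₀
  · obtain ⟨c, rfl⟩ := hdep
    rw [smul_smul f c, hs, hs, map_mul, mul_smul]
  obtain ⟨τ, ht⟩ := loc v
  obtain ⟨ρ, hr⟩ := loc (v + v₀)
  have h1 := hr f
  rw [smul_add, smul_add, ht, hs, smul_add, smul_add] at h1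
  have h2 : (τ f - ρ f) • k • v = (ρ f - σ f) • k • v₀ := by
    rw [sub_smul, sub_smul, sub_eq_sub_iff_add_eq_add, h1, add_comm]
  have h3 : τ f = ρ f := by
    by_contra hne
    have hne' : τ f - ρ f ≠ 0 := sub_ne_zero.2 hne
    obtain ⟨c, hc⟩ := AddP.surj σ ((τ f - ρ f)⁻¹ * (ρ f - σ f))
    apply hdep
    refine ⟨c, MulAction.injective k ?_⟩
    change k • v = k • c • v₀
    rw [hs, hc, mul_smul, ← h2, inv_smul_smul₀ hne']
  rw [h3, sub_self, zero_smul] at h2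
  have h4 : k • v₀ ≠ 0 := fun h0 => hv (by simpa using congrArg (k⁻¹ • ·) h0)
  have h5 : ρ f = σ f := sub_eq_zero.1 ((smul_eq_zero.1 h2.symm).resolve_right h4)
  rw [ht, h3, h5]

end

end H64.C3
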