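import Cfsg.Agent.Lib.C3.Bas

/-! The anisotropic case: `E` acts freely on the non-zero vectors. -/

set_option autoImplicit false
set_option linter.unusedSectionVars false

namespace H64.C3

variable {F V Γ : Type*} [Field F] [AddCommGroup V] [Module F V] [Group Γ]
  [DistribMulAction Γ V] [Finite V] [Nontrivial V] [Finite Γ] [FaithfulSMul Γ V]

namespace Ani

theorem scal (S : Sy F V Γ) (hfree : ∀ u : V, u ≠ 0 → S.st u = ⊥) {x : Γ} (hx : x ∈ S.E)
    (h1 : x ^ S.r = 1) : ∃ c, x = S.ι c := by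
  obtain ⟨v, hv⟩ := exists_ne (0 : V)
  obtain ⟨u, hu, h2, -⟩ := S.eig_sum hx h1 v
  obtain ⟨j, hj⟩ : ∃ j, u j ≠ 0 := by
    by_contra! h
    exact hv (by rw [← hu]; simp [h])
  obtain ⟨c, hc⟩ := h2 j
  have : (S.ι c)⁻¹ * x ∈ S.st (u j) := S.mem_st.2 ⟨mul_mem (inv_mem (S.ιE c)) hx, by
    rw [mul_smul, hc, ← S.hι, inv_smul_smul]⟩
  rw [hfree _ hj, Subgroup.mem_bot, inv_mul_eq_one] at this
  exact ⟨c, this.symm⟩

theorem three (hns : ¬ IsSquare (-1 : F)) {n : ℕ} (h0 : n ≠ 0) (h5 : n ≤ 5) (h : (n : F) = 0) :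
    n = 3 := by
  have h2 : (2 : F) ≠ 0 := fun e => hns ⟨1, by linear_combination -e⟩
  interval_cases n
  · exact absurd rfl h0
  · simp at h
  · exact absurd (by exact_mod_cast h) h2
  · rfl
  · exact absurd (by push_cast at h; linear_combination h) (mul_ne_zero h2 h2)
  · exact absurd ⟨2, by push_cast at h; linear_combination -h⟩ hns

theorem cover (hns : ¬ IsSquare (-1 : F)) {ι : Type*} (T : Finset ι) (hT : T.card ≤ 6)
    (K : ι → AddSubgroup V) (hc : ∀ v, ∃ s ∈ T, v ∈ K s)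
    (hd : ∀ s ∈ T, ∀ s' ∈ T, ∀ v ∈ K s, v ∈ K s' → v ≠ 0 → s = s') (hp : ∀ s ∈ T, K s ≠ ⊤) :
    ∃ v w : V, ∀ H : AddSubgroup V, v ∈ H → w ∈ H → H = ⊤ := by
  classical
  choose f hf hK using hc
  have k5 : ∀ s ∈ T, Nat.card (K s) ≤ 5 := fun s hs => by
    obtain ⟨v, hv⟩ : ∃ v, v ∉ K s := by
      by_contra! h
      exact hp s hs ((AddSubgroup.eq_top_iff' _).2 h)
    have n : ∀ a ∈ K s, f (v + a) ≠ s := fun a ha e => hv (by
      have := sub_mem (e ▸ hK (v + a)) ha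
      rwa [add_sub_cancel_right] at this)
    have := Nat.card_le_card_of_injective (fun a : K s =>
      (⟨f (v + a), Finset.mem_erase.2 ⟨n a a.2, hf _⟩⟩ : T.erase s)) fun a b e => by
        have e' : f (v + a) = f (v + b) := congrArg Subtype.val e
        by_contra ne
        refine n a a.2 (hd _ (hf _) s hs (a - b) ?_ (sub_mem a.2 b.2)
          (sub_ne_zero.2 fun k => ne (Subtype.ext k)))
        have := sub_mem (hK (v + a)) (e' ▸ hK (v + b))
        rwa [add_sub_add_left_eq_sub] at this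
    rw [Nat.card_eq_finsetCard, Finset.card_erase_of_mem hs] at this
    omega
  have k3 : ∀ s ∈ T, ∀ v ∈ K s, v ≠ 0 → Nat.card (K s) = 3 ∧ ((3 : ℕ) : F) = 0 := fun s hs v hv h0 => by
    have e : ((Nat.card (K s) : ℕ) : F) = 0 := by
      have : Nat.card (K s) • v = 0 := congrArg Subtype.val (card_nsmul_eq_zero' (x := (⟨v, hv⟩ : K s)))
      rw [← Nat.cast_smul_eq_nsmul F] at this
      exact (smul_eq_zero.1 this).resolve_right h0
    have := three hns Nat.card_pos.ne' (k5 s hs) e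
    exact ⟨this, this ▸ e⟩
  obtain ⟨v, hv⟩ := exists_ne (0 : V)
  have c3 := (k3 _ (hf v) v (hK v) hv).2
  have : Fact (Nat.Prime 3) := ⟨Nat.prime_three⟩
  obtain ⟨n, hn⟩ : ∃ n, Nat.card V = 3 ^ n := (IsPGroup.iff_card (G := Multiplicative V)).1 fun g =>
    ⟨1, by
      rw [pow_one, ← ofAdd_toAdd g, ← ofAdd_nsmul, ← Nat.cast_smul_eq_nsmul F, c3, zero_smul]; rfl⟩
  have h18 : Nat.card V ≤ 18 := by
    have := Nat.card_le_card_of_injective (fun v : V => (⟨⟨f v, hf v⟩, v, hK v⟩ : Σ s : T, K s))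
      fun a b e => congrArg (fun x : Σ s : T, K s => (x.2 : V)) e
    rw [Nat.card_sigma] at this
    have h2 := Finset.sum_le_card_nsmul Finset.univ (fun s : T => Nat.card (K s)) 3 fun s _ => by
      rcases eq_or_ne (K s) ⊥ with e | e
      · simp [e]
      · obtain ⟨⟨a, ha⟩, a0⟩ := AddSubgroup.ne_bot_iff_exists_ne_zero.1 e
        exact (k3 s s.2 a ha fun k => a0 (Subtype.ext k)).1.le
    rw [Finset.card_univ, Fintype.card_coe, smul_eq_mul] at h2
    omega
  have n2 : n ≤ 2 := by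
    by_contra k
    have := Nat.pow_le_pow_right (show 0 < 3 by decide) (show 3 ≤ n by omega)
    omega
  by_cases hw : ∃ w, w ≠ 0 ∧ w ≠ v ∧ w ≠ -v
  · obtain ⟨w, w0, w1, w2⟩ := hw
    refine ⟨v, w, fun H h1 h2 => ?_⟩
    obtain ⟨m, hm, e⟩ := (Nat.dvd_prime_pow Nat.prime_three).1 (hn ▸ H.card_addSubgroup_dvd_card)
    have vv : v ≠ -v := fun k => hv (by
      have h3 : 3 • v = 0 := by rw [← Nat.cast_smul_eq_nsmul F, c3, zero_smul]
      calc v = 3 • v - (v - -v) := by abel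
        _ = 0 := by rw [h3, sub_eq_zero.2 k, sub_zero])
    have h4 : 4 ≤ Nat.card H := by
      have := Set.ncard_le_ncard (s := (({0, v, -v, w} : Finset V) : Set V)) (t := (H : Set V)) (by
        intro x hx
        simp only [Finset.coe_insert, Finset.coe_singleton, Set.mem_insert_iff, Set.mem_singleton_iff] at hx
        rcases hx with rfl | rfl | rfl | rfl
        exacts [zero_mem H, h1, neg_mem h1, h2]) (Set.toFinite _)
      rw [Set.ncard_coe_finset, Finset.card_eq_four.2 ⟨0, v, -v, w, hv.symm, (neg_ne_zero.2 hv).symm,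
        w0.symm, vv, w1.symm, w2.symm, rfl⟩] at this
      exact this
    refine AddSubgroup.eq_top_of_card_eq H ?_
    rw [e] at h4
    rw [e, hn]
    congr 1
    interval_cases n <;> interval_cases m <;> omega
  · push Not at hw
    refine ⟨v, v, fun H h1 _ => (AddSubgroup.eq_top_iff' _).2 fun x => ?_⟩
    by_cases x0 : x = 0
    · exact x0 ▸ zero_mem _
    by_cases x1 : x = v
    · exact x1 ▸ h1
    · exact hw x x0 x1 ▸ neg_mem h1

end Ani

open Ani in
theorem Sy.ani (S : Sy F V Γ) (G : Subgroup Γ) (hG : G ≤ S.M) (hs : ∀ k ∈ cl2 G V, Semi F V k)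
    (hfree : ∀ u : V, u ≠ 0 → S.st u = ⊥) : cl2 G V ≤ S.M ∨ cl2 G V ≤ G := by
  classical
  have := Fintype.ofFinite Γ
  have sc : ∀ x ∈ S.E, ∀ c, (x * S.ι c) ^ S.r = 1 → ∃ c', x = S.ι c' := fun x hx c h => by
    obtain ⟨c', e⟩ := scal S hfree (mul_mem hx (S.ιE c)) h
    exact ⟨c' * c⁻¹, by rw [map_mul, map_inv, ← e, mul_inv_cancel_right]⟩
  obtain ⟨x0, hx0, n0⟩ := S.ne
  obtain ⟨c0, h0⟩ := S.sq x0 hx0
  obtain ⟨hr, h0, hns⟩ := h0.resolve_left fun h => let ⟨c, e⟩ := sc x0 hx0 c0 h; n0 c e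
  let T : Finset Γ := Finset.univ.filter fun t => t ∈ S.E ∧ t ^ 2 = S.ι (-1)
  have mT : ∀ t, t ∈ T ↔ t ∈ S.E ∧ t ^ 2 = S.ι (-1) := fun t => by simp [T]
  have mm : S.ι (-1) * S.ι (-1) = 1 := by rw [← map_mul]; simp
  have cm : ∀ t ∈ T, ∀ s ∈ T, Commute t s → s = t ∨ s = t * S.ι (-1) := fun t ht s hs h => by
    rw [mT] at ht hs
    have e1 : (t * s) ^ 2 = 1 := by rw [h.mul_pow, ht.2, hs.2, mm]
    obtain ⟨c, e⟩ := scal S hfree (mul_mem ht.1 hs.1) (hr ▸ e1)
    have e2 : t * t = S.ι (-1) := by rw [← pow_two, ht.2]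
    rw [e, ← map_pow, ← map_one S.ι, S.ι_inj.eq_iff, pow_two, Units.ext_iff, Units.val_mul, Units.val_one,
      mul_self_eq_one_iff] at e1
    rcases e1 with k | k
    · obtain rfl : c = 1 := Units.ext k
      exact Or.inr (mul_left_cancel (a := t) (by rw [e, ← mul_assoc, e2, mm, map_one]))
    · obtain rfl : c = -1 := Units.ext k
      exact Or.inl (mul_left_cancel (a := t) (by rw [e, e2]))
  have ac : ∀ t ∈ S.E, ∀ s ∈ S.E, ¬ Commute t s → S.κ t s = -1 := fun t ht s hs h => by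
    have e1 := S.κ_pow ht hs
    rw [hr, pow_two, Units.ext_iff, Units.val_mul, Units.val_one, mul_self_eq_one_iff] at e1
    exact Units.ext (e1.resolve_left fun k => h ((S.κ_one ht hs).1 (Units.ext k)))
  have hT : T.card ≤ 6 := by
    have t0 : x0 * S.ι c0 ∈ T := (mT _).2 ⟨mul_mem hx0 (S.ιE c0), h0⟩
    generalize x0 * S.ι c0 = t at t0
    have e0 := ((mT t).1 t0).1
    by_cases h : ∀ s ∈ T, Commute t s
    · refine (Finset.card_le_card (t := {t, t * S.ι (-1)}) fun s hs => ?_).trans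
        (Finset.card_le_two.trans (by decide))
      simpa using cm t t0 s hs (h s hs)
    push Not at h
    obtain ⟨t', t1, n1⟩ := h
    have e1 := ((mT t').1 t1).1
    have t2 : t * t' ∈ T := (mT _).2 ⟨mul_mem e0 e1, by
      have := S.κ_spec e1 e0
      rw [ac t' e1 t e0 fun k => n1 k.symm] at this
      calc (t * t') ^ 2 = t * (t' * t) * t' := by rw [pow_two]; group
        _ = S.ι (-1) * (t ^ 2 * t' ^ 2) := by
          rw [this, ← mul_assoc t, ← (S.cen (-1) t e0).eq, pow_two, pow_two]; group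
        _ = _ := by rw [((mT t).1 t0).2, ((mT t').1 t1).2, mm, mul_one]⟩
    refine (Finset.card_le_card (t := {t, t * S.ι (-1), t', t' * S.ι (-1), t * t', t * t' * S.ι (-1)})
      fun s hs => ?_).trans Finset.card_le_six
    have es := ((mT s).1 hs).1
    simp only [Finset.mem_insert, Finset.mem_singleton]
    by_cases k1 : Commute t s
    · have := cm t t0 s hs k1; tauto
    by_cases k2 : Commute t' s
    · have := cm t' t1 s hs k2; tauto
    have := cm _ t2 s hs ((S.κ_one (mul_mem e0 e1) es).1 (by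
      rw [S.κ_mul_left e0 e1 es, ac t e0 s es k1, ac t' e1 s es k2]; simp))
    tauto
  by_cases hy : ∀ k ∈ cl2 G V, ∀ t ∈ T, k * t * k⁻¹ ∈ S.E
  · refine Or.inl fun k hk => Subgroup.mem_normalizer_fintype fun x hx => ?_
    have hι : ∀ c, k * S.ι c * k⁻¹ ∈ S.E := fun c => by
      obtain ⟨σ, hσ⟩ := hs k hk
      have : k * S.ι c * k⁻¹ = S.ι (Units.map σ.toMonoidHom c) := eq_of_smul_eq_smul fun v : V => by
        rw [mul_smul, mul_smul, S.hι, S.hι, hσ, smul_inv_smul]; rfl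
      exact this ▸ S.ιE _
    obtain ⟨c, h | h⟩ := S.sq x hx
    · obtain ⟨c', rfl⟩ := sc x hx c h
      exact hι c'
    · have := mul_mem (hy k hk _ ((mT _).2 ⟨mul_mem hx (S.ιE c), h.2.1⟩)) (inv_mem (hι c))
      rwa [show k * (x * S.ι c) * k⁻¹ * (k * S.ι c * k⁻¹)⁻¹ = k * x * k⁻¹ by group] at this
  push Not at hy
  obtain ⟨k, hk, t, ht, n⟩ := hy
  let K : Γ → Γ → AddSubgroup V := fun y s =>
    (DistribSMul.toAddMonoidHom V y).eqLocus (DistribSMul.toAddMonoidHom V s)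
  have mK : ∀ y s v, v ∈ K y s ↔ y • v = s • v := fun _ _ _ => Iff.rfl
  obtain ⟨v, w, hvw⟩ := cover hns T hT (K (k * t * k⁻¹)) (fun v => by
      obtain ⟨g, hg, e1, e2⟩ := hk (k⁻¹ • v) (t • k⁻¹ • v)
      rw [smul_inv_smul] at e1
      refine ⟨g * t * g⁻¹, (mT _).2 ⟨S.conj_mem (hG hg) ((mT t).1 ht).1, ?_⟩, (mK ..).2 ?_⟩
      · rw [conj_pow, ((mT t).1 ht).2]
        exact eq_of_smul_eq_smul fun u : V => by simp [mul_smul, S.hι]
      · rw [mul_smul, mul_smul, mul_smul, mul_smul, ← e2, inv_smul_eq_iff.2 e1.symm])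
    (fun s hs s' hs' v h1 h2 v0 => by
      have : s⁻¹ * s' ∈ S.st v := S.mem_st.2 ⟨mul_mem (inv_mem ((mT s).1 hs).1) ((mT s').1 hs').1, by
        rw [mul_smul, ← (mK ..).1 h2, (mK ..).1 h1, inv_smul_smul]⟩
      rwa [hfree v v0, Subgroup.mem_bot, inv_mul_eq_one] at this)
    fun s hs e => n (by
      have : k * t * k⁻¹ = s := eq_of_smul_eq_smul fun u : V => (mK ..).1 (e ▸ AddSubgroup.mem_top u)
      exact this ▸ ((mT s).1 hs).1)
  refine Or.inr fun k hk => ?_
  obtain ⟨g, hg, e1, e2⟩ := hk v w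
  have : g = k := eq_of_smul_eq_smul fun u : V => (mK ..).1 (hvw (K g k) e1 e2 ▸ AddSubgroup.mem_top u)
  exact this ▸ hg

end H64.C3
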