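import Cfsg.Agent.Lib.C3.Bas1

/-! # C3: basic API for groups of symplectic type (part 2) -/

set_option autoImplicit false
set_option linter.unusedSectionVars false

namespace H64.C3

variable {F V Γ : Type*} [Field F] [AddCommGroup V] [Module F V] [Group Γ]
  [DistribMulAction Γ V] [Finite V] [Nontrivial V] [Finite Γ] [FaithfulSMul Γ V]

/-- decomposition into eigenvectors, each a polynomial in `y` applied to `v` -/
theorem Sy.eig_sum (S : Sy F V Γ) {y : Γ} (hy : y ∈ S.E) (h1 : y ^ S.r = 1) (v : V) :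
    ∃ u : Fin S.r → V, ∑ j, u j = v ∧ (∀ j, ∃ c : Fˣ, y • u j = (c : F) • u j) ∧
      ∀ j, ∀ a ∈ S.E, ∀ c : F, Commute a y → a • v = c • v → a • u j = c • u j := by
  set ω : F := (S.ω : F) with hω
  have hωr : ω ^ S.r = 1 := S.prim.pow_eq_one
  let f : ℕ → ℕ → V := fun j i => (ω ^ j) ^ i • y ^ i • v
  refine ⟨fun j => (S.r : F)⁻¹ • ∑ i ∈ Finset.range S.r, f j i, ?_, ?_, ?_⟩
  · rw [← Finset.smul_sum, Fin.sum_univ_eq_sum_range (fun j => ∑ i ∈ Finset.range S.r, f j i),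
      Finset.sum_comm]
    have : ∀ i ∈ Finset.range S.r, ∑ j ∈ Finset.range S.r, f j i =
        if i = 0 then (S.r : F) • v else 0 := by
      intro i hi
      have e : ∀ j, f j i = (ω ^ i) ^ j • y ^ i • v := fun j => by
        simp only [f, ← pow_mul, mul_comm]
      simp only [e, ← Finset.sum_smul]
      split_ifs with h0
      · subst h0; simp
      · have hne : ω ^ i ≠ 1 := S.prim.pow_ne_one_of_pos_of_lt h0 (Finset.mem_range.1 hi)
        rw [geom_sum_eq hne, ← pow_mul, mul_comm, pow_mul, hωr]; simp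
    rw [Finset.sum_congr rfl this, Finset.sum_ite_eq' (Finset.range S.r) 0 (fun _ => (S.r : F) • v),
      if_pos (Finset.mem_range.2 S.hr.pos), smul_smul, inv_mul_cancel₀ S.r_ne, one_smul]
  · intro j
    refine ⟨(S.ω ^ (j : ℕ))⁻¹, ?_⟩
    have hj : (ω ^ (j : ℕ)) ≠ 0 := pow_ne_zero _ S.ω.ne_zero
    have key : ω ^ (j : ℕ) • y • ∑ i ∈ Finset.range S.r, f j i =
        ∑ i ∈ Finset.range S.r, f j i := by
      have e : ∀ i, ω ^ (j : ℕ) • y • f j i = f j (i + 1) := fun i => by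
        simp only [f]
        rw [S.lin hy, smul_smul, ← mul_smul, ← pow_succ', ← pow_succ']
      rw [Finset.smul_sum, Finset.smul_sum]
      simp only [e]
      have h2 := Finset.sum_range_succ (f j) S.r
      rw [Finset.sum_range_succ'] at h2
      have h3 : f j S.r = f j 0 := by
        simp only [f]; rw [h1, ← pow_mul, mul_comm, pow_mul, hωr]; simp
      rw [h3] at h2
      exact add_right_cancel h2
    beta_reduce
    rw [S.lin hy, smul_comm ((S.ω ^ (j : ℕ))⁻¹ : Fˣ).val]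
    congr 1
    rw [Units.val_inv_eq_inv_val, Units.val_pow_eq_pow_val, eq_inv_smul_iff₀ hj]
    exact key
  · intro j a ha c hc hv
    beta_reduce
    rw [S.lin ha, smul_comm c]
    congr 1
    rw [Finset.smul_sum, Finset.smul_sum]
    refine Finset.sum_congr rfl fun i _ => ?_
    simp only [f]
    rw [S.lin ha, ← mul_smul a, (hc.pow_right i).eq, mul_smul, hv, S.lin (S.E.pow_mem hy i),
      smul_comm]

/-- an element of `E` as a linear map -/
def Sy.lm (S : Sy F V Γ) {x : Γ} (hx : x ∈ S.E) : V →ₗ[F] V where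
  toFun v := x • v
  map_add' := smul_add x
  map_smul' := S.lin hx

/-- the projection killing eigenvectors of other types -/
theorem Sy.proj (S : Sy F V Γ) {A : Subgroup Γ} (hA : A ≤ S.E) (u₀ : V) (hu : u₀ ≠ 0)
    (T : Finset V) (hT : ∀ u ∈ T, Ev F A u ∧ Df F A u₀ u) :
    ∃ L : V →ₗ[F] V, (∀ u ∈ T, L u = 0) ∧
      ∀ u, (∀ a ∈ A, ∀ c : F, a • u₀ = c • u₀ → a • u = c • u) → L u = u := by
  classical
  induction T using Finset.induction_on with
  | empty => exact ⟨LinearMap.id, by simp, fun _ _ => rfl⟩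
  | insert t T _ ih =>
    obtain ⟨L, h0, h1⟩ := ih fun u hu => hT u (Finset.mem_insert_of_mem hu)
    obtain ⟨-, a, ha, c, c', hcc, h2, h3⟩ := hT t (Finset.mem_insert_self _ _)
    refine ⟨L ∘ₗ ((c - c')⁻¹ • (S.lm (hA ha) - c' • LinearMap.id)), ?_, ?_⟩
    · intro u hu
      change L ((c - c')⁻¹ • (a • u - c' • u)) = 0
      rcases Finset.mem_insert.1 hu with rfl | hu'
      · rw [h3]; simp
      · obtain ⟨d, hd⟩ := (hT u hu).1.2 a ha
        rw [hd, ← sub_smul, map_smul, map_smul, h0 u hu']; simp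
    · intro u hu'
      change L ((c - c')⁻¹ • (a • u - c' • u)) = u
      rw [hu' a ha c h2, ← sub_smul, smul_smul, inv_mul_cancel₀ (sub_ne_zero.2 hcc), one_smul]
      exact h1 u hu'

theorem Df.symm {A : Subgroup Γ} {u u' : V} (h : Df F A u u') : Df F A u' u := by
  obtain ⟨a, ha, c, c', h1, h2, h3⟩ := h
  exact ⟨a, ha, c', c, h1.symm, h3, h2⟩

theorem Sy.ev_smul (S : Sy F V Γ) {B : Subgroup Γ} (hB : B ≤ S.E) {n : Γ} (hn : S.Nz B n) {u : V}
    (hu : Ev F B u) : Ev F B (n • u) := by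
  refine ⟨(smul_ne_zero_iff_ne n).2 hu.1, fun b hb => ?_⟩
  obtain ⟨b', hb', c, hc⟩ := hn.2.2 b hb
  obtain ⟨σ, hσ⟩ := S.semi hn.1
  obtain ⟨d, hd⟩ := hu.2 b' hb'
  refine ⟨σ (c * d), ?_⟩
  have e : b • n • u = n • (b' * S.ι c) • u := by
    rw [← hc, ← mul_smul, ← mul_smul]; congr 1; group
  rw [e, mul_smul, S.hι, S.lin (hB hb'), hd, smul_smul, hσ]

theorem Sy.df_smul (S : Sy F V Γ) {B : Subgroup Γ} (hB : B ≤ S.E) {n : Γ} (hn : S.Nz B n)
    {u u' : V} (h : Df F B u u') : Df F B (n • u) (n • u') := by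
  obtain ⟨a, ha, c, c', h1, h2, h3⟩ := h
  obtain ⟨b', hb', d, hd⟩ := hn.2.1 a ha
  obtain ⟨σ, hσ⟩ := S.semi hn.1
  have e : ∀ (z : V) (e : F), a • z = e • z → b' • n • z = ((d : F)⁻¹ * σ e) • n • z := by
    intro z e hz
    have : (b' * S.ι d) • n • z = σ e • n • z := by
      rw [← hd, mul_smul, mul_smul, inv_smul_smul, hz, hσ]
    rw [mul_smul, S.hι, S.lin (hB hb')] at this
    rw [mul_smul, ← this, inv_smul_smul₀ d.ne_zero]
  refine ⟨b', hb', _, _, ?_, e u c h2, e u' c' h3⟩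
  intro h
  exact h1 (σ.injective (mul_left_cancel₀ (inv_ne_zero d.ne_zero) h))

/-- a map normalising `B Z` and fixing a sum of eigenvectors of different types permutes them -/
theorem Sy.perm (S : Sy F V Γ) {B : Subgroup Γ} (hB : B ≤ S.E) {n : Γ} (hn : S.Nz B n)
    {ι : Type*} [Fintype ι] (u : ι → V) (hu : ∀ i, Ev F B (u i))
    (hd : ∀ i j, i ≠ j → Df F B (u i) (u j)) (hs : n • ∑ i, u i = ∑ i, u i) (i : ι) :
    ∃ j, n • u i = u j := by
  classical
  have hu0 := (S.ev_smul hB hn (hu i)).1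
  have dich : ∀ j, Df F B (n • u i) (u j) ∨
      ∀ a ∈ B, ∀ c : F, a • n • u i = c • n • u i → a • u j = c • u j := by
    intro j
    by_contra hcon
    rw [not_or] at hcon
    refine hcon.2 fun a ha c hc => ?_
    obtain ⟨c', hc'⟩ := (hu j).2 a ha
    by_cases h : c = c'
    · rw [h, hc']
    · exact absurd ⟨a, ha, c, c', h, hc, hc'⟩ hcon.1
  obtain ⟨L, h0, h1⟩ := S.proj hB (n • u i) hu0
    (((Finset.univ.erase i).image fun j => n • u j) ∪
      ((Finset.univ.filter fun j => Df F B (n • u i) (u j)).image u)) (by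
    intro z hz
    rcases Finset.mem_union.1 hz with hz | hz
    · obtain ⟨j, hj, rfl⟩ := Finset.mem_image.1 hz
      exact ⟨S.ev_smul hB hn (hu j), S.df_smul hB hn (hd i j (Finset.ne_of_mem_erase hj).symm)⟩
    · obtain ⟨j, hj, rfl⟩ := Finset.mem_image.1 hz
      exact ⟨hu j, (Finset.mem_filter.1 hj).2⟩)
  have e1 : L (n • ∑ j, u j) = n • u i := by
    rw [Finset.smul_sum, map_sum, Finset.sum_eq_single i]
    · exact h1 _ fun _ _ _ h => h
    · intro j _ hj
      exact h0 _ (Finset.mem_union_left _ (Finset.mem_image_of_mem _ (by simp [hj])))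
    · simp
  have hz : ∀ j, Df F B (n • u i) (u j) → L (u j) = 0 := fun j hj =>
    h0 _ (Finset.mem_union_right _ (Finset.mem_image_of_mem _ (by simp [hj])))
  rw [hs, map_sum] at e1
  by_cases hex : ∃ j, ¬ Df F B (n • u i) (u j)
  · obtain ⟨j, hj⟩ := hex
    have hj' := (dich j).resolve_left hj
    refine ⟨j, ?_⟩
    rw [← e1, Finset.sum_eq_single j]
    · exact h1 _ hj'
    · intro k _ hk
      refine hz k ((dich k).resolve_right fun hk' => ?_)
      obtain ⟨a, ha, c, c', hcc, h2, h3⟩ := hd k j hk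
      obtain ⟨d, hd'⟩ := (S.ev_smul hB hn (hu i)).2 a ha
      have e2 := smul_cancel (hu k).1 (h2.symm.trans (hk' a ha d hd'))
      have e3 := smul_cancel (hu j).1 (h3.symm.trans (hj' a ha d hd'))
      exact hcc (e2.trans e3.symm)
    · simp
  · push Not at hex
    rw [Finset.sum_eq_zero fun j _ => hz j (hex j)] at e1
    exact absurd e1.symm hu0

theorem Sy.perm3 (S : Sy F V Γ) {B : Subgroup Γ} (hB : B ≤ S.E) {n : Γ} (hn : S.Nz B n)
    {a b c : V} (ha : Ev F B a) (hb : Ev F B b) (hc : Ev F B c) (hab : Df F B a b)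
    (hac : Df F B a c) (hbc : Df F B b c) (hs : n • (a + b + c) = a + b + c) :
    (n • a = a ∨ n • a = b ∨ n • a = c) ∧ (n • b = a ∨ n • b = b ∨ n • b = c) ∧
      (n • c = a ∨ n • c = b ∨ n • c = c) := by
  have key := S.perm hB hn ![a, b, c] (by intro i; fin_cases i <;> assumption) (by
    intro i j hij
    fin_cases i <;> fin_cases j <;>
      first | exact absurd rfl hij | assumption | exact Df.symm ‹_›)
    (by simpa [Fin.sum_univ_three] using hs)
  have k : ∀ z : V, (∃ j, z = ![a, b, c] j) → z = a ∨ z = b ∨ z = c := by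
    rintro z ⟨j, hj⟩
    fin_cases j
    exacts [Or.inl hj, Or.inr (Or.inl hj), Or.inr (Or.inr hj)]
  exact ⟨k _ (key 0), k _ (key 1), k _ (key 2)⟩

theorem Sy.perm2 (S : Sy F V Γ) {B : Subgroup Γ} (hB : B ≤ S.E) {n : Γ} (hn : S.Nz B n)
    {a b : V} (ha : Ev F B a) (hb : Ev F B b) (hab : Df F B a b) (hs : n • (a + b) = a + b) :
    (n • a = a ∧ n • b = b) ∨ (n • a = b ∧ n • b = a) := by
  obtain ⟨j, hj⟩ := S.perm hB hn ![a, b] (by intro i; fin_cases i <;> assumption) (by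
    intro i j hij
    fin_cases i <;> fin_cases j <;>
      first | exact absurd rfl hij | assumption | exact Df.symm ‹_›)
    (by simpa [Fin.sum_univ_two] using hs) 0
  rw [smul_add] at hs
  fin_cases j
  · have hj' : n • a = a := hj
    rw [hj'] at hs
    exact Or.inl ⟨hj', add_left_cancel hs⟩
  · have hj' : n • a = b := hj
    rw [hj', add_comm a b] at hs
    exact Or.inr ⟨hj', add_left_cancel hs⟩

/-- Lemma S -/
theorem Sy.lemS (S : Sy F V Γ) {B B' : Subgroup Γ} {w : V} (hw : w ≠ 0) (hB' : B' ≤ S.st w)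
    {b : Γ} (hb : b ∈ S.E) (hB : ∀ x, x ∈ B ↔ x ∈ B' ∧ Commute x b)
    (hne : ∃ x ∈ B', ¬ Commute x b) {n : Γ} (hn : n ∈ S.M) (hD : S.Dd B' n)
    (hx : ∃ x ∈ B, n * b * n⁻¹ = b * x) : S.Dd B n := by
  refine ⟨hD.1, fun y hy hc => ?_⟩
  obtain ⟨x₁, hx₁, hne⟩ := hne
  obtain ⟨x, hx, hnb⟩ := hx
  have hE : ∀ z ∈ B', z ∈ S.E := fun z hz => (hB' hz).1
  have hζ : S.κ x₁ b ≠ 1 := fun h => hne ((S.κ_one (hE _ hx₁) hb).1 h)
  obtain ⟨k, hk⟩ := S.root hζ (S.κ_pow (hE _ hx₁) hb) (S.κ_pow (hE _ hx₁) hy)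
  have hbk := S.E.pow_mem hb k
  have hy₀ : y * (b ^ k)⁻¹ ∈ S.E := S.E.mul_mem hy (S.E.inv_mem hbk)
  have c1 : Commute x₁ (y * (b ^ k)⁻¹) := by
    rw [← S.κ_one (hE _ hx₁) hy₀, S.κ_mul_right (hE _ hx₁) hy (S.E.inv_mem hbk),
      S.κ_inv_right (hE _ hx₁) hbk, S.κ_pow_right (hE _ hx₁) hb, hk, mul_inv_cancel]
  have c2 : ∀ z ∈ B', Commute z (y * (b ^ k)⁻¹) := by
    intro z hz
    obtain ⟨l, hl⟩ := S.root hζ (S.κ_pow (hE _ hx₁) hb) (S.κ_pow (hE _ hz) hb)
    have hxl := B'.pow_mem hx₁ l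
    have hz' : z * (x₁ ^ l)⁻¹ ∈ B' := B'.mul_mem hz (B'.inv_mem hxl)
    have c3 : Commute (z * (x₁ ^ l)⁻¹) b := by
      rw [← S.κ_one (hE _ hz') hb, S.κ_mul_left (hE _ hz) (S.E.inv_mem (hE _ hxl)) hb,
        S.κ_inv_left (hE _ hxl) hb, S.κ_pow_left (hE _ hx₁) hb, hl, mul_inv_cancel]
    have c4 : Commute (z * (x₁ ^ l)⁻¹) (y * (b ^ k)⁻¹) :=
      (hc _ ((hB _).2 ⟨hz', c3⟩)).mul_right (c3.pow_right k).inv_right
    simpa using c4.mul_left (c1.pow_left l)
  obtain ⟨y', hy', c, hc'⟩ := hD.2 _ hy₀ c2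
  obtain ⟨hxB, hxb⟩ := (hB x).1 hx
  have c5 : Commute y' b := by
    have h := S.κ_conj hn hD.1 hy₀ hb
    rw [hc', hnb, S.κ_mul_left (S.E.mul_mem hy₀ (hE _ hy')) (S.ιE c) (S.E.mul_mem hb (hE _ hxB)),
      S.κ_ι_left (S.E.mul_mem hb (hE _ hxB)), mul_one,
      S.κ_mul_left hy₀ (hE _ hy') (S.E.mul_mem hb (hE _ hxB)),
      S.κ_mul_right hy₀ hb (hE _ hxB), S.κ_mul_right (hE _ hy') hb (hE _ hxB),
      (S.κ_one hy₀ (hE _ hxB)).2 (c2 x hxB).symm,
      (S.κ_one (hE _ hy') (hE _ hxB)).2 (S.st_comm hw (hB' hy') (hB' hxB))] at h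
    rw [← S.κ_one (hE _ hy') hb]
    simpa using h
  refine ⟨y' * x ^ k, B.mul_mem ((hB _).2 ⟨hy', c5⟩) (B.pow_mem hx k), c, ?_⟩
  have e1 : n * b ^ k * n⁻¹ = b ^ k * x ^ k := by
    rw [← hxb.symm.mul_pow, ← hnb, conj_pow]
  have e2 := (S.cen c _ (S.E.mul_mem hbk (S.E.pow_mem (hE _ hxB) k))).eq
  have e3 := (c5.pow_right k).eq
  calc n * y * n⁻¹ = n * (y * (b ^ k)⁻¹) * n⁻¹ * (n * b ^ k * n⁻¹) := by group
    _ = y * (b ^ k)⁻¹ * y' * (S.ι c * (b ^ k * x ^ k)) := by rw [hc', e1]; group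
    _ = y * (b ^ k)⁻¹ * (y' * b ^ k) * x ^ k * S.ι c := by rw [e2]; group
    _ = _ := by rw [e3]; group

/-- at a vector with a largest stabiliser `B`, `C_E(B) / B Z` is anisotropic -/
theorem Sy.max_cent (S : Sy F V Γ) {v₀ : V} (hv : v₀ ≠ 0)
    (hmax : ∀ u : V, u ≠ 0 → Nat.card (S.st u) ≤ Nat.card (S.st v₀)) {y : Γ} (hy : y ∈ S.E)
    (hc : ∀ b ∈ S.st v₀, Commute b y) (h1 : y ^ S.r = 1) :
    ∃ b ∈ S.st v₀, ∃ c, y = b * S.ι c := by
  obtain ⟨u, hs, he, hf⟩ := S.eig_sum hy h1 v₀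
  obtain ⟨j, hj⟩ : ∃ j, u j ≠ 0 := by
    by_contra h
    push Not at h
    exact hv (by rw [← hs]; simp [h])
  obtain ⟨c, hc'⟩ := he j
  have hle : S.st v₀ ≤ S.st (u j) := fun b hb => S.mem_st.2 ⟨hb.1, by
    simpa using hf j b hb.1 1 (hc b hb) (by simpa using (S.mem_st.1 hb).2)⟩
  refine ⟨y * S.ι c⁻¹, ?_, c, by simp⟩
  rw [← S.max_eq hmax hj hle]
  refine S.mem_st.2 ⟨S.E.mul_mem hy (S.ιE _), ?_⟩
  rw [mul_smul, S.hι, S.lin hy, hc', smul_smul]; simp

theorem two_ne_of_ns (hns : ¬ IsSquare (-1 : F)) : (2 : F) ≠ 0 := by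
  intro h
  refine hns ⟨1, ?_⟩
  linear_combination (-1 : F) * h

/-- a zero divisor of the quaternion algebra -/
theorem Sy.xi (S : Sy F V Γ) (hns : ¬ IsSquare (-1 : F)) {t t' : Γ} (ht : t ∈ S.E)
    (ht' : t' ∈ S.E) (h2 : t ^ 2 = S.ι (-1)) (h2' : t' ^ 2 = S.ι (-1)) (hκ : S.κ t t' = -1)
    {u : V} (hu : u ≠ 0) :
    ∃ α β : ℕ, ((α : F) ^ 2 + (β : F) ^ 2 + 1 = 0) ∧ ∃ u' : V,
      (u' = u ∨ u' = t • u) ∧
      α • t • u' + β • t' • u' + t • t' • u' ≠ 0 ∧
      ∀ z : V, α • t • (α • t • z + β • t' • z + t • t' • z) +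
        β • t' • (α • t • z + β • t' • z + t • t' • z) +
        t • t' • (α • t • z + β • t' • z + t • t' • z) = 0 := by
  haveI : Finite F := Finite.of_injective _ (smul_left_injective F hu)
  obtain ⟨p, hp⟩ := CharP.exists F
  haveI : NeZero p := ⟨CharP.char_ne_zero_of_finite F p⟩
  obtain ⟨α, β, hab⟩ := CharP.sq_add_sq F p (-1)
  have hab' : (α : F) ^ 2 + (β : F) ^ 2 + 1 = 0 := by rw [hab]; simp
  have tt : ∀ z : V, t • t • z = -z := fun z => by
    rw [← mul_smul, ← pow_two, h2, S.hι]; simp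
  have tt' : ∀ z : V, t' • t' • z = -z := fun z => by
    rw [← mul_smul, ← pow_two, h2', S.hι]; simp
  have ac : ∀ z : V, t' • t • z = -(t • t' • z) := fun z => by
    rw [S.κ_smul ht ht', hκ]; simp
  refine ⟨α, β, hab', ?_⟩
  have hsq : ∀ z : V, α • t • (α • t • z + β • t' • z + t • t' • z) +
        β • t' • (α • t • z + β • t' • z + t • t' • z) +
        t • t' • (α • t • z + β • t' • z + t • t' • z) = 0 := by
    intro z
    simp only [← Nat.cast_smul_eq_nsmul F, smul_add, S.lin ht, S.lin ht', tt, tt', ac, smul_neg,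
      neg_neg]
    generalize t • t' • z = c
    generalize t • z = a
    generalize t' • z = b
    linear_combination (norm := module) -(hab' • z)
  by_contra hcon
  have a1 : α • t • u + β • t' • u + t • t' • u = 0 := by
    by_contra h; exact hcon ⟨u, Or.inl rfl, h, hsq⟩
  have a2 : α • t • t • u + β • t' • t • u + t • t' • t • u = 0 := by
    by_contra h; exact hcon ⟨t • u, Or.inr rfl, h, hsq⟩
  have a3 := congrArg (fun z => t • z) a1
  simp only [← Nat.cast_smul_eq_nsmul F, smul_add, S.lin ht, tt, ac, smul_neg, neg_neg,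
    smul_zero] at a2 a3
  have a4 : (2 * α : F) • u = (0 : F) • u := by
    generalize t • t' • u = c at a2 a3
    generalize t' • u = b at a2 a3
    linear_combination (norm := module) -a2 - a3
  have a5 : (α : F) = 0 :=
    (mul_eq_zero.1 (smul_cancel hu a4)).resolve_left (two_ne_of_ns hns)
  exact hns ⟨β, by rw [a5] at hab'; linear_combination -hab'⟩

end H64.C3
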