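import Cfsg.Agent.Lib.C3.Defs

/-! # C3: basic API for groups of symplectic type (part 1) -/

set_option autoImplicit false
set_option linter.unusedSectionVars false

namespace H64.C3

variable {F V Γ : Type*} [Field F] [AddCommGroup V] [Module F V] [Group Γ]
  [DistribMulAction Γ V] [Finite V] [Nontrivial V] [Finite Γ] [FaithfulSMul Γ V]

theorem smul_cancel {v : V} (hv : v ≠ 0) {a b : F} (h : a • v = b • v) : a = b :=
  smul_left_injective F hv h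

theorem Sy.ι_inj (S : Sy F V Γ) : Function.Injective S.ι := by
  intro a b h
  obtain ⟨v, hv⟩ := exists_ne (0 : V)
  have h1 := S.hι a v
  rw [h, S.hι] at h1
  exact Units.ext (smul_cancel hv h1).symm

theorem Sy.lin (S : Sy F V Γ) {x : Γ} (hx : x ∈ S.E) (c : F) (v : V) :
    x • c • v = c • x • v := by
  by_cases hc : c = 0
  · simp [hc]
  · have h := S.cen (Units.mk0 c hc) x hx
    have h1 := S.hι (Units.mk0 c hc)
    simp only [Units.val_mk0] at h1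
    rw [← h1, ← h1, ← mul_smul, ← mul_smul, h.eq]

theorem Sy.E_le_M (S : Sy F V Γ) : S.E ≤ S.M := Subgroup.le_normalizer

theorem Sy.conj_mem (S : Sy F V Γ) {n x : Γ} (hn : n ∈ S.M) (hx : x ∈ S.E) :
    n * x * n⁻¹ ∈ S.E := (Subgroup.mem_normalizer_iff.1 hn x).1 hx

theorem Sy.conj_mem' (S : Sy F V Γ) {n x : Γ} (hn : n ∈ S.M) (hx : x ∈ S.E) :
    n⁻¹ * x * n ∈ S.E := by simpa using S.conj_mem (S.M.inv_mem hn) hx

theorem Sy.conj_ι (S : Sy F V Γ) {n : Γ} (hn : n ∈ S.M) (c : Fˣ) :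
    ∃ c', n * S.ι c * n⁻¹ = S.ι c' := by
  refine S.nd _ (S.conj_mem hn (S.ιE c)) ?_
  intro y hy
  have h := (S.cen c _ (S.conj_mem' hn hy)).eq
  change n * S.ι c * n⁻¹ * y = y * (n * S.ι c * n⁻¹)
  calc n * S.ι c * n⁻¹ * y = n * (S.ι c * (n⁻¹ * y * n)) * n⁻¹ := by group
    _ = n * (n⁻¹ * y * n * S.ι c) * n⁻¹ := by rw [h]
    _ = _ := by group

theorem semi_of_weak {k : Γ} (h : ∀ f : F, ∃ f' : F, ∀ v : V, k • (f • v) = f' • k • v) :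
    Semi F V k := by
  choose σ hσ using h
  obtain ⟨v, hv⟩ := exists_ne (0 : V)
  have hk : k • v ≠ 0 := (smul_ne_zero_iff_ne k).2 hv
  refine ⟨⟨⟨⟨σ, ?_⟩, ?_⟩, ?_, ?_⟩, hσ⟩
  · apply smul_cancel hk; rw [← hσ]; simp
  · intro a b; apply smul_cancel hk
    change σ (a * b) • k • v = (σ a * σ b) • k • v
    rw [← hσ, mul_smul, hσ, hσ, mul_smul]
  · apply smul_cancel hk
    change σ 0 • k • v = (0 : F) • k • v
    rw [← hσ]; simp
  · intro a b; apply smul_cancel hk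
    change σ (a + b) • k • v = (σ a + σ b) • k • v
    rw [← hσ, add_smul, smul_add, hσ, hσ, add_smul]

theorem Sy.semi (S : Sy F V Γ) {n : Γ} (hn : n ∈ S.M) : Semi F V n := by
  refine semi_of_weak fun f => ?_
  by_cases hf : f = 0
  · exact ⟨0, fun v => by simp [hf]⟩
  · obtain ⟨c', hc⟩ := S.conj_ι hn (Units.mk0 f hf)
    refine ⟨c', fun v => ?_⟩
    have h1 := S.hι (Units.mk0 f hf) v
    simp only [Units.val_mk0] at h1
    rw [← h1, ← S.hι, ← hc, ← mul_smul, ← mul_smul]; congr 1; group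

theorem Sy.mem_st (S : Sy F V Γ) {x : Γ} {v : V} : x ∈ S.st v ↔ x ∈ S.E ∧ x • v = v := Iff.rfl

theorem Sy.st_le (S : Sy F V Γ) (v : V) : S.st v ≤ S.E := inf_le_left

theorem Sy.ι_st (S : Sy F V Γ) {v : V} (hv : v ≠ 0) {c : Fˣ} (h : S.ι c ∈ S.st v) : c = 1 := by
  have h1 := (S.mem_st.1 h).2
  rw [S.hι] at h1
  exact Units.ext (smul_cancel hv (by simpa using h1))

open Classical in
/-- commutator form -/
noncomputable def Sy.κ (S : Sy F V Γ) (x y : Γ) : Fˣ :=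
  if h : ∃ c : Fˣ, x * y = S.ι c * (y * x) then h.choose else 1

theorem Sy.κ_spec (S : Sy F V Γ) {x y : Γ} (hx : x ∈ S.E) (hy : y ∈ S.E) :
    x * y = S.ι (S.κ x y) * (y * x) := by
  have h : ∃ c : Fˣ, x * y = S.ι c * (y * x) := by
    obtain ⟨c, -, h⟩ := S.com x hx y hy; exact ⟨c, h⟩
  unfold Sy.κ; rw [dif_pos h]; exact h.choose_spec

theorem Sy.κ_eq (S : Sy F V Γ) {x y : Γ} (hx : x ∈ S.E) (hy : y ∈ S.E) {c : Fˣ}
    (h : x * y = S.ι c * (y * x)) : S.κ x y = c := by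
  apply S.ι_inj
  have := S.κ_spec hx hy
  rw [h] at this
  exact (mul_right_cancel this).symm

theorem Sy.κ_pow (S : Sy F V Γ) {x y : Γ} (hx : x ∈ S.E) (hy : y ∈ S.E) :
    S.κ x y ^ S.r = 1 := by
  obtain ⟨c, h1, h⟩ := S.com x hx y hy
  rw [S.κ_eq hx hy h, h1]

theorem Sy.κ_one (S : Sy F V Γ) {x y : Γ} (hx : x ∈ S.E) (hy : y ∈ S.E) :
    S.κ x y = 1 ↔ Commute x y := by
  constructor
  · intro h
    have := S.κ_spec hx hy
    rw [h, map_one, one_mul] at this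
    exact this
  · intro h
    exact S.κ_eq hx hy (by rw [map_one, one_mul]; exact h)

theorem Sy.κ_mul_left (S : Sy F V Γ) {x x' y : Γ} (hx : x ∈ S.E) (hx' : x' ∈ S.E)
    (hy : y ∈ S.E) : S.κ (x * x') y = S.κ x y * S.κ x' y := by
  refine S.κ_eq (S.E.mul_mem hx hx') hy ?_
  have h1 := S.κ_spec hx hy
  have h2 := S.κ_spec hx' hy
  have h3 := (S.cen (S.κ x' y) x hx).eq
  calc x * x' * y = x * (x' * y) := by group
    _ = x * S.ι (S.κ x' y) * (y * x') := by rw [h2]; group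
    _ = S.ι (S.κ x' y) * (x * y) * x' := by rw [← h3]; group
    _ = _ := by rw [h1, mul_comm (S.κ x y), map_mul]; group

theorem Sy.κ_symm (S : Sy F V Γ) {x y : Γ} (hx : x ∈ S.E) (hy : y ∈ S.E) :
    S.κ y x = (S.κ x y)⁻¹ := by
  refine S.κ_eq hy hx ?_
  rw [S.κ_spec hx hy, map_inv]; group

theorem Sy.κ_mul_right (S : Sy F V Γ) {x y y' : Γ} (hx : x ∈ S.E) (hy : y ∈ S.E)
    (hy' : y' ∈ S.E) : S.κ x (y * y') = S.κ x y * S.κ x y' := by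
  rw [S.κ_symm (S.E.mul_mem hy hy') hx, S.κ_mul_left hy hy' hx, S.κ_symm hy hx, S.κ_symm hy' hx,
    mul_inv]

theorem Sy.κ_pow_left (S : Sy F V Γ) {x y : Γ} (hx : x ∈ S.E) (hy : y ∈ S.E) (k : ℕ) :
    S.κ (x ^ k) y = S.κ x y ^ k := by
  induction k with
  | zero => simpa using (S.κ_one S.E.one_mem hy).2 (Commute.one_left y)
  | succ k ih => rw [pow_succ, S.κ_mul_left (S.E.pow_mem hx k) hx hy, ih, pow_succ]

theorem Sy.κ_pow_right (S : Sy F V Γ) {x y : Γ} (hx : x ∈ S.E) (hy : y ∈ S.E) (k : ℕ) :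
    S.κ x (y ^ k) = S.κ x y ^ k := by
  rw [S.κ_symm (S.E.pow_mem hy k) hx, S.κ_pow_left hy hx, S.κ_symm hy hx, inv_pow]

theorem Sy.κ_ι_left (S : Sy F V Γ) {y : Γ} (hy : y ∈ S.E) (c : Fˣ) : S.κ (S.ι c) y = 1 :=
  (S.κ_one (S.ιE c) hy).2 (S.cen c y hy)

theorem Sy.κ_ι_right (S : Sy F V Γ) {y : Γ} (hy : y ∈ S.E) (c : Fˣ) : S.κ y (S.ι c) = 1 :=
  (S.κ_one hy (S.ιE c)).2 (S.cen c y hy).symm

theorem Sy.κ_inv_right (S : Sy F V Γ) {x y : Γ} (hx : x ∈ S.E) (hy : y ∈ S.E) :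
    S.κ x y⁻¹ = (S.κ x y)⁻¹ := by
  have := S.κ_mul_right hx hy (S.E.inv_mem hy)
  rw [mul_inv_cancel, (S.κ_one hx S.E.one_mem).2 (Commute.one_right x)] at this
  exact eq_inv_of_mul_eq_one_right this.symm

theorem Sy.κ_inv_left (S : Sy F V Γ) {x y : Γ} (hx : x ∈ S.E) (hy : y ∈ S.E) :
    S.κ x⁻¹ y = (S.κ x y)⁻¹ := by
  rw [S.κ_symm hy (S.E.inv_mem hx), S.κ_inv_right hy hx, S.κ_symm hx hy, inv_inv]

theorem Sy.root (S : Sy F V Γ) {ζ η : Fˣ} (h1 : ζ ≠ 1) (hζ : ζ ^ S.r = 1) (hη : η ^ S.r = 1) :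
    ∃ k : ℕ, η = ζ ^ k := by
  haveI : Fact S.r.Prime := ⟨S.hr⟩
  haveI : NeZero S.r := ⟨S.hr.ne_zero⟩
  have ho : orderOf ζ = S.r := orderOf_eq_prime hζ h1
  have hp : IsPrimitiveRoot ζ S.r := ho ▸ IsPrimitiveRoot.orderOf ζ
  obtain ⟨i, -, hi⟩ := hp.eq_pow_of_mem_rootsOfUnity (ξ := η) ((mem_rootsOfUnity _ _).2 hη)
  exact ⟨i, hi.symm⟩

theorem Sy.ω_ne (S : Sy F V Γ) : S.ω ≠ 1 := by
  intro h
  have := S.hω
  rw [h, orderOf_one] at this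
  exact S.hr.one_lt.ne this

theorem Sy.ω_pow (S : Sy F V Γ) : S.ω ^ S.r = 1 := S.hω ▸ pow_orderOf_eq_one _

theorem Sy.prim (S : Sy F V Γ) : IsPrimitiveRoot (S.ω : F) S.r :=
  IsPrimitiveRoot.coe_units_iff.2 (S.hω ▸ IsPrimitiveRoot.orderOf S.ω)

theorem Sy.r_ne (S : Sy F V Γ) : (S.r : F) ≠ 0 := by
  haveI : NeZero S.r := ⟨S.hr.ne_zero⟩
  exact S.prim.neZero'.out

theorem Sy.κ_conj (S : Sy F V Γ) {n x y : Γ} (hn : n ∈ S.M) (hω : Commute n (S.ι S.ω))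
    (hx : x ∈ S.E) (hy : y ∈ S.E) : S.κ (n * x * n⁻¹) (n * y * n⁻¹) = S.κ x y := by
  refine S.κ_eq (S.conj_mem hn hx) (S.conj_mem hn hy) ?_
  obtain ⟨k, hk⟩ := S.root S.ω_ne S.ω_pow (S.κ_pow hx hy)
  have h1 : Commute n (S.ι (S.κ x y)) := by rw [hk, map_pow]; exact hω.pow_right k
  calc n * x * n⁻¹ * (n * y * n⁻¹) = n * (x * y) * n⁻¹ := by group
    _ = n * S.ι (S.κ x y) * (y * x) * n⁻¹ := by rw [S.κ_spec hx hy]; group
    _ = _ := by rw [h1.eq]; group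

/-- `x (y v) = κ(x,y) y (x v)` -/
theorem Sy.κ_smul (S : Sy F V Γ) {x y : Γ} (hx : x ∈ S.E) (hy : y ∈ S.E) (v : V) :
    x • y • v = (S.κ x y : F) • y • x • v := by
  rw [← mul_smul, S.κ_spec hx hy, mul_smul, S.hι, mul_smul]

theorem Sy.st_comm (S : Sy F V Γ) {v : V} (hv : v ≠ 0) {x y : Γ} (hx : x ∈ S.st v)
    (hy : y ∈ S.st v) : Commute x y := by
  rw [← S.κ_one hx.1 hy.1]
  have h := S.κ_smul hx.1 hy.1 v
  rw [(S.mem_st.1 hx).2, (S.mem_st.1 hy).2, (S.mem_st.1 hx).2] at h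
  exact Units.ext (smul_cancel hv (by simpa using h.symm))

theorem Sy.pow_ι (S : Sy F V Γ) {x : Γ} (hx : x ∈ S.E) : ∃ c, x ^ S.r = S.ι c := by
  refine S.nd _ (S.E.pow_mem hx _) fun y hy => ?_
  rw [← S.κ_one (S.E.pow_mem hx _) hy, S.κ_pow_left hx hy, S.κ_pow hx hy]

theorem Sy.st_pow (S : Sy F V Γ) {v : V} (hv : v ≠ 0) {x : Γ} (hx : x ∈ S.st v) :
    x ^ S.r = 1 := by
  obtain ⟨c, hc⟩ := S.pow_ι hx.1
  have := S.ι_st hv (hc ▸ (S.st v).pow_mem hx S.r)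
  rw [hc, this, map_one]

theorem Sy.st_conj (S : Sy F V Γ) {n x : Γ} (hn : n ∈ S.M) {v : V} (hx : x ∈ S.st v) :
    n * x * n⁻¹ ∈ S.st (n • v) := by
  refine S.mem_st.2 ⟨S.conj_mem hn hx.1, ?_⟩
  rw [mul_smul, mul_smul, inv_smul_smul, (S.mem_st.1 hx).2]

theorem Sy.card_st (S : Sy F V Γ) {n : Γ} (hn : n ∈ S.M) (v : V) :
    Nat.card (S.st (n • v)) = Nat.card (S.st v) := by
  have key : ∀ m ∈ S.M, ∀ u : V, Nat.card (S.st u) ≤ Nat.card (S.st (m • u)) := by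
    intro m hm u
    refine Nat.card_le_card_of_injective
      (fun x : S.st u => (⟨m * x * m⁻¹, S.st_conj hm x.2⟩ : S.st (m • u))) ?_
    intro a b h
    have := congrArg Subtype.val h
    exact Subtype.ext (by simpa using this)
  refine le_antisymm ?_ (key n hn v)
  simpa using key n⁻¹ (S.M.inv_mem hn) (n • v)

/-- a non-trivial element fixing a non-zero vector is not central -/
theorem Sy.exists_b (S : Sy F V Γ) {v : V} (hv : v ≠ 0) {x : Γ} (hx : x ∈ S.st v) (h1 : x ≠ 1) :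
    ∃ b ∈ S.E, S.κ x b ≠ 1 ∧ (b ^ S.r = 1 ∨ (S.r = 2 ∧ b ^ 2 = S.ι (-1))) := by
  by_contra hcon
  have : ∀ y ∈ S.E, Commute x y := by
    intro y hy
    obtain ⟨c, hc⟩ := S.sq y hy
    rw [← S.κ_one hx.1 hy]
    by_contra hne
    refine hcon ⟨y * S.ι c, S.E.mul_mem hy (S.ιE c), ?_, ?_⟩
    · rwa [S.κ_mul_right hx.1 hy (S.ιE c), S.κ_ι_right hx.1, mul_one]
    · rcases hc with h | ⟨h, h', -⟩
      exacts [Or.inl h, Or.inr ⟨h, h'⟩]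
  obtain ⟨c, hc⟩ := S.nd x hx.1 this
  have := S.ι_st hv (hc ▸ hx)
  exact h1 (by rw [hc, this, map_one])

theorem Sy.exists_max (S : Sy F V Γ) :
    ∃ v₀ : V, v₀ ≠ 0 ∧ ∀ u : V, u ≠ 0 → Nat.card (S.st u) ≤ Nat.card (S.st v₀) := by
  obtain ⟨v, hv⟩ := exists_ne (0 : V)
  obtain ⟨v₀, h0, h⟩ := Set.exists_max_image {u : V | u ≠ 0} (fun u => Nat.card (S.st u))
    (Set.toFinite _) ⟨v, hv⟩
  exact ⟨v₀, h0, h⟩

theorem Sy.max_eq (S : Sy F V Γ) {v₀ : V}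
    (hmax : ∀ u : V, u ≠ 0 → Nat.card (S.st u) ≤ Nat.card (S.st v₀)) {u : V} (hu : u ≠ 0)
    (hle : S.st v₀ ≤ S.st u) : S.st u = S.st v₀ :=
  (Subgroup.eq_of_le_of_card_ge hle (hmax u hu)).symm

theorem Sy.nz_E (S : Sy F V Γ) {B : Subgroup Γ} (hB : B ≤ S.E) {y : Γ} (hy : y ∈ S.E) :
    S.Nz B y := by
  have key : ∀ y ∈ S.E, ∀ b ∈ B, ∃ b' ∈ B, ∃ c, y * b * y⁻¹ = b' * S.ι c := by
    intro y hy b hb
    refine ⟨b, hb, S.κ y b, ?_⟩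
    rw [S.κ_spec hy (hB hb), ← (S.cen _ b (hB hb)).eq]; group
  exact ⟨S.E_le_M hy, key y hy, by simpa using key y⁻¹ (S.E.inv_mem hy)⟩

theorem Sy.nz_fix (S : Sy F V Γ) {n : Γ} (hn : n ∈ S.M) {v : V} (hv : n • v = v) :
    S.Nz (S.st v) n := by
  have key : ∀ n ∈ S.M, n • v = v → ∀ b ∈ S.st v, ∃ b' ∈ S.st v, ∃ c, n * b * n⁻¹ = b' * S.ι c := by
    intro n hn hv b hb
    exact ⟨_, hv ▸ S.st_conj hn hb, 1, by simp⟩
  exact ⟨hn, key n hn hv, by simpa using key n⁻¹ (S.M.inv_mem hn) (inv_smul_eq_iff.2 hv.symm)⟩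

end H64.C3
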