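import Mathlib

/-! # 3-closure of a solvable permutation group: definitions (blueprint `C3.md`) -/

set_option autoImplicit false

namespace H64.C3

universe u

/-- `B` acts trivially on `Δ` as soon as it lies in the 3-closure of a solvable group. -/
def Tr (B Δ : Type u) [Group B] : Prop :=
  ∀ (A : Type u) [Group A] [Group.IsSolvable A] [MulAction A Δ] [MulAction B Δ],
    (∀ (h : B) (a b c : Δ), ∃ g : A, g • a = h • a ∧ g • b = h • b ∧ g • c = h • c) →
    ∀ (h : B) (a : Δ), h • a = a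

/-- the induction hypothesis -/
def IH (B : Type u) [Group B] (n : ℕ) : Prop :=
  ∀ (Δ : Type u) [Finite Δ], Nat.card Δ < n → Tr B Δ

section aff

variable {Γ : Type*} [Group Γ]

/-- `B` lies in the 3-closure of the affine group `V ⋊ G`. -/
def Aff (G : Subgroup Γ) (B V : Type*) [AddCommGroup V] [DistribMulAction Γ V] [SMul B V] : Prop :=
  ∀ (h : B) (a b c : V), ∃ g ∈ G, ∃ t : V,
    g • a + t = h • a ∧ g • b + t = h • b ∧ g • c + t = h • c

/-- `G` is irreducible on the additive group `V`. -/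
def Irr (G : Subgroup Γ) (V : Type*) [AddCommGroup V] [DistribMulAction Γ V] : Prop :=
  ∀ W : AddSubgroup V, (∀ g ∈ G, ∀ v ∈ W, g • v ∈ W) → W = ⊥ ∨ W = ⊤

/-- the elements agreeing with an element of `G` on any two vectors -/
def cl2 (G : Subgroup Γ) (V : Type*) [MulAction Γ V] : Subgroup Γ where
  carrier := {k | ∀ v w : V, ∃ g ∈ G, g • v = k • v ∧ g • w = k • w}
  one_mem' := fun _ _ => ⟨1, G.one_mem, rfl, rfl⟩
  mul_mem' := by
    intro k k' hk hk' v w
    obtain ⟨g', hg', h1, h2⟩ := hk' v w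
    obtain ⟨g, hg, h3, h4⟩ := hk (k' • v) (k' • w)
    exact ⟨g * g', G.mul_mem hg hg', by rw [mul_smul, mul_smul, h1, h3],
      by rw [mul_smul, mul_smul, h2, h4]⟩
  inv_mem' := by
    intro k hk v w
    obtain ⟨g, hg, h1, h2⟩ := hk (k⁻¹ • v) (k⁻¹ • w)
    rw [smul_inv_smul] at h1 h2
    exact ⟨g⁻¹, G.inv_mem hg, by rw [inv_smul_eq_iff, h1], by rw [inv_smul_eq_iff, h2]⟩

theorem mem_cl2 {G : Subgroup Γ} {V : Type*} [MulAction Γ V] {k : Γ} :
    k ∈ cl2 G V ↔ ∀ v w : V, ∃ g ∈ G, g • v = k • v ∧ g • w = k • w := Iff.rfl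

theorem le_cl2 (G : Subgroup Γ) (V : Type*) [MulAction Γ V] : G ≤ cl2 G V :=
  fun g hg _ _ => ⟨g, hg, rfl, rfl⟩

/-- `k` acts semilinearly -/
def Semi (F V : Type*) [Field F] [AddCommGroup V] [Module F V] [DistribMulAction Γ V]
    (k : Γ) : Prop :=
  ∃ σ : F →+* F, ∀ (f : F) (v : V), k • (f • v) = σ f • k • v

end aff

/-- The affine form of `Tr`. -/
theorem Tr.aff {B Δ : Type u} [Group B] [AddCommGroup Δ] (hT : Tr B Δ) (A : Type u) [Group A]
    [Group.IsSolvable A] [DistribMulAction A Δ] [MulAction B Δ]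
    (hc : ∀ (h : B) (a b c : Δ), ∃ (g : A) (t : Δ),
      g • a + t = h • a ∧ g • b + t = h • b ∧ g • c + t = h • c) (h : B) (a : Δ) :
    h • a = a := by
  let φ : A →* MulAut (Multiplicative Δ) :=
    { toFun := fun g => AddEquiv.toMultiplicative (DistribMulAction.toAddEquiv Δ g)
      map_one' := by ext x; simp
      map_mul' := by intro g g'; ext x; simp [mul_smul] }
  have hφ : ∀ (g : A) (x : Multiplicative Δ), (φ g x).toAdd = g • x.toAdd := fun _ _ => rfl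
  letI : MulAction (Multiplicative Δ ⋊[φ] A) Δ :=
    { smul := fun s x => s.right • x + s.left.toAdd
      one_smul := by intro x; change (1 : A) • x + 0 = x; simp
      mul_smul := by
        intro s s' x
        change (s.right * s'.right) • x + (s.left * φ s.right s'.left).toAdd =
          s.right • (s'.right • x + s'.left.toAdd) + s.left.toAdd
        rw [toAdd_mul, hφ, mul_smul, smul_add]; abel }
  haveI : Group.IsSolvable (Multiplicative Δ ⋊[φ] A) :=
    solvable_of_ker_le_range SemidirectProduct.inl SemidirectProduct.rightHom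
      (by rw [SemidirectProduct.range_inl_eq_ker_rightHom])
  refine hT (Multiplicative Δ ⋊[φ] A) ?_ h a
  intro h a b c
  obtain ⟨g, t, h1, h2, h3⟩ := hc h a b c
  exact ⟨⟨Multiplicative.ofAdd t, g⟩, h1, h2, h3⟩

/-- A group of symplectic type `E` over the scalars `ι Fˣ`. -/
structure Sy (F V Γ : Type*) [Field F] [AddCommGroup V] [Module F V] [Group Γ]
    [DistribMulAction Γ V] where
  ι : Fˣ →* Γ
  E : Subgroup Γ
  r : ℕ
  ω : Fˣ
  hι : ∀ (c : Fˣ) (v : V), ι c • v = (c : F) • v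
  hr : r.Prime
  hω : orderOf ω = r
  ιE : ∀ c, ι c ∈ E
  cen : ∀ c, ∀ x ∈ E, Commute (ι c) x
  com : ∀ x ∈ E, ∀ y ∈ E, ∃ c : Fˣ, c ^ r = 1 ∧ x * y = ι c * (y * x)
  nd : ∀ x ∈ E, (∀ y ∈ E, Commute x y) → ∃ c, x = ι c
  sq : ∀ x ∈ E, ∃ c : Fˣ, (x * ι c) ^ r = 1 ∨
    (r = 2 ∧ (x * ι c) ^ 2 = ι (-1) ∧ ¬ IsSquare (-1 : F))
  ne : ∃ x ∈ E, ∀ c, x ≠ ι c

section sy

variable {F V Γ : Type*} [Field F] [AddCommGroup V] [Module F V] [Group Γ] [DistribMulAction Γ V]

/-- `u` is a common eigenvector of `A` -/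
def Ev (F : Type*) [Field F] [Module F V] (A : Subgroup Γ) (u : V) : Prop :=
  u ≠ 0 ∧ ∀ a ∈ A, ∃ c : F, a • u = c • u

/-- `u`, `u'` have different eigenvalues for an element of `A` -/
def Df (F : Type*) [Field F] [Module F V] (A : Subgroup Γ) (u u' : V) : Prop :=
  ∃ a ∈ A, ∃ c c' : F, c ≠ c' ∧ a • u = c • u ∧ a • u' = c' • u'

namespace Sy

variable (S : Sy F V Γ)

/-- the normaliser of `E` -/
def M : Subgroup Γ := Subgroup.normalizer (S.E : Set Γ)

/-- the stabiliser `E_v` -/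
def st (v : V) : Subgroup Γ := S.E ⊓ MulAction.stabilizer Γ v

/-- `n` normalises `E` and `B Z` -/
def Nz (B : Subgroup Γ) (n : Γ) : Prop :=
  n ∈ S.M ∧ (∀ b ∈ B, ∃ b' ∈ B, ∃ c, n * b * n⁻¹ = b' * S.ι c) ∧
    (∀ b ∈ B, ∃ b' ∈ B, ∃ c, n⁻¹ * b * n = b' * S.ι c)

/-- `n` fixes `ω` and acts trivially on `C_E(B) / B Z` -/
def Dd (B : Subgroup Γ) (n : Γ) : Prop :=
  Commute n (S.ι S.ω) ∧ ∀ y ∈ S.E, (∀ b ∈ B, Commute b y) →
    ∃ b ∈ B, ∃ c, n * y * n⁻¹ = y * b * S.ι c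

/-- on the stabiliser of `v, w` in `M`, a 4-colouring whose classes are congruent modulo `Dd B` -/
def Col (B : Subgroup Γ) (v w : V) : Prop :=
  ∃ f : Γ → Prop × Prop, ∀ n₁ ∈ S.M, ∀ n₂ ∈ S.M, n₁ • v = v → n₁ • w = w → n₂ • v = v →
    n₂ • w = w → f n₁ = f n₂ → S.Dd B (n₁⁻¹ * n₂)

/-- the statement carried down the induction of PAIR -/
def P (B : Subgroup Γ) : Prop :=
  ∃ v w : V, v ≠ 0 ∧ S.st w = B ∧ B < S.st v ∧ S.Col B v w

end Sy

end sy

end H64.C3
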