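import Cfsg.Agent.Lib.C3.Bas

/-! # C3: a minimal invariant overgroup of the scalars is of symplectic type -/

set_option autoImplicit false
set_option linter.unusedSectionVars false

namespace H64.C3

open scoped commutatorElement

theorem bot_of_perf {Γ : Type*} [Group Γ] (G : Subgroup Γ) [Group.IsSolvable G] {K : Subgroup Γ}
    (hK : K ≤ G) (h : K ≤ ⁅K, K⁆) : K = ⊥ := by
  obtain ⟨n, hn⟩ := (inferInstance : Group.IsSolvable G)
  have key : ∀ m, K ≤ (derivedSeries G m).map G.subtype := by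
    intro m
    induction m with
    | zero => simpa [← MonoidHom.range_eq_map] using hK
    | succ m ih =>
      rw [derivedSeries_succ, Subgroup.map_commutator]
      exact h.trans (Subgroup.commutator_mono ih ih)
  simpa [hn] using key n

section
variable {Γ C : Type*} [Group Γ] [CommGroup C] (ι : C →* Γ)

theorem cp1 {x y : Γ} {d : C} (hy : Commute (ι d) y) (h : y * x = ι d * (x * y)) (k : ℕ) :
    y ^ k * x = ι (d ^ k) * (x * y ^ k) := by
  induction k with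
  | zero => simp
  | succ k ih =>
    calc y ^ (k + 1) * x = y ^ k * (y * x) := by group
      _ = y ^ k * ι d * x * y := by rw [h]; group
      _ = ι d * (y ^ k * x) * y := by rw [← (hy.pow_right k).eq]; group
      _ = _ := by rw [ih, pow_succ' d, map_mul]; group

theorem cp2 {x y : Γ} {d : C} (hx : Commute (ι d) x) (hy : Commute (ι d) y)
    (h : y * x = ι d * (x * y)) (k : ℕ) :
    (x * y) ^ k = ι (d ^ k.choose 2) * (x ^ k * y ^ k) := by
  induction k with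
  | zero => simp
  | succ k ih =>
    have e : Commute (ι (d ^ k)) (x ^ k) := by rw [map_pow]; exact hx.pow_pow k k
    calc (x * y) ^ (k + 1) = ι (d ^ k.choose 2) * x ^ k * (y ^ k * x) * y := by
          rw [pow_succ, ih]; group
      _ = ι (d ^ k.choose 2) * (x ^ k * ι (d ^ k)) * x * y ^ k * y := by rw [cp1 ι hy h]; group
      _ = _ := by
          rw [← e.eq, Nat.choose_succ_succ' k 1, Nat.choose_one_right, add_comm k, pow_add d,
            map_mul]; group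
end

variable {F V Γ : Type*} [Field F] [AddCommGroup V] [Module F V] [Group Γ]
  [DistribMulAction Γ V] [Finite V] [Nontrivial V] [Finite Γ] [FaithfulSMul Γ V]

theorem exists_sy (G : Subgroup Γ) [Group.IsSolvable G] (ι : Fˣ →* Γ)
    (hι : ∀ (c : Fˣ) (v : V), ι c • v = (c : F) • v) (hZG : ∀ c, ι c ∈ G)
    (hn : ∀ g ∈ G, ∀ c, ∃ c', g * ι c * g⁻¹ = ι c')
    (hmax : ∀ A : Subgroup Γ, A ≤ G → (∀ a ∈ A, ∀ b ∈ A, Commute a b) →
      (∀ g ∈ G, ∀ a ∈ A, g * a * g⁻¹ ∈ A) → (∀ c, ι c ∈ A) → ∀ a ∈ A, ∃ c, a = ι c)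
    (hne : ∃ x ∈ G, (∀ c, Commute (ι c) x) ∧ ∀ c, x ≠ ι c) :
    ∃ S : Sy F V Γ, S.ι = ι ∧ G ≤ S.M ∧ ∀ X : Subgroup Γ, X ≤ S.E → (∀ c, ι c ∈ X) →
      (∀ g ∈ G, ∀ a ∈ X, g * a * g⁻¹ ∈ X) → (∃ x ∈ X, ∀ c, x ≠ ι c) → X = S.E := by
  classical
  obtain ⟨v, hv⟩ := exists_ne (0 : V)
  haveI : Finite F := Finite.of_injective _ (smul_left_injective F hv)
  have inj : Function.Injective ι := fun a b h => by
    have h1 := hι a v
    rw [h, hι] at h1
    exact Units.ext (smul_cancel hv h1).symm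
  let 𝓕 : Set (Subgroup Γ) := {X | X ≤ G ∧ (∀ c, ∀ x ∈ X, Commute (ι c) x) ∧ (∀ c, ι c ∈ X) ∧
    (∀ g ∈ G, ∀ a ∈ X, g * a * g⁻¹ ∈ X) ∧ ∃ x ∈ X, ∀ c, x ≠ ι c}
  obtain ⟨E, ⟨hEG, cen, ιE, hinv, ne⟩, hmin⟩ := Set.exists_min_image 𝓕 (fun X => Nat.card X)
    (Set.toFinite _) ⟨G ⊓ Subgroup.centralizer ι.range, inf_le_left,
      fun c x hx => hx.2 _ ⟨c, rfl⟩, fun c => ⟨hZG c, by
        rintro _ ⟨d, rfl⟩; rw [← map_mul, ← map_mul, mul_comm]⟩, by
      intro g hg a ha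
      refine ⟨G.mul_mem (G.mul_mem hg ha.1) (G.inv_mem hg), ?_⟩
      rintro _ ⟨d, rfl⟩
      obtain ⟨d', hd⟩ := hn g⁻¹ (G.inv_mem hg) d
      have h := ha.2 _ ⟨d', rfl⟩
      rw [← hd] at h
      calc ι d * (g * a * g⁻¹) = g * (g⁻¹ * ι d * g⁻¹⁻¹ * a) * g⁻¹ := by group
        _ = _ := by rw [h]; group, by
      obtain ⟨x, hx, h1, h2⟩ := hne
      exact ⟨x, ⟨hx, by rintro _ ⟨d, rfl⟩; exact h1 d⟩, h2⟩⟩
  have min : ∀ X : Subgroup Γ, X ≤ E → (∀ c, ι c ∈ X) →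
      (∀ g ∈ G, ∀ a ∈ X, g * a * g⁻¹ ∈ X) → (∃ x ∈ X, ∀ c, x ≠ ι c) → X = E :=
    fun X h1 h2 h3 h4 => Subgroup.eq_of_le_of_card_ge h1
      (hmin X ⟨h1.trans hEG, fun c x hx => cen c x (h1 hx), h2, h3, h4⟩)
  have hGN : G ≤ Subgroup.normalizer (E : Set Γ) := fun g hg =>
    Subgroup.mem_normalizer_iff.2 fun a => ⟨hinv g hg a, fun h => by
      simpa [mul_assoc] using hinv g⁻¹ (G.inv_mem hg) _ h⟩
  have hE' : ⁅E, E⁆ ≤ E := Subgroup.commutator_le.2 fun a ha b hb =>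
    E.mul_mem (E.mul_mem (E.mul_mem ha hb) (E.inv_mem ha)) (E.inv_mem hb)
  have com : ∀ x ∈ E, ∀ y ∈ E, ∃ c, x * y = ι c * (y * x) := by
    let X : Subgroup Γ :=
      { carrier := {x | ∃ a ∈ ⁅E, E⁆, ∃ c, x = a * ι c}
        one_mem' := ⟨1, one_mem _, 1, by simp⟩
        mul_mem' := by
          rintro _ _ ⟨a, ha, c, rfl⟩ ⟨b, hb, d, rfl⟩
          refine ⟨a * b, mul_mem ha hb, c * d, ?_⟩
          rw [map_mul, mul_assoc, ← mul_assoc (ι c), (cen c b (hE' hb)).eq]; group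
        inv_mem' := by
          rintro _ ⟨a, ha, c, rfl⟩
          refine ⟨a⁻¹, inv_mem ha, c⁻¹, ?_⟩
          rw [← (cen c a (hE' ha)).eq, map_inv]; group }
    by_cases hX : ∃ x ∈ X, ∀ c, x ≠ ι c
    · have h1 : X = E := min X (by
        rintro _ ⟨a, ha, c, rfl⟩; exact E.mul_mem (hE' ha) (ιE c))
        (fun c => ⟨1, one_mem _, c, by simp⟩) (by
        rintro g hg _ ⟨a, ha, c, rfl⟩
        obtain ⟨c', hc'⟩ := hn g hg c
        refine ⟨g * a * g⁻¹, ?_, c', by rw [← hc']; group⟩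
        have hm : E.map (MulAut.conj g).toMonoidHom ≤ E := by
          rintro _ ⟨z, hz, rfl⟩; exact hinv g hg z hz
        exact Subgroup.commutator_mono hm hm (by
          rw [← Subgroup.map_commutator]; exact ⟨a, ha, rfl⟩)) hX
      have h2 : ⁅E, E⁆ = ⊥ := bot_of_perf G (hE'.trans hEG) (Subgroup.commutator_le.2 (by
        intro x hx y hy
        obtain ⟨a, ha, c, rfl⟩ : x ∈ X := h1 ▸ hx
        obtain ⟨b, hb, d, rfl⟩ : y ∈ X := h1 ▸ hy
        have e : ⁅a * ι c, b * ι d⁆ = ⁅a, b⁆ := by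
          have e1 := (cen c _ hy).eq
          have e2 := (cen d _ (E.inv_mem (hE' ha))).eq
          simp only [commutatorElement_def]
          calc a * ι c * (b * ι d) * (a * ι c)⁻¹ * (b * ι d)⁻¹
              = a * (ι c * (b * ι d)) * (ι c)⁻¹ * a⁻¹ * (b * ι d)⁻¹ := by group
            _ = a * b * (ι d * a⁻¹) * (b * ι d)⁻¹ := by rw [e1]; group
            _ = _ := by rw [e2]; group
        rw [e]
        exact Subgroup.commutator_mem_commutator ha hb))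
      intro x hx y hy
      have := Subgroup.commutator_mem_commutator hx hy
      rw [h2, Subgroup.mem_bot, commutatorElement_eq_one_iff_mul_comm] at this
      exact ⟨1, by simpa using this⟩
    · push Not at hX
      intro x hx y hy
      obtain ⟨c, hc⟩ := hX ⁅x, y⁆ ⟨_, Subgroup.commutator_mem_commutator hx hy, 1, by simp⟩
      exact ⟨c, by rw [← hc, commutatorElement_def]; group⟩
  have nd : ∀ x ∈ E, (∀ y ∈ E, Commute x y) → ∃ c, x = ι c := by
    intro x hx hc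
    refine hmax (E ⊓ Subgroup.centralizer E) (inf_le_left.trans hEG)
      (fun a ha b hb => hb.2 a ha.1) ?_ (fun c => ⟨ιE c, fun y hy => (cen c y hy).eq.symm⟩) x
      ⟨hx, fun y hy => (hc y hy).eq.symm⟩
    intro g hg a ha
    refine ⟨hinv g hg a ha.1, fun y hy => ?_⟩
    have h := ha.2 _ (hinv g⁻¹ (G.inv_mem hg) y hy)
    calc y * (g * a * g⁻¹) = g * (g⁻¹ * y * g⁻¹⁻¹ * a) * g⁻¹ := by group
      _ = _ := by rw [h]; group
  obtain ⟨r, hr, hpow⟩ : ∃ r : ℕ, r.Prime ∧ ∀ x ∈ E, ∃ c, x ^ r = ι c := by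
    obtain ⟨x₀, hx₀, h0⟩ := ne
    have hex : ∃ n, 0 < n ∧ ∃ c, x₀ ^ n = ι c := ⟨orderOf x₀, orderOf_pos x₀, 1, by simp⟩
    obtain ⟨hpos, c₀, hc₀⟩ := Nat.find_spec hex
    have h1 : Nat.find hex ≠ 1 := fun h => h0 c₀ (by rwa [h, pow_one] at hc₀)
    obtain ⟨r, hr, m, hm⟩ := Nat.exists_prime_and_dvd h1
    have hm0 : 0 < m := Nat.pos_of_ne_zero (by rintro rfl; omega)
    let X : Subgroup Γ :=
      { carrier := {x | x ∈ E ∧ ∃ c, x ^ r = ι c}
        one_mem' := ⟨one_mem _, 1, by simp⟩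
        mul_mem' := by
          rintro a b ⟨ha, c, hc⟩ ⟨hb, c', hc'⟩
          obtain ⟨d, hd⟩ := com b hb a ha
          refine ⟨mul_mem ha hb, d ^ r.choose 2 * (c * c'), ?_⟩
          rw [cp2 ι (cen d a ha) (cen d b hb) hd, hc, hc', map_mul, map_mul]
        inv_mem' := by
          rintro a ⟨ha, c, hc⟩
          exact ⟨inv_mem ha, c⁻¹, by rw [inv_pow, hc, map_inv]⟩ }
    have : X = E := min X (fun _ h => h.1) (fun c => ⟨ιE c, c ^ r, by simp⟩) (by
      rintro g hg a ⟨ha, c, hc⟩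
      obtain ⟨c', hc'⟩ := hn g hg c
      exact ⟨hinv g hg a ha, c', by rw [conj_pow, hc, hc']⟩)
      ⟨x₀ ^ m, ⟨pow_mem hx₀ m, c₀, by rw [← pow_mul, mul_comm, ← hm, hc₀]⟩, fun c hc =>
        Nat.find_min hex (m := m) (by have := hr.two_le; nlinarith) ⟨hm0, c, hc⟩⟩
    exact ⟨r, hr, fun x hx => (this ▸ hx : x ∈ X).2⟩
  have dr : ∀ x ∈ E, ∀ y ∈ E, ∀ d, y * x = ι d * (x * y) → d ^ r = 1 := by
    intro x hx y hy d hd
    obtain ⟨c, hc⟩ := hpow y hy
    have := cp1 ι (cen d y hy) hd r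
    rw [hc, (cen c x hx).eq] at this
    exact inj (by simpa using this.symm)
  obtain ⟨x₁, hx₁, y₁, hy₁, hxy⟩ : ∃ x ∈ E, ∃ y ∈ E, ¬ Commute x y := by
    by_contra h
    push Not at h
    obtain ⟨x₀, hx₀, h0⟩ := ne
    obtain ⟨c, hc⟩ := nd x₀ hx₀ (h x₀ hx₀)
    exact h0 c hc
  obtain ⟨ω, hω⟩ := com x₁ hx₁ y₁ hy₁
  haveI : Fact r.Prime := ⟨hr⟩
  have hωo : orderOf ω = r := orderOf_eq_prime (dr _ hy₁ _ hx₁ ω hω) (by
    rintro rfl; exact hxy (by simpa [commute_iff_eq] using hω))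
  obtain ⟨ζ, hζ⟩ := IsCyclic.exists_monoid_generator (α := Fˣ)
  have sq : ∀ x ∈ E, ∃ c : Fˣ, (x * ι c) ^ r = 1 ∨
      (r = 2 ∧ (x * ι c) ^ 2 = ι (-1) ∧ ¬ IsSquare (-1 : F)) := by
    have mp : ∀ x ∈ E, ∀ c k, (x * ι c) ^ k = x ^ k * ι (c ^ k) := fun x hx c k => by
      rw [(cen c x hx).symm.mul_pow, map_pow]
    by_cases hcase : r = 2 ∧ ¬ IsSquare (-1 : F)
    · intro x hx
      obtain ⟨a, ha⟩ := hpow x hx
      obtain ⟨h2, hns⟩ := hcase
      subst h2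
      obtain ⟨i, rfl⟩ := hζ a
      obtain ⟨j, hj⟩ := hζ (-1)
      simp only at hj ha
      rcases Nat.even_or_odd' i with ⟨i, rfl | rfl⟩
      · exact ⟨(ζ ^ i)⁻¹, Or.inl (by rw [mp x hx, ha, ← map_mul]; group; simp)⟩
      · rcases Nat.even_or_odd' j with ⟨j, rfl | rfl⟩
        · refine absurd ⟨(ζ ^ j : Fˣ), ?_⟩ hns
          rw [← Units.val_mul, ← pow_add, ← two_mul, hj]; simp
        · refine ⟨ζ ^ j * (ζ ^ i)⁻¹, Or.inr ⟨rfl, ?_, hns⟩⟩
          rw [mp x hx, ha, ← map_mul, ← hj]; congr 1; group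
    · have hom : ∀ x ∈ E, ∀ y ∈ E, ∃ e, (x * y) ^ r = ι (e ^ r) * (x ^ r * y ^ r) := by
        intro x hx y hy
        obtain ⟨d, hd⟩ := com y hy x hx
        have hdr := dr x hx y hy d hd
        rw [cp2 ι (cen d x hx) (cen d y hy) hd]
        rcases hr.eq_two_or_odd' with h2 | ⟨k, hk⟩
        · obtain ⟨i, hi⟩ : IsSquare (-1 : F) := by
            by_contra h; exact hcase ⟨h2, h⟩
          subst h2
          have : (d : F) ^ 2 = 1 := by rw [← Units.val_pow_eq_pow_val, hdr]; simp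
          rcases mul_self_eq_one_iff.1 ((pow_two _).symm.trans this) with h | h
          · exact ⟨1, by rw [Units.ext (show (d : F) = (1 : Fˣ) by simpa using h)]; simp⟩
          · have hi0 : i ≠ 0 := by rintro rfl; simp at hi
            refine ⟨Units.mk0 i hi0, ?_⟩
            congr 2
            ext; simp [h, hi, pow_two]
        · refine ⟨1, ?_⟩
          have : r.choose 2 = r * k := by
            rw [Nat.choose_two_right, hk]
            simp only [Nat.add_sub_cancel]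
            rw [mul_left_comm, Nat.mul_div_cancel_left _ two_pos]
          rw [this, pow_mul, hdr]; simp
      let Y : Subgroup Γ :=
        { carrier := {x | x ∈ E ∧ ∃ c, x ^ r = ι (c ^ r)}
          one_mem' := ⟨one_mem _, 1, by simp⟩
          mul_mem' := by
            rintro a b ⟨ha, c, hc⟩ ⟨hb, c', hc'⟩
            obtain ⟨e, he⟩ := hom a ha b hb
            exact ⟨mul_mem ha hb, e * (c * c'), by rw [he, hc, hc']; simp [mul_pow]⟩
          inv_mem' := by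
            rintro a ⟨ha, c, hc⟩
            exact ⟨inv_mem ha, c⁻¹, by rw [inv_pow, hc, inv_pow, map_inv]⟩ }
      have hY : Y = E := by
        refine min Y (fun _ h => h.1) (fun c => ⟨ιE c, c, by simp⟩) (by
          rintro g hg a ⟨ha, c, hc⟩
          obtain ⟨c', hc'⟩ := hn g hg c
          exact ⟨hinv g hg a ha, c', by rw [conj_pow, hc, map_pow, map_pow, ← hc', conj_pow]⟩) ?_
        by_contra hcon
        push Not at hcon
        obtain ⟨a, ha⟩ := hpow x₁ hx₁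
        obtain ⟨b, hb⟩ := hpow y₁ hy₁
        obtain ⟨i, rfl⟩ := hζ a
        obtain ⟨j, rfl⟩ := hζ b
        simp only at ha hb
        have hi : ¬ r ∣ i := by
          rintro ⟨i, rfl⟩
          obtain ⟨c, hc⟩ := hcon x₁ ⟨hx₁, ζ ^ i, by rw [ha, ← pow_mul, mul_comm]⟩
          exact hxy (hc ▸ cen c y₁ hy₁)
        obtain ⟨k, l, hkl⟩ : ∃ k l, i * k + j = l * r := by
          have hi' : (i : ZMod r) ≠ 0 := by rwa [Ne, ZMod.natCast_eq_zero_iff]
          obtain ⟨l, hl⟩ : r ∣ i * (-(j : ZMod r) / i).val + j := by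
            rw [← ZMod.natCast_eq_zero_iff]; push_cast
            rw [ZMod.natCast_zmod_val]; field_simp; ring
          exact ⟨_, l, by rw [hl, mul_comm]⟩
        obtain ⟨e, he⟩ := hom (x₁ ^ k) (pow_mem hx₁ k) y₁ hy₁
        obtain ⟨c, hc⟩ := hcon (x₁ ^ k * y₁) ⟨mul_mem (pow_mem hx₁ k) hy₁, e * ζ ^ l, by
          rw [he, ← pow_mul, mul_comm k, pow_mul, ha, hb, ← map_pow, ← map_mul, ← map_mul,
            ← pow_mul, ← pow_add, hkl, mul_pow, ← pow_mul]⟩
        have h3 : y₁ = (x₁ ^ k)⁻¹ * ι c := by rw [← hc]; group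
        exact hxy (h3 ▸ ((Commute.refl x₁).pow_right k).inv_right.mul_right (cen c x₁ hx₁).symm)
      intro x hx
      obtain ⟨-, c, hc⟩ : x ∈ Y := hY ▸ hx
      exact ⟨c⁻¹, Or.inl (by rw [mp x hx, hc, ← map_mul]; simp)⟩
  exact ⟨⟨ι, E, r, ω, hι, hr, hωo, ιE, cen, fun x hx y hy => by
    obtain ⟨c, hc⟩ := com x hx y hy
    exact ⟨c, dr y hy x hx c hc, hc⟩, nd, sq, ne⟩, rfl, hGN, min⟩

end H64.C3
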