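import Cfsg.Agent.Lib.C3.Defs

/-! # 3-closure of a solvable group: the imprimitive linear case (package HAM) -/

set_option autoImplicit false
set_option linter.style.haveILetI false

namespace H64.C3

universe u

namespace Ham

/-- `d` is a non-zero vector of the component `e` -/
def Dir {V : Type u} [AddCommGroup V] (e : V →+ V) (d : V) : Prop := e d = d ∧ d ≠ 0

/-- the map induced on directions does not depend on the base point -/
theorem dirs {V I : Type u} [AddCommGroup V] [Fintype I] (e : I → V →+ V) (a : I → V)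
    (ha : ∀ i, Dir (e i) (a i)) (hid : ∀ i v, e i (e i v) = e i v)
    (horth : ∀ i j, i ≠ j → ∀ v, e i (e j v) = 0) (hsum : ∀ v, ∑ i, e i v = v) (h : V → V)
    (φ : V → I → I) (hφ : ∀ x i d, Dir (e i) d → Dir (e (φ x i)) (h (x + d) - h x))
    (hinj : ∀ x, Function.Injective (φ x)) (x : V) : φ x = φ 0 := by
  classical
  have kill : ∀ i j d, i ≠ j → Dir (e j) d → e i d = 0 := by
    intro i j d hij hd
    rw [← hd.1, horth i j hij]
  have uniq : ∀ i j d, Dir (e i) d → Dir (e j) d → i = j := by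
    intro i j d hi hj
    by_contra hij
    exact hi.2 (hi.1.symm.trans (kill i j d hij hj))
  have neg : ∀ i d, Dir (e i) d → Dir (e i) (-d) := fun i d hd =>
    ⟨by rw [map_neg, hd.1], neg_ne_zero.2 hd.2⟩
  have same : ∀ x i d, Dir (e i) d → φ (x + d) i = φ x i := by
    intro x i d hd
    have h1 := hφ (x + d) i (-d) (neg i d hd)
    have h2 := neg _ _ (hφ x i d hd)
    rw [add_neg_cancel_right] at h1
    rw [neg_sub] at h2
    exact uniq _ _ _ h1 h2
  have step : ∀ x i d, Dir (e i) d → φ (x + d) = φ x := by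
    intro x i d hd
    funext j
    by_cases hij : j = i
    · rw [hij]; exact same x i d hd
    have d1 := hφ x i d hd
    have d2 := hφ x j (a j) (ha j)
    have d3 := hφ (x + a j) i d hd
    have d4 := hφ (x + d) j (a j) (ha j)
    have k1 := kill (φ x j) _ _ (fun hh => hij (hinj x hh)) d1
    have k3 := kill (φ x j) _ _ (fun hh => hij (hinj (x + a j) ((same x j _ (ha j)).trans hh))) d3
    by_contra hne
    have k4 := kill (φ x j) _ _ (Ne.symm hne) d4
    apply d2.2
    have hs : h (x + a j) - h x = (h (x + d) - h x) + (h (x + d + a j) - h (x + d)) -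
        (h (x + a j + d) - h (x + a j)) := by
      rw [add_right_comm x d]; abel
    rw [← d2.1, hs, map_sub, map_add, k1, k3, k4]
    simp
  have : ∀ s : Finset I, φ (∑ i ∈ s, e i x) = φ 0 := by
    intro s
    induction s using Finset.induction_on with
    | empty => simp
    | insert i s hi ih =>
      rw [Finset.sum_insert hi, add_comm]
      by_cases h0 : e i x = 0
      · rw [h0, add_zero, ih]
      · rw [step _ i _ ⟨hid i x, h0⟩, ih]
  rw [← this Finset.univ, hsum]

/-- walking along components -/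
theorem walk {V I : Type u} [AddCommGroup V] [Fintype I] (e : I → V →+ V)
    (hid : ∀ i v, e i (e i v) = e i v)
    (horth : ∀ i j, i ≠ j → ∀ v, e i (e j v) = 0) (hsum : ∀ v, ∑ i, e i v = v) (h : V → V)
    (φ : I → I) (hφ : ∀ x i d, Dir (e i) d → Dir (e (φ i)) (h (x + d) - h x))
    (hinj : Function.Injective φ) (i : I) (x y : V) (hxy : e i (x - y) = 0) :
    e (φ i) (h x - h y) = 0 := by
  classical
  have : ∀ s : Finset I, e (φ i) (h (y + ∑ j ∈ s, e j (x - y)) - h y) = 0 := by
    intro s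
    induction s using Finset.induction_on with
    | empty => simp
    | insert j s hj ih =>
      rw [Finset.sum_insert hj, add_comm (e j _), ← add_assoc]
      by_cases h0 : e j (x - y) = 0
      · rw [h0, add_zero, ih]
      · have d := hφ (y + ∑ j ∈ s, e j (x - y)) j _ ⟨hid j (x - y), h0⟩
        have hij : φ i ≠ φ j := fun hh => h0 (hinj hh ▸ hxy)
        have k := horth _ _ hij (h (y + ∑ j ∈ s, e j (x - y) + e j (x - y)) -
          h (y + ∑ j ∈ s, e j (x - y)))
        rw [d.1] at k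
        rw [← sub_add_sub_cancel _ (h (y + ∑ j ∈ s, e j (x - y))) _, map_add, k, ih, add_zero]
  have h1 := this Finset.univ
  rwa [hsum, add_sub_cancel] at h1

theorem three {I : Type u} [DecidableEq I] {P : Type u} (ψ : P → I → I)
    (H : ∀ S T : Finset I, ∃ g, (∀ i, ψ g i ∈ S ↔ i ∈ S) ∧ ∀ i, ψ g i ∈ T ↔ i ∈ T) (a b c : I) :
    ∃ g, ψ g a = a ∧ ψ g b = b ∧ ψ g c = c := by
  have two : ∀ a b : I, ∃ g, ψ g a = a ∧ ψ g b = b := by
    intro a b
    obtain ⟨g, h1, h2⟩ := H {a} {b}
    exact ⟨g, by simpa using h1 a, by simpa using h2 b⟩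
  by_cases hab : a = b
  · obtain ⟨g, h1, h2⟩ := two a c
    exact ⟨g, h1, hab ▸ h1, h2⟩
  by_cases hac : a = c
  · obtain ⟨g, h1, h2⟩ := two a b
    exact ⟨g, h1, h2, hac ▸ h1⟩
  by_cases hbc : b = c
  · obtain ⟨g, h1, h2⟩ := two a b
    exact ⟨g, h1, h2, hbc ▸ h2⟩
  obtain ⟨g, h1, h2⟩ := H {a, b} {b, c}
  have a1 := h1 a
  have a2 := h2 a
  have b1 := h1 b
  have b2 := h2 b
  have c1 := h1 c
  have c2 := h2 c
  simp only [Finset.mem_insert, Finset.mem_singleton] at a1 a2 b1 b2 c1 c2
  refine ⟨g, ?_, ?_, ?_⟩ <;> grind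

theorem main {B V Γ I : Type u} [Group B] [AddCommGroup V] [Finite V] [Group Γ]
    [DistribMulAction Γ V] [MulAction B V] (G : Subgroup Γ) [Group.IsSolvable G] [Fintype I]
    [Nontrivial I] [MulAction G I] (e : I → V →+ V) (a : I → V)
    (ha : ∀ i, Dir (e i) (a i)) (hid : ∀ i v, e i (e i v) = e i v)
    (horth : ∀ i j, i ≠ j → ∀ v, e i (e j v) = 0) (hsum : ∀ v, ∑ i, e i v = v)
    (hG : ∀ (g : G) i v, e (g • i) ((g : Γ) • v) = (g : Γ) • e i v)
    (haff : Aff G B V) (ih : IH B (Nat.card V)) (h : B) (v : V) : h • v = v := by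
  classical
  have kill : ∀ i j d, i ≠ j → Dir (e j) d → e i d = 0 := by
    intro i j d hij hd
    rw [← hd.1, horth i j hij]
  have uniq : ∀ i j d, Dir (e i) d → Dir (e j) d → i = j := by
    intro i j d hi hj
    by_contra hij
    exact hi.2 (hi.1.symm.trans (kill i j d hij hj))
  have gd : ∀ (g : G) i d, Dir (e i) d → Dir (e (g • i)) ((g : Γ) • d) := fun g i d hd =>
    ⟨by rw [hG, hd.1], fun h0 => hd.2 (by simpa using congrArg ((g : Γ)⁻¹ • ·) h0)⟩
  have tri : ∀ (h : B) (x d d' : V), ∃ g : G, (g : Γ) • d = h • (x + d) - h • x ∧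
      (g : Γ) • d' = h • (x + d') - h • x := by
    intro h x d d'
    obtain ⟨g, hg, t, h1, h2, h3⟩ := haff h x (x + d) (x + d')
    refine ⟨⟨g, hg⟩, ?_, ?_⟩
    · rw [← h1, ← h2, smul_add]; abel
    · rw [← h1, ← h3, smul_add]; abel
  have ex : ∀ (h : B) (x : V) i, ∃ j, ∀ d, Dir (e i) d → Dir (e j) (h • (x + d) - h • x) := by
    intro h x i
    obtain ⟨g₀, h0, -⟩ := tri h x (a i) (a i)
    refine ⟨g₀ • i, fun d hd => ?_⟩
    obtain ⟨g, h1, h2⟩ := tri h x (a i) d
    have : g • i = g₀ • i := uniq _ _ _ (h1 ▸ gd g i _ (ha i)) (h0 ▸ gd g₀ i _ (ha i))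
    rw [← this, ← h2]
    exact gd g i d hd
  choose φ hφ using ex
  have inj : ∀ h x, Function.Injective (φ h x) := by
    intro h x i j hij
    obtain ⟨g, h1, h2⟩ := tri h x (a i) (a j)
    have b1 := uniq _ _ _ (h1 ▸ gd g i _ (ha i)) (hφ h x i _ (ha i))
    have b2 := uniq _ _ _ (h2 ▸ gd g j _ (ha j)) (hφ h x j _ (ha j))
    exact MulAction.injective g (b1.trans (hij.trans b2.symm))
  have hφ0 : ∀ (h : B) x i d, Dir (e i) d → Dir (e (φ h 0 i)) (h • (x + d) - h • x) := by
    intro h x i d hd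
    rw [← dirs e a ha hid horth hsum (h • ·) (φ h) (hφ h) (inj h) x]
    exact hφ h x i d hd
  letI : MulAction B I :=
    { smul := fun h i => φ h 0 i
      one_smul := fun i => uniq _ _ _ (hφ0 1 0 i _ (ha i)) (by simpa using ha i)
      mul_smul := by
        intro h h' i
        refine uniq _ _ _ (hφ0 (h * h') 0 i _ (ha i)) ?_
        have := hφ0 h (h' • (0 : V)) _ _ (hφ0 h' 0 i _ (ha i))
        rw [add_sub_cancel] at this
        rw [mul_smul, mul_smul]
        exact this }
  have K : ∀ (h : B) i x y, e i (x - y) = 0 → e (h • i) (h • x - h • y) = 0 := fun h =>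
    walk e hid horth hsum (h • ·) (φ h 0) (hφ0 h) (inj h 0)
  have K' : ∀ (h : B) i x y, e (h • i) (h • x - h • y) = 0 ↔ e i (x - y) = 0 := by
    intro h i x y
    refine ⟨fun h0 => ?_, K h i x y⟩
    simpa using K h⁻¹ _ _ _ h0
  have supp : ∀ (S : Finset I) i, e i (∑ j ∈ S, a j) = 0 ↔ i ∉ S := by
    intro S i
    rw [map_sum]
    by_cases hi : i ∈ S
    · rw [Finset.sum_eq_single_of_mem i hi fun j _ hj => kill i j _ (Ne.symm hj) (ha j), (ha i).1]
      simp [hi, (ha i).2]
    · rw [Finset.sum_eq_zero fun j hj => kill i j _ (fun hh => hi (hh ▸ hj)) (ha j)]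
      simp [hi]
  have hlt : Nat.card I < Nat.card V := by
    haveI := Fintype.ofFinite V
    rw [Nat.card_eq_fintype_card, Nat.card_eq_fintype_card]
    refine Fintype.card_lt_of_injective_of_notMem a (b := 0)
      (fun i j hij => uniq _ _ _ (ha i) (hij ▸ ha j)) ?_
    rintro ⟨i, hi⟩
    exact (ha i).2 hi
  have triv : ∀ (h : B) (i : I), h • i = i := by
    refine ih I hlt G fun h i j k => ?_
    obtain ⟨g, h1, h2, h3⟩ := three (fun (g : G) i => g⁻¹ • h • i) (by
      intro S T
      obtain ⟨g, h1, h2⟩ := tri h 0 (∑ j ∈ S, a j) (∑ j ∈ T, a j)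
      have key : ∀ S : Finset I, (g : Γ) • ∑ j ∈ S, a j = h • (0 + ∑ j ∈ S, a j) - h • (0 : V) →
          ∀ i, g⁻¹ • h • i ∈ S ↔ i ∈ S := by
        intro S hS i
        rw [← not_iff_not, ← supp, ← supp, ← sub_zero (∑ j ∈ S, a j), ← K' h i, sub_zero]
        rw [zero_add] at hS
        have := hG g (g⁻¹ • h • i) (∑ j ∈ S, a j)
        rw [smul_inv_smul] at this
        rw [← hS, this, smul_eq_zero_iff_eq]
      exact ⟨g, key S h1, key T h2⟩) i j k
    exact ⟨g, (inv_smul_eq_iff.1 h1).symm, (inv_smul_eq_iff.1 h2).symm,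
      (inv_smul_eq_iff.1 h3).symm⟩
  have K0 : ∀ (h : B) i x, e i (h • x) = e i (h • e i x) := by
    intro h i x
    have := K h i x (e i x) (by rw [map_sub, hid, sub_self])
    rwa [triv, map_sub, sub_eq_zero] at this
  have comp : ∀ i x, e i (h • x) = e i x := by
    intro i
    have hr : ∀ w : (e i).range, e i w = w := by
      rintro ⟨_, w, rfl⟩
      exact hid i w
    have hst : ∀ (g : MulAction.stabilizer G i) (w : V),
        e i (((g : G) : Γ) • w) = ((g : G) : Γ) • e i w := by
      intro g w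
      have := hG g i w
      rwa [MulAction.mem_stabilizer_iff.1 g.2] at this
    letI : MulAction B (e i).range :=
      { smul := fun h w => ⟨e i (h • (w : V)), _, rfl⟩
        one_smul := fun w => Subtype.ext (by
          change e i ((1 : B) • (w : V)) = w
          rw [one_smul, hr])
        mul_smul := fun h h' w => Subtype.ext (by
          change e i ((h * h') • (w : V)) = e i (h • e i (h' • (w : V)))
          rw [mul_smul, K0]) }
    letI : DistribMulAction (MulAction.stabilizer G i) (e i).range :=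
      { smul := fun g w => ⟨((g : G) : Γ) • (w : V), ((g : G) : Γ) • (w : V), by rw [hst, hr]⟩
        one_smul := fun w => Subtype.ext (one_smul Γ (w : V))
        mul_smul := fun g g' w => Subtype.ext (mul_smul ((g : G) : Γ) ((g' : G) : Γ) (w : V))
        smul_zero := fun g => Subtype.ext (smul_zero ((g : G) : Γ))
        smul_add := fun g w w' => Subtype.ext (smul_add ((g : G) : Γ) (w : V) (w' : V)) }
    have hlt' : Nat.card (e i).range < Nat.card V := by
      obtain ⟨j, hj⟩ := exists_ne i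
      refine Finite.card_subtype_lt (x := a j) ?_
      rintro ⟨w, hw⟩
      exact hj (uniq _ _ _ (ha j) ⟨by rw [← hw, hid], (ha j).2⟩)
    have fin := Tr.aff (ih (e i).range hlt') (MulAction.stabilizer G i) (by
      intro h x y z
      by_cases hxyz : x = y ∧ x = z
      · obtain ⟨rfl, rfl⟩ := hxyz
        exact ⟨1, h • x - x, by simp, by simp, by simp⟩
      obtain ⟨g, hg, t, h1, h2, h3⟩ := haff h x y z
      have fix : ∀ p q : (e i).range, p ≠ q → g • (p : V) + t = h • (p : V) →
          g • (q : V) + t = h • (q : V) → (⟨g, hg⟩ : G) • i = i := by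
        intro p q hpq hp hq
        have d : Dir (e i) ((q : V) - p) := ⟨by rw [map_sub, hr, hr],
          sub_ne_zero.2 fun hh => hpq (Subtype.ext hh.symm)⟩
        have d1 := gd ⟨g, hg⟩ i _ d
        have d2 := hφ0 h p i _ d
        have : φ h 0 i = i := triv h i
        rw [this, add_sub_cancel, ← hp, ← hq, add_sub_add_right_eq_sub, ← smul_sub] at d2
        exact uniq _ _ _ d1 d2
      have hgi : (⟨g, hg⟩ : G) • i = i := by
        by_cases hxy : x = y
        · exact fix x z (fun hh => hxyz ⟨hxy, hh⟩) h1 h3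
        · exact fix x y hxy h1 h2
      have out : ∀ p : (e i).range, g • (p : V) + t = h • (p : V) →
          (⟨⟨g, hg⟩, hgi⟩ : MulAction.stabilizer G i) • p + (⟨e i t, t, rfl⟩ : (e i).range) =
            h • p := by
        intro p hp
        apply Subtype.ext
        change g • (p : V) + e i t = e i (h • (p : V))
        have := hst ⟨⟨g, hg⟩, hgi⟩ p
        rw [← hp, map_add, this, hr]
      exact ⟨_, _, out x h1, out y h2, out z h3⟩) h
    intro x
    rw [K0]
    exact congrArg Subtype.val (fin ⟨e i x, x, rfl⟩)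
  rw [← hsum (h • v), Finset.sum_congr rfl fun i _ => comp i v, hsum]

end Ham

theorem ham {B V Γ : Type u} [Group B] [AddCommGroup V] [Finite V] [Group Γ]
    [DistribMulAction Γ V] [MulAction B V] (G : Subgroup Γ) [Group.IsSolvable G]
    (𝓔 : Finset (V →+ V)) (hne : ∀ e ∈ 𝓔, e ≠ 0) (hid : ∀ e ∈ 𝓔, ∀ v, e (e v) = e v)
    (horth : ∀ e ∈ 𝓔, ∀ e' ∈ 𝓔, e ≠ e' → ∀ v, e (e' v) = 0)
    (hsum : ∀ v, ∑ e ∈ 𝓔, e v = v) (h2 : 2 ≤ 𝓔.card)
    (hinv : ∀ g ∈ G, ∀ e ∈ 𝓔, ∃ e' ∈ 𝓔, ∀ v, e' (g • v) = g • e v)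
    (haff : Aff G B V) (ih : IH B (Nat.card V)) (h : B) (v : V) : h • v = v := by
  have ex : ∀ (g : G) (i : 𝓔), ∃ j : 𝓔, ∀ v, j.1 ((g : Γ) • v) = (g : Γ) • i.1 v := by
    intro g i
    obtain ⟨e', he', h1⟩ := hinv g g.2 i i.2
    exact ⟨⟨e', he'⟩, h1⟩
  choose π hπ using ex
  have uq : ∀ (g : Γ) (j j' : 𝓔), (∀ v, j.1 (g • v) = j'.1 (g • v)) → j = j' := by
    intro g j j' hj
    apply Subtype.ext
    ext v
    simpa using hj (g⁻¹ • v)
  letI : MulAction G 𝓔 :=
    { smul := π
      one_smul := fun i => uq 1 _ _ fun v => by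
        change (π 1 i).1 _ = _
        simpa using hπ 1 i v
      mul_smul := fun g g' i => uq (g * g' : G) _ _ fun v => by
        change (π (g * g') i).1 _ = (π g (π g' i)).1 _
        rw [hπ, Subgroup.coe_mul, mul_smul, mul_smul, hπ, hπ] }
  have exa : ∀ i : 𝓔, ∃ a, Ham.Dir i.1 a := by
    intro i
    by_contra hcon
    apply hne i i.2
    ext w
    by_contra hw
    exact hcon ⟨i.1 w, hid i i.2 w, hw⟩
  choose a ha using exa
  haveI : Nontrivial 𝓔 := by
    rw [← Fintype.one_lt_card_iff_nontrivial, Fintype.card_coe]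
    omega
  exact Ham.main G (fun i : 𝓔 => i.1) a ha (fun i => hid i i.2)
    (fun i j hij => horth i i.2 j j.2 fun hh => hij (Subtype.ext hh))
    (fun v => (Finset.sum_coe_sort 𝓔 fun e => e v).trans (hsum v)) hπ haff ih h v

end H64.C3
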