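import Cfsg.Agent.Lib.C3.Defs

/-! # C3: an invariant commutative subring is a field or yields a system of idempotents -/

set_option autoImplicit false

namespace H64.C3

theorem idem_pow {M : Type*} [Monoid M] [Finite M] (a : M) : ∃ n, 0 < n ∧ a ^ n * a ^ n = a ^ n := by
  obtain ⟨i, j, hij, h⟩ : ∃ i j : ℕ, i < j ∧ a ^ i = a ^ j := by
    obtain ⟨i, j, hne, h⟩ := Finite.exists_ne_map_eq_of_infinite (fun n : ℕ => a ^ n)
    rcases lt_or_gt_of_ne hne with h' | h'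
    exacts [⟨i, j, h', h⟩, ⟨j, i, h', h.symm⟩]
  obtain ⟨d, rfl⟩ := Nat.exists_eq_add_of_lt hij
  have h1 : ∀ l, a ^ (i + l * (d + 1)) = a ^ i := by
    intro l
    induction l with
    | zero => simp
    | succ l ih =>
      rw [show i + (l + 1) * (d + 1) = (i + d + 1) + l * (d + 1) by ring, pow_add, ← h, ← pow_add, ih]
  refine ⟨(i + 1) * (d + 1), by positivity, ?_⟩
  obtain ⟨k, hk⟩ : ∃ k, (i + 1) * (d + 1) = i + k := ⟨(i + 1) * (d + 1) - i, by
    have : i ≤ (i + 1) * (d + 1) := by nlinarith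
    omega⟩
  rw [← pow_add]
  calc a ^ ((i + 1) * (d + 1) + (i + 1) * (d + 1)) = a ^ (i + (i + 1) * (d + 1)) * a ^ k := by
        rw [← pow_add]; congr 1; omega
    _ = _ := by rw [h1, ← pow_add, hk]

theorem dich {V : Type*} [AddCommGroup V] [Finite V] [Nontrivial V]
    (G : Subgroup (AddMonoid.End V)ˣ) (hirr : Irr G V) (𝒜 : Subring (AddMonoid.End V))
    (hc : ∀ a ∈ 𝒜, ∀ b ∈ 𝒜, a * b = b * a)
    (hinv : ∀ g ∈ G, ∀ a ∈ 𝒜, (g : AddMonoid.End V) * a * (g⁻¹ : (AddMonoid.End V)ˣ) ∈ 𝒜) :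
    (∀ a ∈ 𝒜, a ≠ 0 → Function.Injective a) ∨
    ∃ 𝓔 : Finset (V →+ V), (∀ e ∈ 𝓔, e ≠ 0) ∧ (∀ e ∈ 𝓔, ∀ v, e (e v) = e v) ∧
      (∀ e ∈ 𝓔, ∀ e' ∈ 𝓔, e ≠ e' → ∀ v, e (e' v) = 0) ∧ (∀ v, ∑ e ∈ 𝓔, e v = v) ∧ 2 ≤ 𝓔.card ∧
      ∀ g ∈ G, ∀ e ∈ 𝓔, ∃ e' ∈ 𝓔, ∀ v, e' (g • v) = g • e v := by
  classical
  haveI : Finite (AddMonoid.End V) := DFunLike.finite _
  haveI : Nontrivial (AddMonoid.End V) := ⟨0, 1, fun h => by
    obtain ⟨v, hv⟩ := exists_ne (0 : V)
    exact hv (DFunLike.congr_fun h v).symm⟩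
  let cj : (AddMonoid.End V)ˣ → AddMonoid.End V → AddMonoid.End V :=
    fun g a => (g : AddMonoid.End V) * a * (g⁻¹ : (AddMonoid.End V)ˣ)
  have cjm : ∀ g a b, cj g (a * b) = cj g a * cj g b := fun g a b => by simp [cj, mul_assoc]
  have cji : ∀ g a, cj g (cj g⁻¹ a) = a := fun g a => by simp [cj, mul_assoc]
  have cji' : ∀ g a, cj g⁻¹ (cj g a) = a := fun g a => by simp [cj, mul_assoc]
  have cj0 : ∀ g, cj g 0 = 0 := fun g => by simp [cj]
  have cjs : ∀ g a (v : V), cj g a (g • v) = g • a v := fun g a v => by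
    change ((g : AddMonoid.End V) * a * (g⁻¹ : (AddMonoid.End V)ˣ) * g) v = _
    rw [Units.inv_mul_cancel_right]; rfl
  have rk : ∀ m a : AddMonoid.End V, m ∈ 𝒜 → a ∈ 𝒜 →
      Nat.card (AddMonoidHom.range m) ≤ Nat.card (AddMonoidHom.range (a * m)) →
      ∀ v, ∃ u, m v = a (m u) := by
    intro m a hm ha hle v
    have h1 : AddMonoidHom.range (a * m) ≤ AddMonoidHom.range m := by
      rintro _ ⟨u, rfl⟩
      exact ⟨a u, by rw [hc a ha m hm]; rfl⟩
    have h2 := AddSubgroup.eq_of_le_of_card_ge h1 hle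
    obtain ⟨u, hu⟩ : m v ∈ AddMonoidHom.range (a * m) := h2 ▸ ⟨v, rfl⟩
    exact ⟨u, hu.symm⟩
  have red : ∀ a ∈ 𝒜, IsNilpotent a → a = 0 := by
    obtain ⟨m, ⟨hm, hm0⟩, hmin⟩ := Set.exists_min_image {m | m ∈ 𝒜 ∧ m ≠ 0}
      (fun m : AddMonoid.End V => Nat.card (AddMonoidHom.range m)) (Set.toFinite _)
      ⟨1, 𝒜.one_mem, one_ne_zero⟩
    let W : AddSubgroup V :=
      { carrier := {v | ∀ a ∈ 𝒜, IsNilpotent a → a v = 0}
        zero_mem' := fun a _ _ => map_zero a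
        add_mem' := fun h h' a ha hn => by rw [map_add, h a ha hn, h' a ha hn, add_zero]
        neg_mem' := fun h a ha hn => by rw [map_neg, h a ha hn, neg_zero] }
    have hmW : ∀ v, m v ∈ W := by
      intro v a ha ⟨n, hn⟩
      by_contra hne
      have h1 := rk m a hm ha (hmin _ ⟨𝒜.mul_mem ha hm, fun h => hne (DFunLike.congr_fun h v)⟩)
      have h2 : ∀ k v, ∃ u, m v = (a ^ k) (m u) := by
        intro k
        induction k with
        | zero => exact fun v => ⟨v, rfl⟩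
        | succ k ih =>
          intro v
          obtain ⟨u, hu⟩ := ih v
          obtain ⟨u', hu'⟩ := h1 u
          exact ⟨u', by rw [hu, hu', pow_succ]; rfl⟩
      refine hm0 (DFunLike.ext _ _ fun z => ?_)
      obtain ⟨u, hu⟩ := h2 n z
      rw [hu, hn]; rfl
    rcases hirr W (by
      intro g hg v hv a ha ⟨n, hn⟩
      have h1 : ∀ k, cj g⁻¹ a ^ (k + 1) = cj g⁻¹ (a ^ (k + 1)) := by
        intro k
        induction k with
        | zero => simp
        | succ k ih => rw [pow_succ, ih, ← cjm, ← pow_succ]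
      have h2 := hv (cj g⁻¹ a) (hinv _ (G.inv_mem hg) a ha) ⟨n + 1, by
        rw [h1, pow_succ, hn, zero_mul, cj0]⟩
      rw [← cji g a, cjs, h2, smul_zero]) with hW | hW
    · refine absurd (DFunLike.ext _ _ fun z => ?_) hm0
      have := hmW z
      rw [hW] at this
      exact this
    · intro a ha hn
      exact DFunLike.ext _ _ fun z => (hW ▸ AddSubgroup.mem_top z : z ∈ W) a ha hn
  by_cases hinj : ∀ a ∈ 𝒜, a ≠ 0 → Function.Injective a
  · exact Or.inl hinj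
  right
  push Not at hinj
  obtain ⟨a, ha, ha0, hai⟩ := hinj
  obtain ⟨n, hn, hnn⟩ := idem_pow a
  let I : AddMonoid.End V → Prop := fun e => e ∈ 𝒜 ∧ e * e = e ∧ e ≠ 0
  let At : AddMonoid.End V → Prop := fun e => I e ∧ ∀ f, I f → e * f = 0 ∨ e * f = e
  have hI : I (a ^ n) := ⟨𝒜.pow_mem ha n, hnn, fun h => ha0 (red a ha ⟨n, h⟩)⟩
  have h1 : a ^ n ≠ 1 := fun h => hai (by
    obtain ⟨k, rfl⟩ := Nat.exists_eq_add_of_lt hn
    rw [pow_succ] at h
    intro x y hxy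
    have e : ∀ z, (a ^ (0 + k)) (a z) = z := fun z => DFunLike.congr_fun h z
    rw [← e x, hxy, e])
  have Icj : ∀ g ∈ G, ∀ e, I e → I (cj g e) := fun g hg e he =>
    ⟨hinv g hg e he.1, by rw [← cjm, he.2.1], fun h => he.2.2 (by rw [← cji' g e, h, cj0])⟩
  have Atcj : ∀ g ∈ G, ∀ e, At e → At (cj g e) := fun g hg e he =>
    ⟨Icj g hg e he.1, fun f hf => by
      rcases he.2 _ (Icj _ (G.inv_mem hg) f hf) with h | h
      · left; rw [← cji g f, ← cjm, h, cj0]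
      · right; rw [← cji g f, ← cjm, h]⟩
  obtain ⟨e₀, he₀⟩ : ∃ e, At e := by
    obtain ⟨e, he, hmin⟩ := Set.exists_min_image {e | I e}
      (fun m : AddMonoid.End V => Nat.card (AddMonoidHom.range m)) (Set.toFinite _) ⟨_, hI⟩
    refine ⟨e, he, fun f hf => ?_⟩
    by_cases h0 : e * f = 0
    · exact Or.inl h0
    right
    have hef := hc e he.1 f hf.1
    have h2 := rk e f he.1 hf.1 (hmin _ ⟨𝒜.mul_mem hf.1 he.1, by
      rw [mul_assoc, ← mul_assoc e, hef, mul_assoc, he.2.1, ← mul_assoc, hf.2.1], hef ▸ h0⟩)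
    rw [hef]
    refine DFunLike.ext _ _ fun z => ?_
    obtain ⟨u, hu⟩ := h2 z
    change f (e z) = e z
    rw [hu]
    exact DFunLike.congr_fun hf.2.1 _
  let 𝓔 : Finset (AddMonoid.End V) := (Set.toFinite {e | At e}).toFinset
  have mem : ∀ e, e ∈ 𝓔 ↔ At e := fun e => by simp [𝓔]
  have orth : ∀ e ∈ 𝓔, ∀ e' ∈ 𝓔, e ≠ e' → e * e' = 0 := by
    intro e he e' he' hne
    rw [mem] at he he'
    rcases he.2 e' he'.1 with h | h
    · exact h
    · rcases he'.2 e he.1 with h' | h'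
      · rw [hc e he.1.1 e' he'.1.1, h']
      · exact absurd (by rw [← h, hc e he.1.1 e' he'.1.1, h']) hne
  have inv : ∀ g ∈ G, ∀ e ∈ 𝓔, ∃ e' ∈ 𝓔, ∀ v : V, e' (g • v) = g • e v := fun g hg e he =>
    ⟨cj g e, (mem _).2 (Atcj g hg e ((mem _).1 he)), cjs g e⟩
  have fixe : ∀ e ∈ 𝓔, ∀ v, ∑ e' ∈ 𝓔, e' (e v) = e v := by
    intro e he v
    rw [Finset.sum_eq_single e]
    · exact DFunLike.congr_fun ((mem _).1 he).1.2.1 v
    · exact fun e' he' hne => DFunLike.congr_fun (orth e' he' e he hne) v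
    · exact fun h => absurd he h
  let W : AddSubgroup V :=
    { carrier := {v | ∑ e ∈ 𝓔, e v = v}
      zero_mem' := by simp
      add_mem' := fun {x y} h h' => by
        change ∑ e ∈ 𝓔, e (x + y) = x + y
        simp only [map_add, Finset.sum_add_distrib]; rw [h, h']
      neg_mem' := fun {x} h => by
        change ∑ e ∈ 𝓔, e (-x) = -x
        simp only [map_neg, Finset.sum_neg_distrib]; rw [h] }
  have hsum : ∀ v, ∑ e ∈ 𝓔, e v = v := by
    rcases hirr W (by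
      intro g hg v hv
      have hv' : ∑ e ∈ 𝓔, e v = v := hv
      rw [← hv', Finset.smul_sum]
      refine W.sum_mem fun e he => ?_
      obtain ⟨e', he', h⟩ := inv g hg e he
      rw [← h]
      exact fixe e' he' _) with hW | hW
    · refine absurd (DFunLike.ext _ _ fun z => ?_) he₀.1.2.2
      have : e₀ z ∈ W := fixe e₀ ((mem _).2 he₀) z
      rw [hW] at this
      exact this
    · exact fun v => (hW ▸ AddSubgroup.mem_top v : v ∈ W)
  refine ⟨𝓔, fun e he => ((mem _).1 he).1.2.2,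
    fun e he v => DFunLike.congr_fun ((mem _).1 he).1.2.1 v,
    fun e he e' he' hne v => DFunLike.congr_fun (orth e he e' he' hne) v, hsum, ?_, inv⟩
  by_contra hlt
  have h2 : 𝓔 = {e₀} := Finset.eq_singleton_iff_unique_mem.2 ⟨(mem _).2 he₀, fun e he =>
    Finset.card_le_one.1 (Nat.lt_succ_iff.1 (not_le.1 hlt)) e he e₀ ((mem _).2 he₀)⟩
  have h3 : e₀ = 1 := DFunLike.ext _ _ fun z => by
    have := hsum z
    rw [h2, Finset.sum_singleton] at this
    exact this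
  rcases he₀.2 _ hI with h | h
  · exact hI.2.2 (by rwa [h3, one_mul] at h)
  · exact h1 (by rwa [h3, one_mul] at h)

end H64.C3
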