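import Cfsg.Agent.Lib.C3.Defs

/-! # 3-closure of a solvable group: reduction to the affine case (package RED) -/

set_option autoImplicit false
set_option linter.style.haveILetI false

namespace H64.C3

universe u

namespace Red

/-- a non-trivial solvable group has a non-trivial abelian normal subgroup -/
theorem ab_normal (A : Type u) [Group A] [hs : Group.IsSolvable A] [Nontrivial A] :
    ∃ N : Subgroup A, N.Normal ∧ N ≠ ⊥ ∧ ∀ x ∈ N, ∀ y ∈ N, x * y = y * x := by
  classical
  have hex : ∃ n, derivedSeries A n = ⊥ := hs.solvable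
  have h0 : Nat.find hex ≠ 0 := by
    intro h
    have := Nat.find_spec hex
    rw [h, derivedSeries_zero] at this
    exact top_ne_bot this
  obtain ⟨m, hm⟩ := Nat.exists_eq_succ_of_ne_zero h0
  refine ⟨derivedSeries A m, derivedSeries_normal A m, ?_, ?_⟩
  · exact Nat.find_min hex (by omega)
  · intro x hx y hy
    have := Nat.find_spec hex
    rw [hm, derivedSeries_succ] at this
    have h1 := Subgroup.commutator_mem_commutator hx hy
    rw [this, Subgroup.mem_bot, commutatorElement_eq_one_iff_mul_comm] at h1
    exact h1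

/-- in the primitive case a non-trivial normal subgroup is transitive -/
theorem trans {A Δ : Type u} [Group A] [MulAction A Δ] [FaithfulSMul A Δ]
    (hp : ∀ r : Setoid Δ, (∀ (g : A) a b, r a b → r (g • a) (g • b)) → r = ⊥ ∨ r = ⊤)
    (M : Subgroup A) (hM : M.Normal) (hne : M ≠ ⊥) (a b : Δ) : ∃ m ∈ M, m • a = b := by
  let r : Setoid Δ :=
    { r := fun a b => ∃ m ∈ M, m • a = b
      iseqv :=
        { refl := fun a => ⟨1, M.one_mem, one_smul _ _⟩
          symm := by
            rintro a b ⟨m, hm, rfl⟩
            exact ⟨m⁻¹, M.inv_mem hm, inv_smul_smul _ _⟩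
          trans := by
            rintro a b c ⟨m, hm, rfl⟩ ⟨m', hm', rfl⟩
            exact ⟨m' * m, M.mul_mem hm' hm, mul_smul _ _ _⟩ } }
  have hr : ∀ a b, r a b ↔ ∃ m ∈ M, m • a = b := fun _ _ => Iff.rfl
  rcases hp r (by
    intro g a b h
    obtain ⟨m, hm, rfl⟩ := (hr a b).1 h
    exact (hr _ _).2 ⟨g * m * g⁻¹, hM.conj_mem m hm g, by simp [mul_smul]⟩) with h | h
  · exfalso
    apply hne
    rw [Subgroup.eq_bot_iff_forall]
    intro m hm
    refine eq_of_smul_eq_smul (α := Δ) fun x => ?_
    have h1 : r x (m • x) := (hr _ _).2 ⟨m, hm, rfl⟩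
    rw [h] at h1
    rw [one_smul]
    exact (show x = m • x from h1).symm
  · have h1 : r a b := by rw [h]; trivial
    exact (hr _ _).1 h1

/-- the primitive case -/
theorem prim {B : Type u} [Group B]
    (main : ∀ (V : Type u) [AddCommGroup V] [Finite V] [Nontrivial V] [MulAction B V]
      (G : Subgroup (AddMonoid.End V)ˣ), Group.IsSolvable G → Irr G V → Aff G B V →
      IH B (Nat.card V) → ∀ (h : B) (v : V), h • v = v)
    {Δ : Type u} [Finite Δ] (ih : IH B (Nat.card Δ)) (A : Type u) [Group A] [Group.IsSolvable A]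
    [Nontrivial A] [MulAction A Δ] [FaithfulSMul A Δ] [MulAction B Δ]
    (hp : ∀ r : Setoid Δ, (∀ (g : A) a b, r a b → r (g • a) (g • b)) → r = ⊥ ∨ r = ⊤)
    (hc : ∀ (h : B) (a b c : Δ), ∃ g : A, g • a = h • a ∧ g • b = h • b ∧ g • c = h • c)
    (h : B) (δ : Δ) : h • δ = δ := by
  obtain ⟨N, hN, hne, hab⟩ := ab_normal A
  have reg : ∀ m ∈ N, ∀ n ∈ N, m • δ = n • δ → m = n := by
    intro m hm n hn hmn
    refine eq_of_smul_eq_smul (α := Δ) fun x => ?_
    obtain ⟨k, hk, rfl⟩ := trans hp N hN hne δ x
    rw [← mul_smul, ← mul_smul, hab m hm k hk, hab n hn k hk, mul_smul, mul_smul, hmn]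
  letI : CommGroup N :=
    { (inferInstance : Group N) with
      mul_comm := fun x y => Subtype.ext (hab x x.2 y y.2) }
  let e : Additive N ≃ Δ := Equiv.ofBijective (fun v => ((v.toMul : N) : A) • δ)
    ⟨fun v w hvw => Additive.toMul.injective (Subtype.ext (reg _ v.toMul.2 _ w.toMul.2 hvw)),
      fun x => by
        obtain ⟨k, hk, rfl⟩ := trans hp N hN hne δ x
        exact ⟨Additive.ofMul ⟨k, hk⟩, rfl⟩⟩
  have he : ∀ v, e v = ((v.toMul : N) : A) • δ := fun _ => rfl
  haveI : Finite (Additive N) := Finite.of_equiv Δ e.symm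
  haveI : Nontrivial N := (Subgroup.nontrivial_iff_ne_bot N).2 hne
  letI : MulAction B (Additive N) :=
    { smul := fun h v => e.symm (h • e v)
      one_smul := by intro v; change e.symm ((1 : B) • e v) = v; simp
      mul_smul := by
        intro h h' v
        change e.symm ((h * h') • e v) = e.symm (h • e (e.symm (h' • e v)))
        simp [mul_smul] }
  have hB : ∀ (h : B) (v : Additive N), h • v = e.symm (h • e v) := fun _ _ => rfl
  let ψ : A →* AddMonoid.End (Additive N) :=
    { toFun := fun g => MonoidHom.toAdditive (MulAut.conjNormal (H := N) g).toMonoidHom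
      map_one' := by rw [map_one]; rfl
      map_mul' := by intro g g'; rw [map_mul]; rfl }
  let φ : A →* (AddMonoid.End (Additive N))ˣ := ψ.toHomUnits
  have hφ : ∀ (g : A) (v : Additive N), (((φ g • v).toMul : N) : A) = g * (v.toMul : N) * g⁻¹ :=
    fun _ _ => rfl
  have hsol : Group.IsSolvable φ.range := Group.isSolvable_of_surjective φ.rangeRestrict_surjective
  have hirr : Irr φ.range (Additive N) := by
    intro W hW
    let M : Subgroup A :=
      { carrier := {x | ∃ hx : x ∈ N, Additive.ofMul (⟨x, hx⟩ : N) ∈ W}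
        one_mem' := ⟨N.one_mem, W.zero_mem⟩
        mul_mem' := by
          rintro x y ⟨hx, hx'⟩ ⟨hy, hy'⟩
          exact ⟨N.mul_mem hx hy, W.add_mem hx' hy'⟩
        inv_mem' := by
          rintro x ⟨hx, hx'⟩
          exact ⟨N.inv_mem hx, W.neg_mem hx'⟩ }
    have hM : M.Normal := ⟨by
      rintro x ⟨hx, hx'⟩ g
      exact ⟨hN.conj_mem x hx g, hW (φ g) ⟨g, rfl⟩ _ hx'⟩⟩
    by_cases h0 : M = ⊥
    · left
      rw [AddSubgroup.eq_bot_iff_forall]
      intro v hv
      have h1 : ((v.toMul : N) : A) ∈ M := ⟨v.toMul.2, hv⟩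
      rw [h0, Subgroup.mem_bot] at h1
      exact Additive.toMul.injective (Subtype.ext h1)
    · right
      rw [AddSubgroup.eq_top_iff']
      intro v
      obtain ⟨m, ⟨hm, hm'⟩, h1⟩ := trans hp M hM h0 δ (e v)
      have h2 : m = (v.toMul : N) := reg _ hm _ v.toMul.2 h1
      subst h2
      exact hm'
  have haff : Aff φ.range B (Additive N) := by
    intro h a b c
    obtain ⟨g, h1, h2, h3⟩ := hc h (e a) (e b) (e c)
    have key : ∀ v : Additive N, g • e v = h • e v → φ g • v + e.symm (g • δ) = h • v := by
      intro v hv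
      rw [hB, ← hv, Equiv.eq_symm_apply, he, toMul_add, Subgroup.coe_mul, mul_smul, hφ, ← he,
        Equiv.apply_symm_apply, he]
      simp [mul_smul]
    exact ⟨φ g, ⟨g, rfl⟩, e.symm (g • δ), key a h1, key b h2, key c h3⟩
  have hfin := main (Additive N) φ.range hsol hirr haff (by rwa [Nat.card_congr e]) h (e.symm δ)
  rw [hB, Equiv.apply_symm_apply] at hfin
  exact e.symm.injective hfin

/-- the imprimitive case -/
theorem imprim {B : Type u} [Group B] {Δ : Type u} [Finite Δ] (ih : IH B (Nat.card Δ))
    (A : Type u) [Group A] [Group.IsSolvable A] [MulAction A Δ] [MulAction B Δ] (r : Setoid Δ)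
    (hr : ∀ (g : A) a b, r a b → r (g • a) (g • b)) (h0 : r ≠ ⊥) (h1 : r ≠ ⊤)
    (hc : ∀ (h : B) (a b c : Δ), ∃ g : A, g • a = h • a ∧ g • b = h • b ∧ g • c = h • c)
    (h : B) (δ : Δ) : h • δ = δ := by
  have hrB : ∀ (h : B) a b, r a b → r (h • a) (h • b) := by
    intro h a b hab
    obtain ⟨g, h1, h2, -⟩ := hc h a b a
    rw [← h1, ← h2]
    exact hr g a b hab
  letI : MulAction A (Quotient r) :=
    { smul := fun g => Quotient.map (g • ·) (hr g)
      one_smul := by
        intro q
        induction q using Quotient.inductionOn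
        change Quotient.mk r ((1 : A) • _) = _
        rw [one_smul]
      mul_smul := by
        intro g g' q
        induction q using Quotient.inductionOn
        change Quotient.mk r ((g * g') • _) = Quotient.mk r (g • g' • _)
        rw [mul_smul] }
  letI : MulAction B (Quotient r) :=
    { smul := fun g => Quotient.map (g • ·) (hrB g)
      one_smul := by
        intro q
        induction q using Quotient.inductionOn
        change Quotient.mk r ((1 : B) • _) = _
        rw [one_smul]
      mul_smul := by
        intro g g' q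
        induction q using Quotient.inductionOn
        change Quotient.mk r ((g * g') • _) = Quotient.mk r (g • g' • _)
        rw [mul_smul] }
  have hlt : Nat.card (Quotient r) < Nat.card Δ := by
    haveI := Fintype.ofFinite Δ
    haveI := Fintype.ofFinite (Quotient r)
    rw [Nat.card_eq_fintype_card, Nat.card_eq_fintype_card]
    refine Fintype.card_lt_of_surjective_not_injective (Quotient.mk r) Quotient.mk_surjective ?_
    intro hinj
    apply h0
    ext a b
    exact ⟨fun hab => hinj (Quotient.sound hab), fun hab => by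
      rw [show a = b from hab]⟩
  have hq : ∀ (h : B) (a : Δ), r (h • a) a := by
    intro h a
    have := ih (Quotient r) hlt A (by
      intro h a b c
      induction a using Quotient.inductionOn with | _ a
      induction b using Quotient.inductionOn with | _ b
      induction c using Quotient.inductionOn with | _ c
      obtain ⟨g, h1, h2, h3⟩ := hc h a b c
      exact ⟨g, congrArg (Quotient.mk r) h1, congrArg (Quotient.mk r) h2,
        congrArg (Quotient.mk r) h3⟩) h (Quotient.mk r a)
    exact Quotient.exact this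
  let St : Subgroup A :=
    { carrier := {g | r (g • δ) δ}
      one_mem' := by
        change r ((1 : A) • δ) δ
        rw [one_smul]
      mul_mem' := by
        intro g g' hg hg'
        change r ((g * g') • δ) δ
        rw [mul_smul]
        exact r.trans' (hr g _ _ hg') hg
      inv_mem' := by
        intro g hg
        have := hr g⁻¹ _ _ hg
        rw [inv_smul_smul] at this
        exact r.symm' this }
  letI : MulAction St {x // r x δ} :=
    { smul := fun g x => ⟨(g : A) • x.1, r.trans' (hr g _ _ x.2) g.2⟩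
      one_smul := fun x => Subtype.ext (one_smul A x.1)
      mul_smul := fun g g' x => Subtype.ext (mul_smul (g : A) g' x.1) }
  letI : MulAction B {x // r x δ} :=
    { smul := fun h x => ⟨h • x.1, r.trans' (hq h _) x.2⟩
      one_smul := fun x => Subtype.ext (one_smul B x.1)
      mul_smul := fun g g' x => Subtype.ext (mul_smul g g' x.1) }
  have hlt' : Nat.card {x // r x δ} < Nat.card Δ := by
    obtain ⟨x, hx⟩ : ∃ x, ¬ r x δ := by
      by_contra hcon
      push Not at hcon
      apply h1
      ext a b
      exact ⟨fun _ => trivial, fun _ => r.trans' (hcon a) (r.symm' (hcon b))⟩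
    exact Finite.card_subtype_lt hx
  have := ih {x // r x δ} hlt' St (by
    intro h a b c
    obtain ⟨g, h1, h2, h3⟩ := hc h a.1 b.1 c.1
    have hg : g ∈ St := by
      change r (g • δ) δ
      refine r.trans' (hr g _ _ (r.symm' a.2)) ?_
      rw [h1]
      exact r.trans' (hq h _) a.2
    exact ⟨⟨g, hg⟩, Subtype.ext h1, Subtype.ext h2, Subtype.ext h3⟩) h ⟨δ, r.refl' δ⟩
  exact congrArg Subtype.val this

end Red

theorem red {B : Type u} [Group B]
    (main : ∀ (V : Type u) [AddCommGroup V] [Finite V] [Nontrivial V] [MulAction B V]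
      (G : Subgroup (AddMonoid.End V)ˣ), Group.IsSolvable G → Irr G V → Aff G B V →
      IH B (Nat.card V) → ∀ (h : B) (v : V), h • v = v)
    (Δ : Type u) [Finite Δ] : Tr B Δ := by
  suffices H : ∀ n, IH B n from H (Nat.card Δ + 1) Δ (Nat.lt_succ_self _)
  intro n
  induction n with
  | zero => intro Δ _ h; omega
  | succ n ihn =>
    intro Δ _ hn
    have ih : IH B (Nat.card Δ) := fun Δ' _ h' => ihn Δ' (by omega)
    intro A _ _ _ _ hc h δ
    by_cases hp : ∀ r : Setoid Δ, (∀ (g : A) a b, r a b → r (g • a) (g • b)) → r = ⊥ ∨ r = ⊤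
    · let A' := (MulAction.toPermHom A Δ).range
      haveI : Group.IsSolvable A' :=
        Group.isSolvable_of_surjective (MulAction.toPermHom A Δ).rangeRestrict_surjective
      have hs : ∀ (g : A) (x : Δ),
          (⟨MulAction.toPermHom A Δ g, g, rfl⟩ : A') • x = g • x := fun _ _ => rfl
      rcases subsingleton_or_nontrivial A' with hA | hA
      · obtain ⟨g, h1, -⟩ := hc h δ δ δ
        rw [← h1, ← hs, Subsingleton.elim (⟨MulAction.toPermHom A Δ g, g, rfl⟩ : A') 1, one_smul]
      · refine Red.prim main ih A' ?_ ?_ h δ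
        · intro r hr
          exact hp r fun g a b hab => hr ⟨MulAction.toPermHom A Δ g, g, rfl⟩ a b hab
        · intro h a b c
          obtain ⟨g, h1, h2, h3⟩ := hc h a b c
          exact ⟨⟨MulAction.toPermHom A Δ g, g, rfl⟩, h1, h2, h3⟩
    · push Not at hp
      obtain ⟨r, hr, h0, h1⟩ := hp
      exact Red.imprim ih A r hr h0 h1 hc h δ

end H64.C3
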