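import Cfsg.Agent.Lib.C3.Two
import Cfsg.Agent.Lib.C3.Idem
import Cfsg.Agent.Lib.C3.Ham
import Cfsg.Agent.Lib.C3.Red

/-! # C3: assembly -/

set_option autoImplicit false

namespace H64.C3

universe u

theorem solv_sup {Γ : Type*} [Group Γ] {H N : Subgroup Γ} (hH : Group.IsSolvable H)
    (hN : Group.IsSolvable N) (h : H ≤ Subgroup.normalizer (N : Set Γ)) :
    Group.IsSolvable (H ⊔ N : Subgroup Γ) := by
  have h1 := Subgroup.normal_subgroupOf_of_le_normalizer h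
  have h2 := Subgroup.normal_subgroupOf_sup_of_le_normalizer h
  have h3 : Group.IsSolvable (N.subgroupOf (H ⊔ N)) := Group.isSolvable_of_isSolvable_injective
    (f := (Subgroup.subgroupOfEquivOfLe (le_sup_right : N ≤ H ⊔ N)).toMonoidHom)
    (MulEquiv.injective _)
  have e := QuotientGroup.quotientInfEquivProdNormalizerQuotient H N h
  exact (Group.isSolvable_iff_subgroup_quotient (N.subgroupOf (H ⊔ N))).mpr ⟨h3,
    Group.isSolvable_of_surjective (f := e.toMonoidHom) e.surjective⟩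

theorem exists_ab {Γ : Type*} [Group Γ] (G : Subgroup Γ) [Group.IsSolvable G] (hG : G ≠ ⊥) :
    ∃ A : Subgroup Γ, A ≠ ⊥ ∧ A ≤ G ∧ (∀ a ∈ A, ∀ b ∈ A, Commute a b) ∧
      ∀ g ∈ G, ∀ a ∈ A, g * a * g⁻¹ ∈ A := by
  classical
  have hex : ∃ n, derivedSeries G n = ⊥ := (inferInstance : Group.IsSolvable G).1
  have h0 : Nat.find hex ≠ 0 := fun h => by
    have := Nat.find_spec hex
    rw [h, derivedSeries_zero] at this
    refine hG ((Subgroup.eq_bot_iff_forall _).2 fun x hx => ?_)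
    have h2 : (⟨x, hx⟩ : G) = 1 := Subgroup.mem_bot.1 (this ▸ Subgroup.mem_top _)
    exact congrArg Subtype.val h2
  obtain ⟨m, hm⟩ := Nat.exists_eq_succ_of_ne_zero h0
  have h1 := Nat.find_spec hex
  rw [hm, derivedSeries_succ, Subgroup.commutator_eq_bot_iff_le_centralizer] at h1
  refine ⟨(derivedSeries G m).map G.subtype, fun h => Nat.find_min hex (m := m) (by omega)
    ((Subgroup.map_eq_bot_iff_of_injective _ G.subtype_injective).1 h), Subgroup.map_subtype_le _,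
    ?_, ?_⟩
  · rintro _ ⟨a, ha, rfl⟩ _ ⟨b, hb, rfl⟩
    exact congrArg Subtype.val (h1 hb a ha)
  · rintro g hg _ ⟨a, ha, rfl⟩
    exact ⟨_, (derivedSeries_normal G m).conj_mem a ha ⟨g, hg⟩, rfl⟩

theorem finish {B V : Type u} [Group B] [AddCommGroup V] [MulAction B V] (hB : commutator B = ⊤)
    (G : Subgroup (AddMonoid.End V)ˣ) (haff : Aff G B V)
    (hadd : ∀ (h : B) (x y : V), h • (x + y) - h • (0 : V) =
      (h • x - h • (0 : V)) + (h • y - h • (0 : V)))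
    (htriv : ∀ β : B →* (AddMonoid.End V)ˣ, (∀ h, β h ∈ cl2 G V) → ∀ h (v : V), β h • v = v)
    (h : B) (v : V) : h • v = v := by
  let l : B → AddMonoid.End V := fun h => AddMonoidHom.mk' (fun x => h • x - h • (0 : V)) (hadd h)
  have hl : ∀ h x, l h x = h • x - h • (0 : V) := fun _ _ => rfl
  let β₀ : B →* AddMonoid.End V :=
    { toFun := l
      map_one' := DFunLike.ext _ _ fun x => by rw [hl]; simp
      map_mul' := fun a b => DFunLike.ext _ _ fun x => by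
        change l (a * b) x = l a (l b x)
        rw [hl b, map_sub, hl, hl, hl, mul_smul, mul_smul]; abel }
  have key := htriv β₀.toHomUnits (by
    intro h v w
    obtain ⟨g, hg, t, h0, h1, h2⟩ := haff h 0 v w
    rw [smul_zero, zero_add] at h0
    exact ⟨g, hg, by change _ = h • v - h • (0 : V); rw [← h1, h0]; abel,
      by change _ = h • w - h • (0 : V); rw [← h2, h0]; abel⟩)
  have key' : ∀ (h : B) (v : V), h • v = v + h • (0 : V) := fun h v => by
    have : h • v - h • (0 : V) = v := key h v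
    rw [← sub_eq_iff_eq_add, this]
  let τ : B →* Multiplicative V := MonoidHom.mk' (fun h => Multiplicative.ofAdd (h • (0 : V))) (by
    intro a b
    rw [← ofAdd_add, mul_smul, key' a (b • (0 : V)), add_comm])
  have : h • (0 : V) = 0 := perf_triv hB τ h
  rw [key', this, add_zero]

theorem affine {B : Type u} [Group B] (hB : commutator B = ⊤) (V : Type u) [AddCommGroup V]
    [Finite V] [Nontrivial V] [MulAction B V] (G₀ : Subgroup (AddMonoid.End V)ˣ)
    (hs₀ : Group.IsSolvable G₀) (hirr₀ : Irr G₀ V) (haff₀ : Aff G₀ B V) (ih : IH B (Nat.card V))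
    (h : B) (v : V) : h • v = v := by
  classical
  haveI : Finite (AddMonoid.End V) := DFunLike.finite _
  obtain ⟨G, ⟨hG₀, hs⟩, hGmax⟩ := Set.exists_max_image
    {G : Subgroup (AddMonoid.End V)ˣ | G₀ ≤ G ∧ Group.IsSolvable G} (fun G => Nat.card G)
    (Set.toFinite _) ⟨G₀, le_rfl, hs₀⟩
  have hirr : Irr G V := fun W hW => hirr₀ W fun g hg => hW g (hG₀ hg)
  have haff : Aff G B V := fun h a b c => by
    obtain ⟨g, hg, H⟩ := haff₀ h a b c
    exact ⟨g, hG₀ hg, H⟩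
  obtain ⟨Z, ⟨hZG, hZc, hZn⟩, hZmax⟩ := Set.exists_max_image
    {A : Subgroup (AddMonoid.End V)ˣ | A ≤ G ∧ (∀ a ∈ A, ∀ b ∈ A, Commute a b) ∧
      ∀ g ∈ G, ∀ a ∈ A, g * a * g⁻¹ ∈ A} (fun G => Nat.card G) (Set.toFinite _)
    ⟨⊥, bot_le, by simp, by simp⟩
  let 𝒜 : Subring (AddMonoid.End V) := Subring.closure (Units.val '' (Z : Set (AddMonoid.End V)ˣ))
  have hc : ∀ a ∈ 𝒜, ∀ b ∈ 𝒜, a * b = b * a := by
    have h1 : 𝒜 ≤ Subring.centralizer (Units.val '' (Z : Set (AddMonoid.End V)ˣ)) := by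
      refine Subring.closure_le.2 ?_
      rintro _ ⟨a, ha, rfl⟩ _ ⟨b, hb, rfl⟩
      exact congrArg Units.val (hZc b hb a ha)
    have h2 : 𝒜 ≤ Subring.centralizer (𝒜 : Set (AddMonoid.End V)) := by
      refine Subring.closure_le.2 fun z hz a ha => ?_
      exact (h1 ha z hz).symm
    exact fun a ha b hb => h2 hb a ha
  have hinv : ∀ g ∈ G, ∀ a ∈ 𝒜,
      (g : AddMonoid.End V) * a * (g⁻¹ : (AddMonoid.End V)ˣ) ∈ 𝒜 := by
    intro g hg a ha
    induction ha using Subring.closure_induction with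
    | mem x hx =>
      obtain ⟨z, hz, rfl⟩ := hx
      exact Subring.subset_closure ⟨_, hZn g hg z hz, rfl⟩
    | zero => simp
    | one => simp
    | add x y _ _ hx hy => rw [mul_add, add_mul]; exact 𝒜.add_mem hx hy
    | neg x _ hx => rw [mul_neg, neg_mul]; exact 𝒜.neg_mem hx
    | mul x y _ _ hx hy => simpa [mul_assoc] using 𝒜.mul_mem hx hy
  rcases dich G hirr 𝒜 hc hinv with hinj | ⟨𝓔, h1, h2, h3, h4, h5, h6⟩
  swap
  · exact ham G 𝓔 h1 h2 h3 h4 h5 h6 haff ih h v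
  obtain ⟨v₁, hv₁⟩ := exists_ne (0 : V)
  have hF : IsField 𝒜 := by
    letI : CommRing 𝒜 := { (inferInstance : Ring 𝒜) with
      mul_comm := fun a b => Subtype.ext (hc a a.2 b b.2) }
    haveI : Nontrivial 𝒜 := ⟨0, 1, fun h =>
      hv₁ (DFunLike.congr_fun (congrArg Subtype.val h) v₁).symm⟩
    haveI : NoZeroDivisors 𝒜 := ⟨fun {a b} hab => by
      by_cases ha : a = 0
      · exact Or.inl ha
      · refine Or.inr (Subtype.ext (DFunLike.ext _ _ fun z => ?_))
        apply hinj a a.2 fun h => ha (Subtype.ext h)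
        rw [show ((0 : 𝒜) : AddMonoid.End V) z = 0 from rfl, map_zero]
        exact DFunLike.congr_fun (congrArg Subtype.val hab) z⟩
    haveI : IsDomain 𝒜 := NoZeroDivisors.to_isDomain _
    exact Finite.isField_of_domain 𝒜
  letI : Field 𝒜 := hF.toField
  let ι : 𝒜ˣ →* (AddMonoid.End V)ˣ := Units.map 𝒜.subtype.toMonoidHom
  have hι : ∀ (c : 𝒜ˣ) (v : V), ι c • v = (c : 𝒜) • v := fun _ _ => rfl
  have un : ∀ x : (AddMonoid.End V)ˣ, (x : AddMonoid.End V) ∈ 𝒜 → ∃ c, x = ι c := fun x hx =>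
    ⟨Units.mk0 ⟨x, hx⟩ fun h => hv₁ (by
      have h1 : x • v₁ = 0 := DFunLike.congr_fun (congrArg Subtype.val h) v₁
      exact (smul_eq_zero_iff_eq x).1 h1), Units.ext rfl⟩
  have hn : ∀ g ∈ G, ∀ c, ∃ c', g * ι c * g⁻¹ = ι c' := fun g hg c =>
    un _ (hinv g hg _ (c : 𝒜).2)
  have hσ : ∀ g ∈ G, Semi 𝒜 V g := fun g hg => semi_of_weak fun f =>
    ⟨⟨_, hinv g hg f f.2⟩, fun z => by
      change _ = ((g : AddMonoid.End V) * f * (g⁻¹ : (AddMonoid.End V)ˣ) * g) z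
      rw [Units.inv_mul_cancel_right]; rfl⟩
  have hrn : ∀ g ∈ G, ∀ a ∈ ι.range, g * a * g⁻¹ ∈ ι.range := by
    rintro g hg _ ⟨c, rfl⟩
    obtain ⟨c', hc'⟩ := hn g hg c
    exact ⟨c', hc'.symm⟩
  have hrG : ι.range ≤ G := by
    have h1 : Group.IsSolvable ι.range := Group.isSolvable_of_surjective ι.rangeRestrict_surjective
    have h2 := solv_sup hs h1 fun g hg => Subgroup.mem_normalizer_iff.2 fun a =>
      ⟨hrn g hg a, fun h => by simpa [mul_assoc] using hrn g⁻¹ (G.inv_mem hg) _ h⟩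
    have h3 := Subgroup.eq_of_le_of_card_ge (le_sup_left : G ≤ G ⊔ ι.range)
      (hGmax _ ⟨hG₀.trans le_sup_left, h2⟩)
    exact h3 ▸ le_sup_right
  have hZr : Z ≤ ι.range := fun z hz => by
    obtain ⟨c, hc⟩ := un z (Subring.subset_closure ⟨z, hz, rfl⟩)
    exact ⟨c, hc.symm⟩
  have hmax : ∀ A : Subgroup (AddMonoid.End V)ˣ, A ≤ G → (∀ a ∈ A, ∀ b ∈ A, Commute a b) →
      (∀ g ∈ G, ∀ a ∈ A, g * a * g⁻¹ ∈ A) → (∀ c, ι c ∈ A) → ∀ a ∈ A, ∃ c, a = ι c := by
    intro A h1 h2 h3 h4 a ha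
    have h5 : Z = A := Subgroup.eq_of_le_of_card_ge
      (hZr.trans (by rintro _ ⟨c, rfl⟩; exact h4 c)) (hZmax A ⟨h1, h2, h3⟩)
    obtain ⟨c, hc⟩ := hZr (h5 ▸ ha)
    exact ⟨c, hc.symm⟩
  refine finish hB G haff ?_ (fun β hβ => caseII hB G hirr ι hι (fun c => hrG ⟨c, rfl⟩) hn hσ hmax
    β hβ ih) h v
  by_cases h3 : ∃ l : 𝒜, l ≠ 0 ∧ l ≠ 1
  · exact fun h => additive G hσ h3 (fun x => h • x) (MulAction.injective h) (haff h)
  have hG : G = ⊥ := by
    by_contra hG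
    obtain ⟨A, hA, h1, h2, h4⟩ := exists_ab G hG
    push Not at h3
    have e : ∀ c : 𝒜ˣ, ι c = 1 := fun c => by
      rw [show c = 1 from Units.ext (h3 c c.ne_zero), map_one]
    refine hA ((Subgroup.eq_bot_iff_forall _).2 fun a ha => ?_)
    obtain ⟨c, hc⟩ := hmax A h1 h2 h4 (fun c => e c ▸ A.one_mem) a ha
    rw [hc, e]
  have key : ∀ (h : B) (x : V), h • x - h • (0 : V) = x := by
    intro h x
    obtain ⟨g, hg, t, h0, h1, -⟩ := haff h 0 x x
    rw [hG, Subgroup.mem_bot] at hg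
    subst hg
    rw [← h0, ← h1]; simp
  intro h x y
  rw [key, key, key]

theorem tr_all {B : Type u} [Group B] (hB : commutator B = ⊤) (Δ : Type u) [Finite Δ] : Tr B Δ :=
  red (fun V _ _ _ _ G => affine hB V G) Δ

theorem main {Ω : Type u} [Finite Ω] (G : Subgroup (Equiv.Perm Ω)) (hG : Group.IsSolvable G)
    (H : Subgroup (Equiv.Perm Ω))
    (hH : ∀ h ∈ H, ∀ a b c : Ω, ∃ g ∈ G, g a = h a ∧ g b = h b ∧ g c = h c) :
    Group.IsSolvable H := by
  rw [Group.isSolvable_iff_commutator_lt]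
  intro K hK
  refine lt_of_le_of_ne (Subgroup.commutator_le_self K) fun h => hK ?_
  have hB : commutator K = ⊤ := by
    apply Subgroup.map_injective K.subtype_injective
    rw [K.map_subtype_commutator, h, ← MonoidHom.range_eq_map, K.range_subtype]
  refine (Subgroup.eq_bot_iff_forall _).2 fun x hx => Subtype.ext (Equiv.ext fun a => ?_)
  refine tr_all hB Ω G (fun k a b c => ?_) ⟨x, hx⟩ a
  obtain ⟨g, hg, H⟩ := hH k.1.1 k.1.2 a b c
  exact ⟨⟨g, hg⟩, H⟩

end H64.C3
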