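import Cfsg.Agent.Lib.C3.Bas

/-! # C3, package NRM: the 2-closure normalises `E` -/

set_option autoImplicit false
set_option linter.unusedSectionVars false

namespace H64.C3

variable {F V Γ : Type*} [Field F] [AddCommGroup V] [Module F V] [Group Γ]
  [DistribMulAction Γ V] [Finite V] [Nontrivial V] [Finite Γ] [FaithfulSMul Γ V]

namespace Nrm

/-- `u` has type `β` -/
def W (B : Subgroup Γ) (β : B → F) (u : V) : Prop := ∀ b : B, (b : Γ) • u = β b • u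

theorem uniq {B : Subgroup Γ} {β β' : B → F} {u : V} (hu : u ≠ 0) (h : W B β u) (h' : W B β' u) :
    β = β' := funext fun b => smul_cancel hu ((h b).symm.trans (h' b))

theorem ne0 {B : Subgroup Γ} {β : B → F} {u : V} (hu : u ≠ 0) (h : W B β u) (b : B) : β b ≠ 0 := by
  intro h0
  have := h b
  rw [h0, zero_smul] at this
  exact (smul_ne_zero_iff_ne _).2 hu this

variable (S : Sy F V Γ) {v₀ : V} (hv : v₀ ≠ 0)
  (hmax : ∀ u : V, u ≠ 0 → Nat.card (S.st u) ≤ Nat.card (S.st v₀))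

theorem fixW {β : S.st v₀ → F} (b : S.st v₀) {c : Fˣ} (hc : (c : F) = β b) {u : V}
    (h : W (S.st v₀) β u) : ((b : Γ) * S.ι c⁻¹) • u = u := by
  rw [mul_smul, S.hι, S.lin b.2.1, h b, ← hc, smul_smul]; simp

include hv hmax in
theorem keyK {β : S.st v₀ → F} {u : V} (hu : u ≠ 0) (h : W (S.st v₀) β u) {y : Γ}
    (hy : y ∈ S.st u) : ∃ (b : S.st v₀) (c : Fˣ), (c : F) = β b ∧ y = b * S.ι c⁻¹ := by
  let f : S.st v₀ → S.st u := fun b => ⟨b * S.ι (Units.mk0 (β b) (ne0 hu h b))⁻¹,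
    S.mem_st.2 ⟨S.E.mul_mem b.2.1 (S.ιE _), fixW S b rfl h⟩⟩
  have inj : Function.Injective f := by
    intro a b hab
    have h1 := congrArg Subtype.val hab
    simp only [f] at h1
    generalize (Units.mk0 (β a) _)⁻¹ = c at h1
    generalize (Units.mk0 (β b) _)⁻¹ = d at h1
    have h2 : (b : Γ)⁻¹ * a = S.ι (d * c⁻¹) := by
      rw [map_mul, map_inv, inv_mul_eq_iff_eq_mul, ← mul_assoc, ← h1]; group
    have h3 := S.ι_st hv (c := d * c⁻¹) (h2 ▸ mul_mem (inv_mem b.2) a.2)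
    rw [h3, map_one, inv_mul_eq_one] at h2
    exact Subtype.ext h2.symm
  obtain ⟨b, hb⟩ := (inj.bijective_of_nat_card_le (hmax u hu)).2 ⟨y, hy⟩
  exact ⟨b, _, rfl, (congrArg Subtype.val hb).symm⟩

include hv hmax in
theorem move {G : Subgroup Γ} (hG : G ≤ S.M) {k : Γ} (hk : k ∈ cl2 G V) (hkv : k • v₀ = v₀)
    {β : S.st v₀ → F} {u : V} (hu : u ≠ 0) (h : W (S.st v₀) β u) :
    ∃ β' : S.st v₀ → F, ∀ u' : V, W (S.st v₀) β u' → W (S.st v₀) β' (k • u') := by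
  obtain ⟨g, hg, h1, h2⟩ := hk v₀ u
  have h3 := S.ev_smul (S.st_le v₀) (S.nz_fix (hG hg) (h1.trans hkv))
    (u := u) ⟨hu, fun a ha => ⟨_, h ⟨a, ha⟩⟩⟩
  rw [h2] at h3
  choose β' hβ' using h3.2
  refine ⟨fun b => β' b b.2, fun u' hu' b => ?_⟩
  have hW : W (S.st v₀) (fun b => β' b b.2) (k • u) := fun b => hβ' b b.2
  obtain ⟨g', hg', h4, h5⟩ := hk u u'
  let c := Units.mk0 _ (ne0 h3.1 hW b)
  have h6 : (b : Γ) * S.ι c⁻¹ ∈ S.st (k • u) :=
    S.mem_st.2 ⟨S.E.mul_mem b.2.1 (S.ιE _), fixW S b rfl hW⟩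
  have h7 := S.st_conj (S.M.inv_mem (hG hg')) h6
  rw [← h4, inv_smul_smul] at h7
  obtain ⟨b', c', hc', e⟩ := keyK S hv hmax hu h h7
  have h8 := fixW S b' hc' hu'
  rw [← e, mul_smul, mul_smul, inv_inv, inv_smul_eq_iff, h5, mul_smul, S.hι, S.lin b.2.1] at h8
  rw [Units.val_inv_eq_inv_val, inv_smul_eq_iff₀ c.ne_zero] at h8
  exact h8

end Nrm

open Nrm in
theorem Sy.nrm (S : Sy F V Γ) (G : Subgroup Γ) (hG : G ≤ S.M) (hs : ∀ k ∈ cl2 G V, Semi F V k)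
    (v₀ : V) (hv : v₀ ≠ 0) (hmax : ∀ u : V, u ≠ 0 → Nat.card (S.st u) ≤ Nat.card (S.st v₀))
    (x : Γ) (hx : x ∈ S.st v₀) (h : Γ) (hh : h ∈ cl2 G V) : h * x * h⁻¹ ∈ S.E := by
  classical
  by_cases hx1 : x = 1
  · simp [hx1]
  haveI : Finite F := Finite.of_injective _ (smul_left_injective F hv)
  obtain ⟨g₀, hg₀, h0, -⟩ := hh v₀ v₀
  obtain ⟨k, hk, hkv, rfl⟩ : ∃ k ∈ cl2 G V, k • v₀ = v₀ ∧ h = g₀ * k :=
    ⟨g₀⁻¹ * h, mul_mem (inv_mem (le_cl2 G V hg₀)) hh, by rw [mul_smul, ← h0, inv_smul_smul],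
      by group⟩
  suffices H : k * x * k⁻¹ ∈ S.E by simpa [mul_assoc] using S.conj_mem (hG hg₀) H
  let Λ := {β : S.st v₀ → F // ∃ u : V, u ≠ 0 ∧ W (S.st v₀) β u}
  letI : Fintype Λ := Fintype.ofFinite Λ
  choose ub hub0 hubW using fun β : Λ => β.2
  have mv : ∀ k ∈ cl2 G V, k • v₀ = v₀ → ∃ π : Λ → Λ, ∀ (β : Λ) (u : V),
      W (S.st v₀) β.1 u → W (S.st v₀) (π β).1 (k • u) := by
    intro k hk hkv
    choose π hπ using fun β : Λ => move S hv hmax hG hk hkv (hub0 β) (hubW β)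
    exact ⟨fun β => ⟨π β, k • ub β, (smul_ne_zero_iff_ne k).2 (hub0 β), hπ β _ (hubW β)⟩, hπ⟩
  obtain ⟨π, hπ⟩ := mv k hk hkv
  obtain ⟨π', hπ'⟩ := mv k⁻¹ (inv_mem hk) (inv_smul_eq_iff.2 hkv.symm)
  have πb : Function.Bijective π' := Finite.injective_iff_bijective.1
    (Function.LeftInverse.injective (g := π) fun β => Subtype.ext (uniq (hub0 β)
      (by simpa using hπ _ _ (hπ' β _ (hubW β))) (hubW β)))
  obtain ⟨σ, hσ⟩ := hs k hk
  let n : Λ → F := fun δ => σ ((π' δ).1 ⟨x, hx⟩)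
  have hy : ∀ (δ : Λ) (u : V), W (S.st v₀) δ.1 u → (k * x * k⁻¹) • u = n δ • u := by
    intro δ u hu
    have := hπ' δ u hu ⟨x, hx⟩
    rw [mul_smul, mul_smul, this, hσ, smul_inv_smul]
  have tr : ∀ t ∈ S.E, ∃ τ : Λ → Λ, Function.Bijective τ ∧
      (∀ (β : Λ) (b : S.st v₀), (τ β).1 b = β.1 b * S.κ b t) ∧
      ∀ (β : Λ) (u : V), W (S.st v₀) β.1 u → W (S.st v₀) (τ β).1 (t • u) := by
    intro t ht
    have a : ∀ (β : Λ) (u : V), W (S.st v₀) β.1 u →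
        W (S.st v₀) (fun b => β.1 b * S.κ b t) (t • u) := fun β u hu b => by
      rw [S.κ_smul b.2.1 ht, hu b, S.lin ht, smul_smul, mul_comm]
    refine ⟨fun β => ⟨_, t • ub β, (smul_ne_zero_iff_ne t).2 (hub0 β), a β _ (hubW β)⟩,
      Finite.injective_iff_bijective.1 fun β β' e => Subtype.ext (funext fun b => ?_),
      fun _ _ => rfl, a⟩
    exact mul_right_cancel₀ (S.κ b t).ne_zero (congrFun (congrArg Subtype.val e) b)
  have sum0 : ∀ b : S.st v₀, (b : Γ) ≠ 1 → ∑ β : Λ, β.1 b = 0 := by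
    intro b hb
    obtain ⟨t, ht, hκ, -⟩ := S.exists_b hv b.2 hb
    obtain ⟨τ, h1, h2, -⟩ := tr t ht
    have h3 := h1.sum_comp fun β : Λ => β.1 b
    simp only [h2, ← Finset.sum_mul] at h3
    by_contra h4
    exact hκ (Units.ext (mul_left_cancel₀ h4 (by simpa using h3)))
  have sumn : ∑ δ, n δ = 0 := by
    simp only [n]
    rw [← map_sum, πb.sum_comp fun β : Λ => β.1 ⟨x, hx⟩, sum0 _ hx1, map_zero]
  have pr : ∀ δ : Λ, ∃ L : V →ₗ[F] V, ∀ (β : Λ) (u : V), W (S.st v₀) β.1 u →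
      L u = if β = δ then u else 0 := by
    intro δ
    obtain ⟨L, h1, h2⟩ := S.proj (S.st_le v₀) (ub δ) (hub0 δ)
      (Set.toFinite {u : V | u ≠ 0 ∧ ∃ β : Λ, β ≠ δ ∧ W (S.st v₀) β.1 u}).toFinset (by
        intro u hu
        obtain ⟨hu0, β, hβ, hW⟩ := (Set.Finite.mem_toFinset _).1 hu
        refine ⟨⟨hu0, fun a ha => ⟨_, hW ⟨a, ha⟩⟩⟩, ?_⟩
        obtain ⟨b, hb⟩ := Function.ne_iff.1 (Subtype.coe_ne_coe.2 hβ)
        exact ⟨b, b.2, _, _, hb.symm, hubW δ b, hW b⟩)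
    refine ⟨L, fun β u hu => ?_⟩
    split_ifs with e
    · subst e
      exact h2 u fun a ha c hc => by
        rw [hu ⟨a, ha⟩, smul_cancel (hub0 β) ((hubW β ⟨a, ha⟩).symm.trans hc)]
    · by_cases hu0 : u = 0
      · simp [hu0]
      · exact h1 u ((Set.Finite.mem_toFinset _).2 ⟨hu0, β, e, hu⟩)
  let γ : Λ := ⟨fun _ => 1, v₀, hv, fun b => by simpa using (S.mem_st.1 b.2).2⟩
  obtain ⟨γ', hγ'⟩ : ∃ γ' : Λ, γ' ≠ γ := by
    obtain ⟨t, ht, hκ, -⟩ := S.exists_b hv hx hx1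
    obtain ⟨τ, -, h2, -⟩ := tr t ht
    refine ⟨τ γ, fun e => hκ (Units.ext ?_)⟩
    have := h2 γ ⟨x, hx⟩
    rw [e] at this
    simpa [γ] using this.symm
  obtain ⟨g, hg, h1, h2⟩ := hk (k⁻¹ • ∑ β ∈ Finset.univ.erase γ, ub β)
    (x • k⁻¹ • ∑ β ∈ Finset.univ.erase γ, ub β)
  have ht : g * x * g⁻¹ ∈ S.E := S.conj_mem (hG hg) hx.1
  have htc : ∀ c, g * x * g⁻¹ ≠ S.ι c := fun c hc => by
    obtain ⟨c', hc'⟩ := S.conj_ι (S.M.inv_mem (hG hg)) c
    have e : x = S.ι c' := by rw [← hc', ← hc]; group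
    exact hx1 (by rw [e, S.ι_st hv (c := c') (e ▸ hx), map_one])
  have h3 : ∑ β ∈ Finset.univ.erase γ, (g * x * g⁻¹) • ub β =
      ∑ β ∈ Finset.univ.erase γ, n β • ub β := by
    rw [← Finset.smul_sum, ← Finset.sum_congr rfl fun β _ => hy β _ (hubW β), ← Finset.smul_sum,
      mul_smul, mul_smul, mul_smul, mul_smul, ← h2]
    congr 2
    rw [inv_smul_eq_iff, h1, smul_inv_smul]
  generalize g * x * g⁻¹ = t at ht htc h3
  obtain ⟨τ, τb, hτ1, hτ2⟩ := tr t ht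
  have h4 : ∀ β δ : Λ, β ≠ γ → τ β = δ → t • ub β = if δ = γ then 0 else n δ • ub δ := by
    intro β δ hβ e
    obtain ⟨L, hL⟩ := pr δ
    have h5 := congrArg L h3
    rw [map_sum, map_sum, Finset.sum_eq_single β, hL _ _ (hτ2 β _ (hubW β)), if_pos e] at h5
    · rw [h5]
      simp only [map_smul, hL _ _ (hubW _), smul_ite, smul_zero]
      by_cases e' : δ = γ
      · rw [if_pos e']
        exact Finset.sum_eq_zero fun a ha => if_neg (e' ▸ Finset.ne_of_mem_erase ha)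
      · rw [if_neg e', Finset.sum_eq_single δ, if_pos rfl]
        · exact fun a _ ha => if_neg ha
        · simp [e']
    · intro β' _ hne
      rw [hL _ _ (hτ2 β' _ (hubW β')), if_neg fun e' => hne (τb.1 (e'.trans e.symm))]
    · simp [hβ]
  have h5 : ∀ β, τ β = β := by
    obtain ⟨δ, hδ⟩ := τb.2 γ
    have e : δ = γ := by
      by_contra hne
      exact (smul_ne_zero_iff_ne t).2 (hub0 δ) (by simpa using h4 δ γ hne hδ)
    subst e
    intro β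
    refine Subtype.ext (funext fun b => ?_)
    have := hτ1 γ b
    rw [hδ] at this
    rw [hτ1, show (S.κ b t : F) = 1 by simpa [γ] using this.symm, mul_one]
  have h6 : ∀ β, β ≠ γ → t • ub β = n β • ub β := fun β hβ => by
    simpa [hβ] using h4 β β hβ (h5 β)
  obtain ⟨b₁, c₂, e⟩ : ∃ (b : S.st v₀) (c : Fˣ), t = b * S.ι c := by
    have hn0 : n γ' ≠ 0 := fun h0 => (smul_ne_zero_iff_ne t).2 (hub0 γ') (by
      rw [h6 γ' hγ', h0, zero_smul])
    obtain ⟨b, c, -, e⟩ := keyK S hv hmax (hub0 γ') (hubW γ') (y := t * S.ι (Units.mk0 _ hn0)⁻¹)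
      (S.mem_st.2 ⟨mul_mem ht (S.ιE _), by
        rw [mul_smul, S.hι, S.lin ht, h6 γ' hγ', smul_smul]; simp [hn0]⟩)
    exact ⟨b, c⁻¹ * Units.mk0 _ hn0, by rw [map_mul, ← mul_assoc, ← e]; simp⟩
  have h7 : ∀ (β : Λ) (u : V), W (S.st v₀) β.1 u → t • u = (c₂ * β.1 b₁) • u := fun β u hu => by
    rw [e, mul_smul, S.hι, S.lin b₁.2.1, hu b₁, smul_smul]
  have h8 : ∀ β : Λ, c₂ * β.1 b₁ = n β := by
    have a : ∀ β : Λ, β ≠ γ → c₂ * β.1 b₁ = n β := fun β hβ =>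
      smul_cancel (hub0 β) ((h7 β _ (hubW β)).symm.trans (h6 β hβ))
    have b : ∑ β : Λ, c₂ * β.1 b₁ = ∑ β, n β := by
      rw [sumn, ← Finset.mul_sum, sum0 b₁ fun h => htc c₂ (by rw [e, h, one_mul]), mul_zero]
    rw [← Finset.add_sum_erase _ _ (Finset.mem_univ γ), ← Finset.add_sum_erase _ n (Finset.mem_univ γ),
      Finset.sum_congr rfl fun β hβ => a β (Finset.ne_of_mem_erase hβ)] at b
    intro β
    by_cases hβ : β = γ
    · rw [hβ]; exact add_right_cancel b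
    · exact a β hβ
  have h9 : ∀ s : Finset (S.st v₀), (∀ u : V, (∀ b ∈ s, ∃ c : F, (b : Γ) • u = c • u) →
      (k * x * k⁻¹) • u = t • u) → ∀ u : V, (k * x * k⁻¹) • u = t • u := by
    intro s
    induction s using Finset.induction_on with
    | empty => exact fun H u => H u (by simp)
    | insert b s _ ih =>
      refine fun H => ih fun u hu => ?_
      obtain ⟨w, hw, he, hf⟩ := S.eig_sum b.2.1 (S.st_pow hv b.2) u
      rw [← hw, Finset.smul_sum, Finset.smul_sum]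
      refine Finset.sum_congr rfl fun j _ => H _ fun a ha => ?_
      rcases Finset.mem_insert.1 ha with rfl | ha
      · obtain ⟨c, hc⟩ := he j
        exact ⟨c, hc⟩
      · obtain ⟨c, hc⟩ := hu a ha
        exact ⟨c, hf j a a.2.1 c (S.st_comm hv a.2 b.2) hc⟩
  letI : Fintype (S.st v₀) := Fintype.ofFinite _
  have h10 : k * x * k⁻¹ = t := eq_of_smul_eq_smul (h9 Finset.univ fun u hu => by
    by_cases hu0 : u = 0
    · simp [hu0]
    choose β hβ using fun b => hu b (Finset.mem_univ b)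
    rw [hy ⟨β, u, hu0, hβ⟩ u hβ, h7 ⟨β, u, hu0, hβ⟩ u hβ, h8])
  exact h10 ▸ ht

end H64.C3
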