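import Cfsg.Agent.Lib.C3.Bas

/-! # C3: perfect groups, the index-4 argument and the annihilator argument -/

set_option autoImplicit false
set_option linter.unusedSectionVars false

namespace H64.C3

universe u

theorem perf_triv {B A : Type*} [Group B] [Group A] [Group.IsSolvable A]
    (hB : commutator B = ⊤) (φ : B →* A) (k : B) : φ k = 1 := by
  obtain ⟨n, hn⟩ := (inferInstance : Group.IsSolvable A)
  have h : ∀ m, derivedSeries B m = ⊤ := by
    intro m
    induction m with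
    | zero => rfl
    | succ m ih => rw [derivedSeries_succ, ih]; exact hB
  have := map_derivedSeries_le_derivedSeries φ n
  rw [hn, h] at this
  exact this ⟨k, trivial, rfl⟩

theorem perf_triv' {B A : Type*} [Group B] [Group A] (G : Subgroup A) [Group.IsSolvable G]
    (hB : commutator B = ⊤) (φ : B →* A) (h : ∀ k, φ k ∈ G) (k : B) : φ k = 1 :=
  congrArg Subtype.val (perf_triv hB (φ.codRestrict G h) k)

theorem solv_s4 : Group.IsSolvable (Equiv.Perm (Fin 4)) := by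
  let K : Subgroup (Equiv.Perm (Fin 4)) :=
    { carrier := {a | Equiv.Perm.sign a = 1 ∧ a ^ 2 = 1}
      mul_mem' := fun {a b} => by revert a b; simp only [Set.mem_ofPred_eq]; decide +kernel
      one_mem' := by simp
      inv_mem' := fun {a} => by revert a; simp only [Set.mem_ofPred_eq]; decide +kernel }
  refine ⟨3, le_bot_iff.1 ?_⟩
  have h1 : derivedSeries (Equiv.Perm (Fin 4)) 1 ≤ alternatingGroup (Fin 4) :=
    Subgroup.commutator_le.2 fun a _ b _ => by
      simp [Equiv.Perm.mem_alternatingGroup, commutatorElement_def, mul_right_comm]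
  have h2 : derivedSeries (Equiv.Perm (Fin 4)) 2 ≤ K := Subgroup.commutator_le.2 fun a ha b hb => by
    have h3 : Equiv.Perm.sign a = 1 := h1 ha
    have h4 : Equiv.Perm.sign b = 1 := h1 hb
    change Equiv.Perm.sign (a * b * a⁻¹ * b⁻¹) = 1 ∧ (a * b * a⁻¹ * b⁻¹) ^ 2 = 1
    clear ha hb
    revert a b
    decide +kernel
  exact Subgroup.commutator_le.2 fun a ha b hb => by
    have h3 : Equiv.Perm.sign a = 1 ∧ a ^ 2 = 1 := h2 ha
    have h4 : Equiv.Perm.sign b = 1 ∧ b ^ 2 = 1 := h2 hb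
    change a * b * a⁻¹ * b⁻¹ = 1
    clear ha hb
    revert a b
    decide +kernel

theorem col4 {B X : Type*} [Group B] [Group X] (hB : commutator B = ⊤) (ρ : B →* X)
    (G : Subgroup X) [Group.IsSolvable G] (col : B → Prop × Prop)
    (hc : ∀ k₁ k₂, col k₁ = col k₂ → ρ (k₁⁻¹ * k₂) ∈ G) (k : B) : ρ k = 1 := by
  classical
  refine perf_triv' G hB ρ (fun k => ?_) k
  let T := G.comap ρ
  obtain ⟨e⟩ : Nonempty ((Prop × Prop) ≃ Fin 4) := by
    refine Fintype.card_eq.1 ?_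
    simp
  let j : B ⧸ T ↪ Fin 4 := ⟨fun q => e (col q.out), fun q q' h => by
    rw [← q.out_eq', ← q'.out_eq']
    exact QuotientGroup.eq.2 (hc _ _ (e.injective h))⟩
  haveI := solv_s4
  have h1 := perf_triv hB ((Equiv.Perm.viaEmbeddingHom j).comp (MulAction.toPermHom B (B ⧸ T))) k⁻¹
  have h2 : MulAction.toPermHom B (B ⧸ T) k⁻¹ = 1 :=
    Equiv.Perm.viaEmbeddingHom_injective j (by simpa using h1)
  have h3 : k⁻¹ • ((1 : B) : B ⧸ T) = ((1 : B) : B ⧸ T) := 
    congrArg (fun p : Equiv.Perm (B ⧸ T) => p ((1 : B) : B ⧸ T)) h2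
  have h4 : ((k⁻¹ * 1 : B) : B ⧸ T) = ((1 : B) : B ⧸ T) := h3
  simpa [T] using QuotientGroup.eq.1 h4

section

variable {F V Γ : Type*} [Field F] [AddCommGroup V] [Module F V] [Group Γ]
  [DistribMulAction Γ V] [Finite V] [Nontrivial V] [Finite Γ] [FaithfulSMul Γ V]

theorem Sy.gl4 (S : Sy F V Γ) {B : Type*} [Group B] (hB : commutator B = ⊤) (G : Subgroup Γ)
    [Group.IsSolvable G] (hG : G ≤ S.M) (hcl : cl2 G V ≤ S.M) (hp : ∃ v w : V, S.Col ⊥ v w)
    (β : B →* Γ) (hβ : ∀ h, β h ∈ cl2 G V) (hlin : ∀ h c, Commute (β h) (S.ι c)) (h : B)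
    {x : Γ} (hx : x ∈ S.E) : Commute (β h) x := by
  obtain ⟨v, w, f, hf⟩ := hp
  let D : Subgroup S.M :=
    { carrier := {n | ∀ y ∈ S.E, ∃ c, (n : Γ) * y * (n : Γ)⁻¹ = y * S.ι c}
      one_mem' := fun y _ => ⟨1, by simp⟩
      mul_mem' := by
        intro a b ha hb y hy
        obtain ⟨c, hc⟩ := hb y hy
        obtain ⟨c', hc'⟩ := ha y hy
        obtain ⟨d, hd⟩ := S.conj_ι a.2 c
        refine ⟨c' * d, ?_⟩
        rw [map_mul, ← mul_assoc, ← hc', ← hd]
        calc ((a * b : S.M) : Γ) * y * ((a * b : S.M) : Γ)⁻¹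
            = a * ((b : Γ) * y * (b : Γ)⁻¹) * (a : Γ)⁻¹ := by push_cast; group
          _ = _ := by rw [hc]; group
      inv_mem' := by
        intro a ha y hy
        obtain ⟨c, hc⟩ := ha _ (S.conj_mem' a.2 hy)
        refine ⟨c⁻¹, ?_⟩
        have : y = (a : Γ)⁻¹ * y * a * S.ι c := by rw [← hc]; group
        rw [map_inv, eq_mul_inv_iff_mul_eq]
        simpa using this.symm }
  haveI : D.Normal := ⟨by
    intro n hn g y hy
    obtain ⟨c, hc⟩ := hn _ (S.conj_mem' g.2 hy)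
    obtain ⟨d, hd⟩ := S.conj_ι g.2 c
    refine ⟨d, ?_⟩
    rw [← hd]
    calc ((g * n * g⁻¹ : S.M) : Γ) * y * ((g * n * g⁻¹ : S.M) : Γ)⁻¹
        = g * ((n : Γ) * ((g : Γ)⁻¹ * y * g) * (n : Γ)⁻¹) * (g : Γ)⁻¹ := by push_cast; group
      _ = _ := by rw [hc]; group⟩
  let β' : B →* S.M := β.codRestrict _ fun h => hcl (hβ h)
  let ψ : G →* S.M ⧸ D := (QuotientGroup.mk' D).comp (Subgroup.inclusion hG)
  haveI : Group.IsSolvable ψ.range :=
    Group.isSolvable_of_surjective ψ.rangeRestrict_surjective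
  have hch : ∀ k : B, ∃ g ∈ G, (β k * g) • v = v ∧ (β k * g) • w = w := by
    intro k
    obtain ⟨g, hg, h1, h2⟩ := (cl2 G V).inv_mem (hβ k) v w
    exact ⟨g, hg, by rw [mul_smul, h1, smul_inv_smul], by rw [mul_smul, h2, smul_inv_smul]⟩
  choose g hg hv hw using hch
  have hM : ∀ k, β k * g k ∈ S.M := fun k => S.M.mul_mem (hcl (hβ k)) (hG (hg k))
  have key := col4 hB ((QuotientGroup.mk' D).comp β') ψ.range (fun k => f (β k * g k)) (by
    intro k₁ k₂ hk
    have hD := (hf _ (hM k₁) _ (hM k₂) (hv _) (hw _) (hv _) (hw _) hk).2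
    have hD' : (⟨_, hM k₁⟩ : S.M)⁻¹ * ⟨_, hM k₂⟩ ∈ D := by
      intro y hy
      obtain ⟨b, hb, c, hc⟩ := hD y hy (by
        intro b hb; rw [Subgroup.mem_bot.1 hb]; exact Commute.one_left y)
      rw [Subgroup.mem_bot.1 hb, mul_one] at hc
      exact ⟨c, hc⟩
    have e := QuotientGroup.eq.2 hD'
    have e' : QuotientGroup.mk' D (β' k₁) * ψ ⟨g k₁, hg k₁⟩ =
        QuotientGroup.mk' D (β' k₂) * ψ ⟨g k₂, hg k₂⟩ := e
    refine ⟨⟨g k₁, hg k₁⟩ * (⟨g k₂, hg k₂⟩ : G)⁻¹, ?_⟩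
    simp only [map_mul, map_inv, MonoidHom.comp_apply]
    rw [mul_inv_eq_iff_eq_mul, mul_assoc, ← e']; group)
  have hD : ∀ k, ∃ c, β k * x * (β k)⁻¹ = x * S.ι c := fun k =>
    (QuotientGroup.eq_one_iff _).1 (key k) x hx
  choose c hc using hD
  let χ : B →* Fˣ := MonoidHom.mk' c (by
    intro a b
    apply S.ι_inj
    apply mul_left_cancel (a := x)
    rw [← hc, map_mul, map_mul, ← mul_assoc, ← hc a]
    calc β a * β b * x * (β a * β b)⁻¹ = β a * (β b * x * (β b)⁻¹) * (β a)⁻¹ := by group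
      _ = β a * x * (S.ι (c b) * (β a)⁻¹) := by rw [hc b]; group
      _ = _ := by rw [← (hlin a (c b)).inv_left.eq]; group)
  have h1 : c h = 1 := perf_triv hB χ h
  have h2 := hc h
  rw [h1, map_one, mul_one, mul_inv_eq_iff_eq_mul] at h2
  exact h2

end

theorem omega {B V Γ : Type u} [Group B] [AddCommGroup V] [Finite V] [Group Γ]
    [DistribMulAction Γ V] (G : Subgroup Γ) [Group.IsSolvable G] (hirr : Irr G V) (β : B →* Γ)
    (hβ : ∀ h, β h ∈ cl2 G V) (ih : IH B (Nat.card V)) (𝒮 : Set (V →+ V))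
    (hinv : ∀ g ∈ G, ∀ s ∈ 𝒮, ∃ s' ∈ 𝒮, ∀ v, s' (g • v) = g • s v)
    (hcom : ∀ h, ∀ s ∈ 𝒮, ∀ v, s (β h • v) = β h • s v)
    (hz : ∃ s ∈ 𝒮, s ≠ 0 ∧ ∃ v, v ≠ 0 ∧ s v = 0) (h : B) (v : V) : β h • v = v := by
  let Ω : V → AddSubgroup V := fun v =>
    { carrier := {u | ∀ s ∈ 𝒮, s v = 0 → s u = 0}
      zero_mem' := fun s _ _ => map_zero s
      add_mem' := fun ha hb s hs h0 => by rw [map_add, ha s hs h0, hb s hs h0, add_zero]
      neg_mem' := fun ha s hs h0 => by rw [map_neg, ha s hs h0, neg_zero] }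
  have hΩ : ∀ v u, u ∈ Ω v ↔ ∀ s ∈ 𝒮, s v = 0 → s u = 0 := fun _ _ => Iff.rfl
  have hg : ∀ g ∈ G, ∀ v u, u ∈ Ω v → g • u ∈ Ω (g • v) := by
    intro g hg v u hu s hs h0
    obtain ⟨s', hs', h1⟩ := hinv g⁻¹ (G.inv_mem hg) s hs
    have h2 := hu s' hs' (by simpa [h0] using h1 (g • v))
    have h3 := h1 (g • u)
    rw [inv_smul_smul, h2] at h3
    exact (smul_eq_zero_iff_eq _).1 h3.symm
  have hcard : ∀ g ∈ G, ∀ v, Nat.card (Ω v) ≤ Nat.card (Ω (g • v)) := fun g hg' v =>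
    Nat.card_le_card_of_injective (fun u : Ω v => (⟨g • u.1, hg g hg' v u u.2⟩ : Ω (g • v)))
      fun a b hab => Subtype.ext (MulAction.injective g (congrArg Subtype.val hab))
  have hb : ∀ h u, Ω (β h • u) = Ω u := by
    intro h u
    ext z
    simp only [hΩ]
    exact forall₂_congr fun s hs => by rw [hcom h s hs, smul_eq_zero_iff_eq]
  obtain ⟨s₀, hs₀, hs0, v₁, hv₁, hsv⟩ := hz
  have fix : ∀ v, v ≠ 0 → (∀ u, u ≠ 0 → Nat.card (Ω v) ≤ Nat.card (Ω u)) → ∀ h, β h • v = v := by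
    intro v hv hmin
    have hlt : Nat.card (Ω v) < Nat.card V := by
      refine (hmin v₁ hv₁).trans_lt ?_
      refine lt_of_le_of_ne (AddSubgroup.card_le_card_addGroup _) fun h => hs0 ?_
      have := (AddSubgroup.card_eq_iff_eq_top _).1 h
      ext u
      exact (this ▸ AddSubgroup.mem_top u : u ∈ Ω v₁) s₀ hs₀ hsv
    have heq : ∀ u ∈ Ω v, u ≠ 0 → Ω u = Ω v := fun u hu h0 =>
      AddSubgroup.eq_of_le_of_card_ge (fun z hz s hs h1 => hz s hs (hu s hs h1)) (hmin u h0)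
    let A : Subgroup Γ :=
      { carrier := {g | g ∈ G ∧ ∀ u, g • u ∈ Ω v ↔ u ∈ Ω v}
        one_mem' := ⟨G.one_mem, by simp⟩
        mul_mem' := fun ha hb => ⟨G.mul_mem ha.1 hb.1, fun u => by rw [mul_smul, ha.2, hb.2]⟩
        inv_mem' := fun {a} ha => ⟨G.inv_mem ha.1, fun u => by rw [← ha.2, smul_inv_smul]⟩ }
    haveI : Group.IsSolvable A := Group.isSolvable_of_isSolvable_injective
      (Subgroup.inclusion_injective (fun g hg => hg.1 : A ≤ G))
    letI : DistribMulAction A (Ω v) :=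
      { smul := fun g u => ⟨(g : Γ) • u.1, (g.2.2 _).2 u.2⟩
        one_smul := fun u => Subtype.ext (one_smul Γ u.1)
        mul_smul := fun a b u => Subtype.ext (mul_smul (a : Γ) b u.1)
        smul_zero := fun a => Subtype.ext (smul_zero (a : Γ))
        smul_add := fun a u u' => Subtype.ext (smul_add (a : Γ) u.1 u'.1) }
    letI : MulAction B (Ω v) :=
      { smul := fun h u => ⟨β h • u.1, fun s hs h0 => by rw [hcom h s hs, u.2 s hs h0, smul_zero]⟩
        one_smul := fun u => Subtype.ext (by change β 1 • u.1 = u.1; simp)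
        mul_smul := fun a b u => Subtype.ext (by
          change β (a * b) • u.1 = β a • β b • u.1; rw [map_mul, mul_smul]) }
    have lin : ∀ (h : B) (a b : Ω v), ∃ g : A, g • a = h • a ∧ g • b = h • b := by
      intro h a b
      obtain ⟨g, hgG, h1, h2⟩ := hβ h a b
      have st : ∀ u ∈ Ω v, u ≠ 0 → g • u = β h • u → g ∈ A := by
        intro u hu h0 h3
        refine ⟨hgG, fun z => ⟨fun hz => ?_, fun hz => ?_⟩⟩
        · have := hg g⁻¹ (G.inv_mem hgG) (g • u) (g • z) (by rwa [h3, hb, heq u hu h0])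
          rwa [inv_smul_smul, inv_smul_smul, heq u hu h0] at this
        · have := hg g hgG u z (by rwa [heq u hu h0])
          rwa [h3, hb, heq u hu h0] at this
      by_cases ha : (a : V) = 0
      · by_cases hb' : (b : V) = 0
        · refine ⟨1, Subtype.ext ?_, Subtype.ext ?_⟩
          · change (1 : Γ) • a.1 = β h • a.1; simp [ha]
          · change (1 : Γ) • b.1 = β h • b.1; simp [hb']
        · exact ⟨⟨g, st b b.2 hb' h2⟩, Subtype.ext h1, Subtype.ext h2⟩
      · exact ⟨⟨g, st a a.2 ha h1⟩, Subtype.ext h1, Subtype.ext h2⟩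
    intro h
    refine congrArg Subtype.val ((ih (Ω v) hlt).aff A ?_ h ⟨v, fun _ _ h => h⟩)
    intro h a b c
    obtain ⟨g, h1, h2⟩ := lin h (b - a) (c - a)
    have e : ∀ z : Ω v, h • (z - a) = h • z - h • a := fun z => Subtype.ext (smul_sub (β h) z.1 a.1)
    rw [smul_sub, e] at h1 h2
    refine ⟨g, h • a - g • a, by abel, ?_, ?_⟩
    · rw [← sub_eq_zero] at h1 ⊢; rw [← h1]; abel
    · rw [← sub_eq_zero] at h2 ⊢; rw [← h2]; abel
  obtain ⟨v₀, hv₀, hmin⟩ := Set.exists_min_image {u : V | u ≠ 0} (fun u => Nat.card (Ω u))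
    (Set.toFinite _) ⟨v₁, hv₁⟩
  let W : AddSubgroup V :=
    { carrier := {u | ∀ g ∈ G, ∀ h, β h • g • u = g • u}
      zero_mem' := fun g _ h => by simp
      add_mem' := fun ha hb g hg h => by rw [smul_add, smul_add, ha g hg, hb g hg]
      neg_mem' := fun ha g hg h => by rw [smul_neg, smul_neg, ha g hg] }
  rcases hirr W (fun g hg u hu g' hg' h => by
    rw [← mul_smul g' g]; exact hu _ (G.mul_mem hg' hg) h) with hW | hW
  · have : v₀ ∈ W := fun g hg h => fix _ ((smul_ne_zero_iff_ne g).2 hv₀) (fun u hu => by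
      have := hcard g⁻¹ (G.inv_mem hg) (g • v₀)
      rw [inv_smul_smul] at this
      exact this.trans (hmin u hu)) h
    rw [hW] at this
    exact absurd this hv₀
  · simpa using (hW ▸ AddSubgroup.mem_top v : v ∈ W) 1 G.one_mem h

end H64.C3
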