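import Cfsg.Agent.Lib.C3.P2a

/-! # 3-closure of a solvable group: the base of PAIR for `r = 2` (package P2) -/

set_option autoImplicit false
set_option linter.unusedSectionVars false

namespace H64.C3

variable {F V Γ : Type*} [Field F] [AddCommGroup V] [Module F V] [Group Γ]
  [DistribMulAction Γ V] [Finite V] [Nontrivial V] [Finite Γ] [FaithfulSMul Γ V]

namespace P2

open Ps Po

theorem sq_fix (S : Sy F V Γ) (hr : S.r = 2) {b : Γ}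
    (hb : b ^ S.r = 1 ∨ (S.r = 2 ∧ b ^ 2 = S.ι (-1))) {n : Γ} {z : V} (h : n • z = z) :
    n • b • b • z = b • b • z := by
  rw [← mul_smul b b, ← pow_two]
  rcases hb with h1 | ⟨-, h1⟩
  · rw [hr] at h1
    rw [h1, one_smul, h]
  · rw [h1, S.hι]
    simp [h]

theorem mem_inf_cent (A : Subgroup Γ) (b y : Γ) :
    y ∈ A ⊓ Subgroup.centralizer {b} ↔ y ∈ A ∧ Commute y b := by
  rw [Subgroup.mem_inf, Subgroup.mem_centralizer_singleton_iff]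
  rfl

/-- the image of `w` is not a vector of non-trivial type -/
theorem not_img (S : Sy F V Γ) {v w : V} (hv : v ≠ 0) (hst : S.st w = S.st v) {n x b : Γ}
    (hn : n ∈ S.M) (h1 : n • v = v) (hx : x ∈ S.st v) (hb : b ∈ S.E) (hκ : S.κ x b ≠ 1) :
    n • w ≠ b • v := by
  intro h
  have h3 := S.st_conj (S.M.inv_mem hn) hx
  rw [inv_smul_eq_iff.2 h1.symm, inv_inv, ← hst] at h3
  have h4 := (S.mem_st.1 h3).2
  rw [mul_smul, mul_smul, inv_smul_eq_iff, h, eig S hx hb] at h4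
  exact hκ (Units.ext (smul_cancel (ne0 hv) (h4.trans (one_smul F _).symm)))

theorem conj_eq (S : Sy F V Γ) {v : V} {n b b' : Γ} (hn : n ∈ S.M) (hb : b ∈ S.E) (hb' : b' ∈ S.E)
    (h1 : n • v = v) (h : n • b • v = b' • v) : ∃ y ∈ S.st v, n * b * n⁻¹ = b' * y :=
  ⟨b'⁻¹ * (n * b * n⁻¹), S.mem_st.2 ⟨S.E.mul_mem (S.E.inv_mem hb') (S.conj_mem hn hb), by
    rw [mul_smul, mul_smul, mul_smul, inv_smul_eq_iff.2 h1.symm, h, inv_smul_smul]⟩, by group⟩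

theorem cent_of_fix (S : Sy F V Γ) {A : Subgroup Γ} (hA : A ≤ S.E) {y : Γ} (hy : y ∈ S.E) {p : V}
    (hp : Ev F A p) (h : y • p = p) : ∀ x ∈ A, Commute x y := by
  intro x hx
  obtain ⟨c, hc⟩ := hp.2 x hx
  have h1 := S.κ_smul (hA hx) hy p
  rw [h, hc, S.lin hy, h, ← hc] at h1
  rw [← S.κ_one (hA hx) hy]
  exact Units.ext (smul_cancel (ne0 hp.1) (h1.symm.trans (one_smul F _).symm))

theorem not_df (S : Sy F V Γ) {A : Subgroup Γ} {y : Γ} (hy : y ∈ S.E)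
    (hc : ∀ x ∈ A, Commute x y) {a b : V} (hb : b ≠ 0) (hd : Df F A a b) : y • a ≠ b := by
  intro h
  obtain ⟨x, hx, c, c', hne, h1, h2⟩ := hd
  apply hne
  refine smul_cancel hb ?_
  rw [← h2, ← h, ← mul_smul x y, (hc x hx).eq, mul_smul, h1, S.lin hy]

end P2

open Ps Po P2 in
theorem Sy.base_two (S : Sy F V Γ) (hr : S.r = 2) :
    (∃ B, S.P B) ∨ ∃ v w : V, S.Col ⊥ v w := by
  obtain ⟨v, w, hv, hw, hst, hD⟩ := first S hr
  have red : ∀ (u : V) (n₁ n₂ : Γ), n₁ • u = u → n₂ • u = u → (n₁⁻¹ * n₂) • u = u :=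
    fun u n₁ n₂ a b => by rw [mul_smul, b, inv_smul_eq_iff, a]
  by_cases h0 : S.st v = ⊥
  · refine Or.inr ⟨v, w, fun _ => (True, True), fun n₁ hn₁ n₂ hn₂ a1 a2 b1 b2 _ => ?_⟩
    rw [← h0]
    exact hD _ (S.M.mul_mem (S.M.inv_mem hn₁) hn₂) (red _ _ _ a1 b1) (red _ _ _ a2 b2)
  obtain ⟨⟨x₁, hx₁⟩, hx1⟩ := (Subgroup.ne_bot_iff_exists_ne_one).1 h0
  obtain ⟨b₁, hb₁, hκ₁, hq₁⟩ := S.exists_b hv hx₁ fun h => hx1 (Subtype.ext h)
  have hnc₁ : ¬ Commute x₁ b₁ := fun h => hκ₁ ((S.κ_one (S.st_le v hx₁) hb₁).2 h)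
  have hκ₁' : (S.κ x₁ b₁ : F) ≠ 1 := fun h => hκ₁ (Units.ext h)
  have xw : ∀ a ∈ S.st v, a • w = (1 : F) • w := fun a ha => by
    rw [one_smul, (S.mem_st.1 (hst ▸ ha : a ∈ S.st w)).2]
  have e0 : Ev F (S.st v) w := ⟨hw, fun a ha => ⟨1, xw a ha⟩⟩
  have e1 : Ev F (S.st v) (b₁ • v) := ⟨ne0 hv, fun a ha => ⟨_, eig S ha hb₁⟩⟩
  have d01 : Df F (S.st v) w (b₁ • v) := ⟨x₁, hx₁, _, _, hκ₁'.symm, xw _ hx₁, eig S hx₁ hb₁⟩
  have lem1 : ∀ n ∈ S.M, n • v = v → n • w = w → n • b₁ • v = b₁ • v →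
      S.Dd (S.st v ⊓ Subgroup.centralizer {b₁}) n := by
    intro n hn c1 c2 c3
    obtain ⟨y, hy, hy1, hy2⟩ := conj_b S hv le_rfl hn hb₁ c1 c1 c3 (sq_fix S hr hq₁ c1)
    exact S.lemS hv le_rfl hb₁ (mem_inf_cent _ _) ⟨x₁, hx₁, hnc₁⟩ hn (hD n hn c1 c2)
      ⟨y, (mem_inf_cent _ _ _).2 ⟨hy, hy1⟩, hy2⟩
  by_cases h1 : S.st v ⊓ Subgroup.centralizer {b₁} = ⊥
  · refine Or.inr ⟨v, w + b₁ • v, fun _ => (True, True), fun n₁ hn₁ n₂ hn₂ a1 a2 b1 b2 _ => ?_⟩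
    rw [← h1]
    have hn := S.M.mul_mem (S.M.inv_mem hn₁) hn₂
    have c1 := red _ _ _ a1 b1
    obtain ⟨c2, c3⟩ := (S.perm2 (S.st_le v) (S.nz_fix hn c1) e0 e1 d01
      (red _ _ _ a2 b2)).resolve_right fun h => not_img S hv hst hn c1 hx₁ hb₁ hκ₁ h.1
    exact lem1 _ hn c1 c2 c3
  obtain ⟨⟨x₂, hx₂'⟩, hx2⟩ := (Subgroup.ne_bot_iff_exists_ne_one).1 h1
  obtain ⟨hx₂, hc₂⟩ := (mem_inf_cent _ _ _).1 hx₂'
  obtain ⟨b₂, hb₂, hκ₂, hq₂⟩ := S.exists_b hv hx₂ fun h => hx2 (Subtype.ext h)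
  have hnc₂ : ¬ Commute x₂ b₂ := fun h => hκ₂ ((S.κ_one (S.st_le v hx₂) hb₂).2 h)
  have hκ₂' : (S.κ x₂ b₂ : F) ≠ 1 := fun h => hκ₂ (Units.ext h)
  have e2 : Ev F (S.st v) (b₂ • v) := ⟨ne0 hv, fun a ha => ⟨_, eig S ha hb₂⟩⟩
  have x21 : x₂ • b₁ • v = (1 : F) • b₁ • v := by
    rw [eig S hx₂ hb₁, (S.κ_one (S.st_le v hx₂) hb₁).2 hc₂, Units.val_one]
  have d02 : Df F (S.st v) w (b₂ • v) := ⟨x₂, hx₂, _, _, hκ₂'.symm, xw _ hx₂, eig S hx₂ hb₂⟩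
  have d12 : Df F (S.st v) (b₁ • v) (b₂ • v) := ⟨x₂, hx₂, _, _, hκ₂'.symm, x21, eig S hx₂ hb₂⟩
  have n12 : b₁ • v ≠ b₂ • v := not_df S S.E.one_mem (fun x _ => Commute.one_right x) (ne0 hv)
    d12 ∘ (one_smul Γ _).trans
  refine Or.inl ⟨S.st v ⊓ Subgroup.centralizer {b₁} ⊓ Subgroup.centralizer {b₂}, v,
    w + b₁ • v + b₂ • v, hv, ?_, ?_,
    fun n => (n • b₁ • v = b₁ • v, n • b₁ • b₂ • v = b₁ • b₂ • v), ?_⟩
  · apply le_antisymm
    · intro y hy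
      obtain ⟨hyE, hyw⟩ := S.mem_st.1 hy
      have hne : w + b₁ • v + b₂ • v ≠ 0 := by
        rw [add_right_comm]
        exact indep S (S.st_le v hx₂) (xw _ hx₂) (eig S hx₂ hb₂) x21 hκ₂' hκ₂' (ne0 hv)
      have hp := S.st_pow hne hy
      have yy : ∀ z : V, y • y • z = z := fun z => by
        rw [← mul_smul, ← pow_two, ← hr, hp, one_smul]
      obtain ⟨p0, p1, p2⟩ := S.perm3 (S.st_le v) (S.nz_E (S.st_le v) hyE) e0 e1 e2 d01 d02 d12 hyw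
      have hc : ∀ x ∈ S.st v, Commute x y := by
        rw [smul_add, smul_add] at hyw
        rcases p0 with h | h | h
        · exact cent_of_fix S (S.st_le v) hyE e0 h
        · refine cent_of_fix S (S.st_le v) hyE e2 ?_
          have h' := yy w
          rw [h] at h'
          rw [h, h', add_comm w] at hyw
          exact add_left_cancel hyw
        · refine cent_of_fix S (S.st_le v) hyE e1 ?_
          have h' := yy w
          rw [h] at h'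
          rw [h, h'] at hyw
          linear_combination (norm := abel) hyw
      have q0 : y • w = w := (p0.resolve_right fun h => h.elim (not_df S hyE hc (ne0 hv) d01)
        (not_df S hyE hc (ne0 hv) d02))
      have q1 : y • b₁ • v = b₁ • v := (p1.resolve_left (not_df S hyE hc hw d01.symm)).resolve_right
        (not_df S hyE hc (ne0 hv) d12)
      have q2 : y • b₂ • v = b₂ • v := (p2.resolve_left (not_df S hyE hc hw d02.symm)).resolve_left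
        (not_df S hyE hc (ne0 hv) d12.symm)
      have hyv : y ∈ S.st v := hst ▸ S.mem_st.2 ⟨hyE, q0⟩
      rw [eig S hyv hb₁] at q1
      rw [eig S hyv hb₂] at q2
      exact (mem_inf_cent _ _ _).2 ⟨(mem_inf_cent _ _ _).2 ⟨hyv, (S.κ_one hyE hb₁).1
        (Units.ext (smul_cancel (ne0 hv) (q1.trans (one_smul F _).symm)))⟩, (S.κ_one hyE hb₂).1
        (Units.ext (smul_cancel (ne0 hv) (q2.trans (one_smul F _).symm)))⟩
    · intro y hy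
      obtain ⟨hy', c2⟩ := (mem_inf_cent _ _ _).1 hy
      obtain ⟨hyv, c1⟩ := (mem_inf_cent _ _ _).1 hy'
      have hyE := S.st_le v hyv
      refine S.mem_st.2 ⟨hyE, ?_⟩
      rw [smul_add, smul_add, xw y hyv, eig S hyv hb₁, eig S hyv hb₂, (S.κ_one hyE hb₁).2 c1,
        (S.κ_one hyE hb₂).2 c2]
      simp
  · refine lt_of_le_of_ne (inf_le_left.trans inf_le_left) fun h => hnc₁ ?_
    exact ((mem_inf_cent _ _ _).1 ((mem_inf_cent _ _ _).1 (h.ge hx₁)).1).2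
  · have an : ∀ n ∈ S.M, n • v = v → n • (w + b₁ • v + b₂ • v) = w + b₁ • v + b₂ • v →
        n • w = w ∧ ((n • b₁ • v = b₁ • v ∧ n • b₂ • v = b₂ • v) ∨
          (n • b₁ • v = b₂ • v ∧ n • b₂ • v = b₁ • v)) ∧
          (n • b₁ • b₂ • v = b₁ • b₂ • v ∨ n • b₁ • b₂ • v = -(b₁ • b₂ • v)) := by
      intro n hn c1 c2
      have q0 : n • w = w := ((S.perm3 (S.st_le v) (S.nz_fix hn c1) e0 e1 e2 d01 d02 d12
        c2).1).resolve_right fun h => h.elim (not_img S hv hst hn c1 hx₁ hb₁ hκ₁)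
          (not_img S hv hst hn c1 hx₂ hb₂ hκ₂)
      have c3 : n • (b₁ • v + b₂ • v) = b₁ • v + b₂ • v := by
        rw [add_assoc, smul_add, q0] at c2
        exact add_left_cancel c2
      have q1 := S.perm2 (S.st_le v) (S.nz_fix hn c1) e1 e2 d12 c3
      refine ⟨q0, q1, ?_⟩
      have hh : n • b₁ • b₂ • v = (n * b₁ * n⁻¹) • n • b₂ • v := by
        rw [mul_smul, mul_smul, inv_smul_smul]
      suffices ∃ c : Fˣ, c ^ 2 = 1 ∧ n • b₁ • b₂ • v = (c : F) • b₁ • b₂ • v by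
        obtain ⟨c, hc, h⟩ := this
        rcases pm hc with rfl | rfl
        · exact Or.inl (by simpa using h)
        · exact Or.inr (by simpa using h)
      rcases q1 with ⟨r1, r2⟩ | ⟨r1, r2⟩
      · obtain ⟨y, hy, e⟩ := conj_eq S hn hb₁ hb₁ c1 r1
        exact ⟨S.κ y b₂, hr ▸ S.κ_pow (S.st_le v hy) hb₂, by
          rw [hh, e, r2, mul_smul, eig S hy hb₂, S.lin hb₁]⟩
      · obtain ⟨y, hy, e⟩ := conj_eq S hn hb₁ hb₂ c1 r1
        refine ⟨S.κ y b₁ * S.κ b₂ b₁, ?_, ?_⟩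
        · rw [mul_pow, ← hr, S.κ_pow (S.st_le v hy) hb₁, S.κ_pow hb₂ hb₁, one_mul]
        · rw [hh, e, r2, mul_smul, eig S hy hb₁, S.lin hb₂, S.κ_smul hb₂ hb₁, Units.val_mul,
            mul_smul]
    intro n₁ hn₁ n₂ hn₂ a1 a2 b1 b2 hfe
    obtain ⟨f1, f2⟩ := Prod.mk.inj hfe
    obtain ⟨-, a4, a5⟩ := an n₁ hn₁ a1 a2
    obtain ⟨-, b4, b5⟩ := an n₂ hn₂ b1 b2
    have hn := S.M.mul_mem (S.M.inv_mem hn₁) hn₂
    have c1 := red _ _ _ a1 b1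
    have c4 : (n₁⁻¹ * n₂) • b₁ • v = b₁ • v := by
      rw [mul_smul, inv_smul_eq_iff]
      by_cases h : n₁ • b₁ • v = b₁ • v
      · rw [h, Eq.mp f1 h]
      · rw [(a4.resolve_left fun hh => h hh.1).1, (b4.resolve_left fun hh => h (Eq.mpr f1 hh.1)).1]
    have c5 : (n₁⁻¹ * n₂) • b₁ • b₂ • v = b₁ • b₂ • v := by
      rw [mul_smul, inv_smul_eq_iff]
      by_cases h : n₁ • b₁ • b₂ • v = b₁ • b₂ • v
      · rw [h, Eq.mp f2 h]
      · rw [a5.resolve_left h, b5.resolve_left fun hh => h (Eq.mpr f2 hh)]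
    obtain ⟨c2, c6, -⟩ := an _ hn c1 (red _ _ _ a2 b2)
    generalize n₁⁻¹ * n₂ = n at hn c1 c2 c4 c5 c6
    have c7 : n • b₂ • v = b₂ • v := (c6.resolve_right fun h => n12 (c4.symm.trans h.1)).2
    obtain ⟨y₁, hy₁, e₁⟩ := conj_eq S hn hb₁ hb₁ c1 c4
    obtain ⟨y₂, hy₂, hy₂', e₂⟩ := conj_b S hv le_rfl hn hb₂ c1 c1 c7 (sq_fix S hr hq₂ c1)
    have k1 : S.κ y₁ b₂ = 1 := by
      have hh : n • b₁ • b₂ • v = (n * b₁ * n⁻¹) • n • b₂ • v := by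
        rw [mul_smul, mul_smul, inv_smul_smul]
      rw [c5, e₁, c7, mul_smul, eig S hy₁ hb₂, S.lin hb₁] at hh
      exact Units.ext (smul_cancel (ne0 (ne0 hv)) (hh.symm.trans (one_smul F _).symm))
    have k2 := S.κ_conj hn (comm_ω S hr n) hb₁ hb₂
    have E1 := S.st_le v hy₁
    have E2 := S.st_le v hy₂
    rw [e₁, e₂, S.κ_mul_left hb₁ E1 (S.E.mul_mem hb₂ E2), S.κ_mul_right hb₁ hb₂ E2,
      S.κ_mul_right E1 hb₂ E2, k1, (S.κ_one E1 E2).2 (S.st_comm hv hy₁ hy₂), mul_one, mul_one,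
      mul_eq_left] at k2
    exact S.lemS hv inf_le_left hb₂ (mem_inf_cent _ _) ⟨x₂, hx₂', hnc₂⟩ hn (lem1 n hn c1 c2 c4)
      ⟨y₂, (mem_inf_cent _ _ _).2 ⟨(mem_inf_cent _ _ _).2 ⟨hy₂, ((S.κ_one hb₁ E2).1 k2).symm⟩,
        hy₂'⟩, e₂⟩

end H64.C3
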