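import Cfsg.Agent.Lib.C3.Po

/-! # 3-closure of a solvable group: the base of PAIR for `r = 2`, first step (package P2) -/

set_option autoImplicit false
set_option linter.unusedSectionVars false

namespace H64.C3

variable {F V Γ : Type*} [Field F] [AddCommGroup V] [Module F V] [Group Γ]
  [DistribMulAction Γ V] [Finite V] [Nontrivial V] [Finite Γ] [FaithfulSMul Γ V]

namespace P2

open Ps Po

theorem pm {c : Fˣ} (h : c ^ 2 = 1) : c = 1 ∨ c = -1 := by
  have h1 : (c : F) * c = 1 := by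
    have := congrArg Units.val h
    simpa [pow_two] using this
  rcases mul_self_eq_one_iff.1 h1 with h2 | h2
  · exact Or.inl (Units.ext h2)
  · exact Or.inr (Units.ext (by simpa using h2))

theorem comm_neg (S : Sy F V Γ) (n : Γ) : Commute n (S.ι (-1)) := by
  refine eq_of_smul_eq_smul (α := V) fun v => ?_
  simp [mul_smul, S.hι]

theorem comm_ω (S : Sy F V Γ) (hr : S.r = 2) (n : Γ) : Commute n (S.ι S.ω) := by
  rw [(pm (hr ▸ S.ω_pow)).resolve_left S.ω_ne]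
  exact comm_neg S n

theorem κ_neg (S : Sy F V Γ) (hr : S.r = 2) {x y : Γ} (hx : x ∈ S.E) (hy : y ∈ S.E)
    (h : ¬ Commute x y) : S.κ x y = -1 :=
  (pm (hr ▸ S.κ_pow hx hy)).resolve_left fun h' => h ((S.κ_one hx hy).1 h')

/-- `y ∈ C_E(E_v)` -/
def Cn (S : Sy F V Γ) (v : V) (y : Γ) : Prop := y ∈ S.E ∧ ∀ b ∈ S.st v, Commute b y

/-- `y ∈ E_v Z` -/
def In (S : Sy F V Γ) (v : V) (y : Γ) : Prop := ∃ b ∈ S.st v, ∃ c, y = b * S.ι c

/-- `n` fixes `y` modulo `E_v Z` -/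
def Gd (S : Sy F V Γ) (v : V) (n y : Γ) : Prop := ∃ b ∈ S.st v, ∃ c, n * y * n⁻¹ = y * b * S.ι c

theorem Cn.mul {S : Sy F V Γ} {v : V} {y y' : Γ} (h : Cn S v y) (h' : Cn S v y') :
    Cn S v (y * y') := ⟨S.E.mul_mem h.1 h'.1, fun b hb => (h.2 b hb).mul_right (h'.2 b hb)⟩

theorem cn_ι (S : Sy F V Γ) (v : V) (c : Fˣ) : Cn S v (S.ι c) :=
  ⟨S.ιE c, fun b hb => (S.cen c b (S.st_le v hb)).symm⟩

theorem In.cn {S : Sy F V Γ} {v : V} (hv : v ≠ 0) {y : Γ} (h : In S v y) : Cn S v y := by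
  obtain ⟨b, hb, c, rfl⟩ := h
  exact Cn.mul ⟨S.st_le v hb, fun b' hb' => S.st_comm hv hb' hb⟩ (cn_ι S v c)

theorem In.gd {S : Sy F V Γ} {v : V} {n y : Γ} (hn : n ∈ S.M) (h1 : n • v = v) (h : In S v y) :
    Gd S v n y := by
  obtain ⟨b, hb, c, rfl⟩ := h
  obtain ⟨c', hc'⟩ := S.conj_ι hn c
  have hb' := S.st_conj hn hb
  rw [h1] at hb'
  refine ⟨b⁻¹ * (n * b * n⁻¹), (S.st v).mul_mem ((S.st v).inv_mem hb) hb', c⁻¹ * c', ?_⟩
  have h3 := (S.cen c _ (S.st_le v ((S.st v).mul_mem ((S.st v).inv_mem hb) hb'))).eq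
  rw [mul_assoc b, h3, map_mul, map_inv, ← hc']
  group

theorem Gd.mul {S : Sy F V Γ} {v : V} {n y y' : Γ} (h : Gd S v n y) (h' : Gd S v n y')
    (hc : Cn S v y') : Gd S v n (y * y') := by
  obtain ⟨b, hb, c, e⟩ := h
  obtain ⟨b', hb', c', e'⟩ := h'
  refine ⟨b * b', (S.st v).mul_mem hb hb', c * c', ?_⟩
  have e1 := (S.cen c _ (S.E.mul_mem hc.1 (S.st_le v hb'))).eq
  have e2 := (hc.2 b hb).eq
  calc n * (y * y') * n⁻¹ = (n * y * n⁻¹) * (n * y' * n⁻¹) := by group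
    _ = y * b * (S.ι c * (y' * b')) * S.ι c' := by rw [e, e']; group
    _ = y * (b * y') * b' * (S.ι c * S.ι c') := by rw [e1]; group
    _ = _ := by rw [e2, map_mul]; group

theorem Cn.conj {S : Sy F V Γ} {v : V} {n y : Γ} (hn : n ∈ S.M) (h1 : n • v = v)
    (h : Cn S v y) : Cn S v (n * y * n⁻¹) := by
  refine ⟨S.conj_mem hn h.1, fun b hb => ?_⟩
  have h3 := S.st_conj (S.M.inv_mem hn) hb
  rw [inv_smul_eq_iff.2 h1.symm, inv_inv] at h3
  have h4 := (h.2 _ h3).eq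
  change b * (n * y * n⁻¹) = n * y * n⁻¹ * b
  calc b * (n * y * n⁻¹) = n * (n⁻¹ * b * n * y) * n⁻¹ := by group
    _ = _ := by rw [h4]; group

theorem sq_conj (S : Sy F V Γ) (n : Γ) {t : Γ} (h : t ^ 2 = S.ι (-1)) :
    (n * t * n⁻¹) ^ 2 = S.ι (-1) := by
  rw [conj_pow, h, (comm_neg S n).eq, mul_inv_cancel_right]

theorem sq_mul (S : Sy F V Γ) {t t' : Γ} (ht : t ∈ S.E) (ht' : t' ∈ S.E) (h : t ^ 2 = S.ι (-1))
    (h' : t' ^ 2 = S.ι (-1)) (hκ : S.κ t t' = -1) : (t * t') ^ 2 = S.ι (-1) := by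
  refine eq_of_smul_eq_smul (α := V) fun z => ?_
  have tt : ∀ z : V, t • t • z = -z := fun z => by rw [← mul_smul, ← pow_two, h, S.hι]; simp
  have tt' : ∀ z : V, t' • t' • z = -z := fun z => by rw [← mul_smul, ← pow_two, h', S.hι]; simp
  have ac : ∀ z : V, t' • t • z = -(t • t' • z) := fun z => by
    rw [S.κ_smul ht ht', hκ]; simp
  simp [pow_two, mul_smul, ac, tt, tt', S.hι]

section

variable (S : Sy F V Γ) (hr : S.r = 2) {v : V} (hv : v ≠ 0)
  (hmax : ∀ u : V, u ≠ 0 → Nat.card (S.st u) ≤ Nat.card (S.st v))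
include hr hv hmax

theorem equiv {s s' : Γ} (hs : Cn S v s) (hs' : Cn S v s') (h : s ^ 2 = S.ι (-1))
    (h' : s' ^ 2 = S.ι (-1)) (hc : Commute s s') : ∃ z, In S v z ∧ s' = s * z := by
  obtain ⟨b, hb, c, e⟩ := S.max_cent hv hmax (hs.mul hs').1 (hs.mul hs').2 (by
    rw [hr, hc.mul_pow, h, h', ← map_mul]; simp)
  refine ⟨b * S.ι (c * -1), ⟨b, hb, _, rfl⟩, ?_⟩
  rw [map_mul, ← mul_assoc b, ← e, ← mul_assoc, ← mul_assoc, ← pow_two, h,
    ← (comm_neg S s').eq, mul_assoc, ← map_mul]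
  simp

theorem gd_of_comm {n s : Γ} (hn : n ∈ S.M) (h1 : n • v = v) (hs : Cn S v s)
    (h : s ^ 2 = S.ι (-1)) (hc : Commute s (n * s * n⁻¹)) : Gd S v n s := by
  obtain ⟨z, ⟨b, hb, c, rfl⟩, e⟩ := equiv S hr hv hmax hs (hs.conj hn h1) h (sq_conj S n h) hc
  exact ⟨b, hb, c, by rw [e, mul_assoc]⟩

theorem dd_of {n : Γ} (hn : n ∈ S.M) (h1 : n • v = v)
    (H : ¬ IsSquare (-1 : F) → ∀ s, Cn S v s → s ^ 2 = S.ι (-1) → Gd S v n s) :
    S.Dd (S.st v) n := by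
  refine ⟨comm_ω S hr n, fun y hy hc => ?_⟩
  obtain ⟨c, h | ⟨-, h, hns⟩⟩ := S.sq y hy
  · obtain ⟨b, hb, c', h'⟩ := S.max_cent hv hmax (S.E.mul_mem hy (S.ιE c))
      (Cn.mul ⟨hy, hc⟩ (cn_ι S v c)).2 h
    exact In.gd hn h1 ⟨b, hb, c' * c⁻¹, by
      rw [map_mul, map_inv, ← mul_assoc, ← h', mul_inv_cancel_right]⟩
  · have := (H hns _ (Cn.mul ⟨hy, hc⟩ (cn_ι S v c)) h).mul
      (In.gd hn h1 ⟨1, (S.st v).one_mem, c⁻¹, (one_mul _).symm⟩) (cn_ι S v c⁻¹)
    rwa [map_inv, mul_inv_cancel_right] at this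

theorem quat (hns : ¬ IsSquare (-1 : F)) {t t' : Γ} (ht : Cn S v t) (ht' : Cn S v t')
    (h : t ^ 2 = S.ι (-1)) (h' : t' ^ 2 = S.ι (-1)) (hκ : S.κ t t' = -1) {α β : ℕ}
    (hξ : α • t • v + β • t' • v + t • t' • v = 0) {n : Γ} (hn : n ∈ S.M) (h1 : n • v = v)
    (h2 : n • t • v = t • v) : S.Dd (S.st v) n := by
  have hb₀ : t⁻¹ * (n * t * n⁻¹) ∈ S.st v :=
    S.mem_st.2 ⟨S.E.mul_mem (S.E.inv_mem ht.1) (S.conj_mem hn ht.1), by
      rw [mul_smul, mul_smul, mul_smul, inv_smul_eq_iff.2 h1.symm, h2, inv_smul_smul]⟩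
  have hnt : n * t * n⁻¹ = t * (t⁻¹ * (n * t * n⁻¹)) := by group
  generalize t⁻¹ * (n * t * n⁻¹) = b₀ at hb₀ hnt
  have g1 : Gd S v n t := ⟨b₀, hb₀, 1, by simpa using hnt⟩
  have hs' := ht'.conj hn h1
  have htt := sq_mul S ht.1 ht'.1 h h' hκ
  have third : ∀ s, Cn S v s → ¬ Commute t s → ¬ Commute t' s → Commute (t * t') s := by
    intro s hs a1 a2
    rw [← S.κ_one (ht.mul ht').1 hs.1, S.κ_mul_left ht.1 ht'.1 hs.1, κ_neg S hr ht.1 hs.1 a1,
      κ_neg S hr ht'.1 hs.1 a2]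
    simp
  have g2 : Gd S v n t' := by
    refine gd_of_comm S hr hv hmax hn h1 ht' h' ?_
    by_contra hc
    have k1 := S.κ_conj hn (comm_ω S hr n) ht.1 ht'.1
    rw [hnt, S.κ_mul_left ht.1 (S.st_le v hb₀) hs'.1,
      (S.κ_one (S.st_le v hb₀) hs'.1).2 (hs'.2 _ hb₀), mul_one, hκ] at k1
    have two := two_ne_of_ns hns
    have hc' : ¬ Commute t (n * t' * n⁻¹) := fun hh => by
      rw [(S.κ_one ht.1 hs'.1).2 hh] at k1
      have := congrArg Units.val k1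
      apply two
      simp only [Units.val_one, Units.val_neg] at this
      linear_combination this
    obtain ⟨z, ⟨b, hb, c, rfl⟩, e⟩ := equiv S hr hv hmax (ht.mul ht') hs' htt (sq_conj S n h')
      (third _ hs' hc' hc)
    have tt : ∀ z : V, t • t • z = -z := fun z => by rw [← mul_smul, ← pow_two, h, S.hι]; simp
    have a1 : n • t' • v = (c : F) • t • t' • v := by
      calc n • t' • v = (n * t' * n⁻¹) • v := by
            rw [mul_smul, mul_smul, inv_smul_eq_iff.2 h1.symm]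
        _ = _ := by
            rw [e, mul_smul, mul_smul, mul_smul, S.hι, S.lin (S.st_le v hb), (S.mem_st.1 hb).2,
              S.lin ht'.1, S.lin ht.1]
    have a2 : n • t • t' • v = -((c : F) • t' • v) := by
      calc n • t • t' • v = (n * t * n⁻¹) • n • t' • v := by
            rw [mul_smul, mul_smul, inv_smul_smul]
        _ = _ := by
            rw [hnt, a1, mul_smul, S.lin (S.st_le v hb₀), ← mul_smul t t', ← mul_smul b₀,
              ((ht.mul ht').2 _ hb₀).eq, mul_smul, (S.mem_st.1 hb₀).2, S.lin ht.1, mul_smul, tt,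
              smul_neg]
    have hc2 : (c : F) ^ 2 = 1 := by
      have q1 := sq_conj S n h'
      have q2 : Commute (t * t') (b * S.ι c) :=
        ((ht.mul ht').2 b hb).symm.mul_right (S.cen c _ (ht.mul ht').1).symm
      rw [e, q2.mul_pow, htt, (S.cen c b (S.st_le v hb)).symm.mul_pow, ← hr, S.st_pow hv hb, hr,
        one_mul, mul_eq_left, ← map_pow] at q1
      have := congrArg Units.val (S.ι_inj (q1.trans (map_one _).symm))
      simpa using this
    have a3 := congrArg (n • ·) hξ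
    simp only [smul_add, smul_comm n (_ : ℕ), h2, a1, a2, smul_zero] at a3
    simp only [← Nat.cast_smul_eq_nsmul F] at a3 hξ
    have a4 : ((β : F) + c) • t' • v + (1 - β * c : F) • t • t' • v = 0 := by
      generalize t • t' • v = p at a3 hξ
      generalize t' • v = q at a3 hξ
      generalize t • v = o at a3 hξ
      linear_combination (norm := module) hξ - a3
    have a5 := congrArg (t • ·) a4
    simp only [smul_add, S.lin ht.1, tt, smul_zero] at a5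
    have a6 : (((β : F) + c) ^ 2 + (1 - β * c) ^ 2) • t' • v = (0 : F) • t' • v := by
      generalize t • t' • v = p at a4 a5
      generalize t' • v = q at a4 a5
      linear_combination (norm := module) ((β : F) + c) • a4 - (1 - β * c : F) • a5
    have a7 := smul_cancel (ne0 hv) a6
    have a8 : (2 : F) * (β ^ 2 + 1) = 0 := by
      linear_combination a7 - (1 + (β : F) ^ 2) * hc2
    exact hns ⟨β, by linear_combination -(mul_eq_zero.1 a8).resolve_left two⟩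
  refine dd_of S hr hv hmax hn h1 fun _ s hs hs2 => ?_
  have key : ∀ p, Cn S v p → p ^ 2 = S.ι (-1) → Gd S v n p → Commute p s → Gd S v n s := by
    intro p hp hp2 gp hc
    obtain ⟨z, hz, rfl⟩ := equiv S hr hv hmax hp hs hp2 hs2 hc
    exact gp.mul (hz.gd hn h1) (hz.cn hv)
  by_cases c1 : Commute t s
  · exact key t ht h g1 c1
  by_cases c2 : Commute t' s
  · exact key t' ht' h' g2 c2
  exact key _ (ht.mul ht') htt (g1.mul g2 ht') (third s hs c1 c2)

end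

theorem first (S : Sy F V Γ) (hr : S.r = 2) : ∃ v w : V, v ≠ 0 ∧ w ≠ 0 ∧ S.st w = S.st v ∧
    ∀ n ∈ S.M, n • v = v → n • w = w → S.Dd (S.st v) n := by
  obtain ⟨v, hv, hmax⟩ := S.exists_max
  by_cases hT : ¬ IsSquare (-1 : F) → ∀ s s', Cn S v s → s ^ 2 = S.ι (-1) → Cn S v s' →
      s' ^ 2 = S.ι (-1) → Commute s s'
  · refine ⟨v, v, hv, hv, rfl, fun n hn h1 _ => dd_of S hr hv hmax hn h1 fun hns s hs h => ?_⟩
    exact gd_of_comm S hr hv hmax hn h1 hs h (hT hns _ _ hs h (hs.conj hn h1) (sq_conj S n h))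
  push Not at hT
  obtain ⟨hns, t, t', ht, h, ht', h', hc⟩ := hT
  have hκ := κ_neg S hr ht.1 ht'.1 hc
  obtain ⟨α, β, -, u, hu, h0, hξ⟩ := S.xi hns ht.1 ht'.1 h h' hκ hv
  have cs : ∀ s, Cn S v s → ∀ b ∈ S.st v, ∀ z : V, b • s • z = s • b • z := fun s hs b hb z => by
    rw [← mul_smul, (hs.2 b hb).eq, mul_smul]
  have hu' : ∀ b ∈ S.st v, b • u = u := by
    intro b hb
    rcases hu with rfl | rfl
    · exact (S.mem_st.1 hb).2
    · rw [cs t ht b hb, (S.mem_st.1 hb).2]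
  have e1 : S.st (α • t • u + β • t' • u + t • t' • u) = S.st v :=
    S.max_eq hmax h0 fun b hb => S.mem_st.2 ⟨S.st_le v hb, by
      simp only [smul_add, smul_comm b (_ : ℕ), cs t ht b hb, cs t' ht' b hb, hu' b hb]⟩
  have hξ' := hξ u
  generalize α • t • u + β • t' • u + t • t' • u = v' at h0 e1 hξ'
  have e2 : S.st (t • v') = S.st v := S.max_eq hmax (ne0 h0) fun b hb =>
    S.mem_st.2 ⟨S.st_le v hb, by rw [cs t ht b hb, (S.mem_st.1 (e1 ▸ hb : b ∈ S.st v')).2]⟩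
  refine ⟨v', t • v', h0, ne0 h0, e2.trans e1.symm, fun n hn h1 h2 => ?_⟩
  exact quat S hr h0 (by rw [e1]; exact hmax) hns ⟨ht.1, by rw [e1]; exact ht.2⟩
    ⟨ht'.1, by rw [e1]; exact ht'.2⟩ h h' hκ hξ' hn h1 h2

end P2

end H64.C3
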