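import Cfsg.Agent.Lib.C3.Ps

/-! # 3-closure of a solvable group: the base of PAIR for odd `r` (package PO) -/

set_option autoImplicit false
set_option linter.unusedSectionVars false

namespace H64.C3

variable {F V Γ : Type*} [Field F] [AddCommGroup V] [Module F V] [Group Γ]
  [DistribMulAction Γ V] [Finite V] [Nontrivial V] [Finite Γ] [FaithfulSMul Γ V]

namespace Po

open Ps

theorem fix_of_cop {y : Γ} {p : V} {m k : ℕ} (hc : Nat.Coprime m k) (h1 : y ^ m • p = p)
    (h2 : y ^ k = 1) : y • p = p := by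
  have h3 : y = (y ^ m) ^ (Nat.gcdA m k) * (y ^ k) ^ (Nat.gcdB m k) := by
    rw [← zpow_natCast, ← zpow_natCast, ← zpow_mul, ← zpow_mul, ← zpow_add,
      ← Nat.gcd_eq_gcd_ab, hc]
    simp
  have h4 : y ∈ MulAction.stabilizer Γ p := by
    rw [h3, h2, one_zpow, mul_one]
    exact Subgroup.zpow_mem _ h1 _
  exact h4

theorem six {y : Γ} {a b c : V} (ha : y • a = a ∨ y • a = b ∨ y • a = c)
    (hb : y • b = a ∨ y • b = b ∨ y • b = c) (hc : y • c = a ∨ y • c = b ∨ y • c = c) :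
    y ^ 6 • b = b ∧ y ^ 6 • c = c := by
  have hab : y • a = y • b → a = b := fun h => MulAction.injective y h
  have hac : y • a = y • c → a = c := fun h => MulAction.injective y h
  have hbc : y • b = y • c → b = c := fun h => MulAction.injective y h
  have h6 : ∀ p : V, y ^ 6 • p = y • y • y • y • y • y • p := fun p => by
    simp only [pow_succ, pow_zero, one_mul, mul_smul]
  rw [h6, h6]
  generalize (fun p : V => y • p) = g at *
  constructor <;> grind

theorem indep (S : Sy F V Γ) {x : Γ} (hx : x ∈ S.E) {a b c : V} {α β γ : F} (ha : x • a = α • a)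
    (hb : x • b = β • b) (hc : x • c = γ • c) (h1 : β ≠ α) (h2 : β ≠ γ) (hb0 : b ≠ 0) :
    a + b + c ≠ 0 := by
  intro h
  have e1 := congrArg (x • ·) h
  simp only [smul_add, ha, hb, hc, smul_zero] at e1
  have e2 := congrArg (x • ·) e1
  simp only [smul_add, S.lin hx, ha, hb, hc, smul_zero] at e2
  have : ((β - α) * (β - γ)) • b = 0 := by
    linear_combination (norm := module) e2 - (α + γ) • e1 + (α * γ) • h
  exact smul_ne_zero (mul_ne_zero (sub_ne_zero.2 h1) (sub_ne_zero.2 h2)) hb0 this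

/-- the conjugate of `b` under an element fixing `w`, `b w`, `v`, `b² v` -/
theorem conj_b (S : Sy F V Γ) {v w : V} (hv : v ≠ 0) (hle : S.st w ≤ S.st v) {n b : Γ}
    (hn : n ∈ S.M) (hb : b ∈ S.E) (c1 : n • w = w) (c3 : n • v = v) (c4 : n • b • w = b • w)
    (c5 : n • b • b • v = b • b • v) : ∃ y ∈ S.st w, Commute y b ∧ n * b * n⁻¹ = b * y := by
  have hy : b⁻¹ * (n * b * n⁻¹) ∈ S.st w :=
    S.mem_st.2 ⟨S.E.mul_mem (S.E.inv_mem hb) (S.conj_mem hn hb), by
      rw [mul_smul, mul_smul, mul_smul, inv_smul_eq_iff.2 c1.symm, c4, inv_smul_smul]⟩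
  have hnb : n * b * n⁻¹ = b * (b⁻¹ * (n * b * n⁻¹)) := by group
  generalize b⁻¹ * (n * b * n⁻¹) = y at hy hnb
  refine ⟨y, hy, ?_, hnb⟩
  rw [← S.κ_one (S.st_le w hy) hb]
  have h1 : n • b • b • v = (b * y) • (b * y) • v := by
    rw [← hnb, mul_smul, mul_smul, mul_smul, mul_smul, inv_smul_smul, inv_smul_eq_iff.2 c3.symm]
  rw [c5, mul_smul, mul_smul, (S.mem_st.1 (hle hy)).2, eig S (hle hy) hb, S.lin hb] at h1
  exact Units.ext (smul_cancel (ne0 (ne0 hv)) (h1.symm.trans (one_smul F _).symm))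

/-- if `C_E(B) = B Z` at `v` then the elements of `M` fixing `v` and `ω` satisfy `Dd` -/
theorem dd (S : Sy F V Γ) {v : V}
    (hC : ∀ y ∈ S.E, (∀ b ∈ S.st v, Commute b y) → ∃ b ∈ S.st v, ∃ c, y = b * S.ι c)
    {n : Γ} (hn : n ∈ S.M) (h1 : n • v = v) (h2 : Commute n (S.ι S.ω)) : S.Dd (S.st v) n := by
  refine ⟨h2, fun y hy hc => ?_⟩
  obtain ⟨b, hb, c, rfl⟩ := hC y hy hc
  obtain ⟨c', hc'⟩ := S.conj_ι hn c
  have hb' := S.st_conj hn hb
  rw [h1] at hb'
  refine ⟨b⁻¹ * (n * b * n⁻¹), (S.st v).mul_mem ((S.st v).inv_mem hb) hb', c⁻¹ * c', ?_⟩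
  have h3 := (S.cen c _ (S.st_le v ((S.st v).mul_mem ((S.st v).inv_mem hb) hb'))).eq
  rw [mul_assoc b, h3, map_mul, map_inv, ← hc']
  group

theorem finish (S : Sy F V Γ) {v : V} (hv : v ≠ 0)
    (hC : ∀ y ∈ S.E, (∀ b ∈ S.st v, Commute b y) → ∃ b ∈ S.st v, ∃ c, y = b * S.ι c)
    {x b : Γ} (hx : x ∈ S.st v) (hb : b ∈ S.E) (hκ : S.κ x b ≠ 1) (w : V) (f : Γ → Prop × Prop)
    (U1 : ∀ n₁ ∈ S.M, ∀ n₂ ∈ S.M, n₁ • v = v → n₁ • w = w → n₂ • v = v → n₂ • w = w →
      f n₁ = f n₂ → Commute (n₁⁻¹ * n₂) (S.ι S.ω) ∧ (n₁⁻¹ * n₂) • b • v = b • v ∧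
        (n₁⁻¹ * n₂) • b • b • v = b • b • v)
    (U2 : ∀ y ∈ S.st w, y • b • v = b • v ∧ y • b • b • v = b • b • v)
    (U3 : ∀ y ∈ S.E, y • v = v → y • b • v = b • v → y • b • b • v = b • b • v → y • w = w) :
    ∃ B, S.P B := by
  have hnc : ¬ Commute x b := fun h => hκ ((S.κ_one (S.st_le v hx) hb).2 h)
  let B : Subgroup Γ := S.st v ⊓ Subgroup.centralizer {b}
  have hBm : ∀ y, y ∈ B ↔ y ∈ S.st v ∧ Commute y b := by
    intro y
    rw [Subgroup.mem_inf, Subgroup.mem_centralizer_singleton_iff]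
    rfl
  have hBlt : B < S.st v := lt_of_le_of_ne inf_le_left fun h => hnc ((hBm x).1 (h ▸ hx)).2
  have hbM := S.E_le_M hb
  refine ⟨B, v, w, hv, ?_, hBlt, f, ?_⟩
  · apply le_antisymm
    · intro y hy
      obtain ⟨h1, h2⟩ := U2 y hy
      have hyE := S.st_le w hy
      have h3 : b⁻¹ * y * b ∈ S.st v :=
        S.mem_st.2 ⟨S.conj_mem' hbM hyE, by rw [mul_smul, mul_smul, h1, inv_smul_smul]⟩
      have h4 : (b⁻¹ * y * b) • b • v = b • v := by rw [mul_smul, mul_smul, h2, inv_smul_smul]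
      rw [eig S h3 hb] at h4
      have h5 : Commute (b⁻¹ * y * b) b := (S.κ_one (S.st_le v h3) hb).1
        (Units.ext (smul_cancel (ne0 hv) (h4.trans (one_smul F _).symm)))
      have h6 : b⁻¹ * y * b = y := by
        apply mul_right_cancel (b := b)
        rw [h5.eq]
        group
      rw [h6] at h3 h5
      exact (hBm y).2 ⟨h3, h5⟩
    · intro y hy
      obtain ⟨h1, h2⟩ := (hBm y).1 hy
      have h3 : ∀ z : V, y • b • z = b • y • z := fun z => by rw [← mul_smul, h2.eq, mul_smul]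
      have h4 := (S.mem_st.1 h1).2
      exact S.mem_st.2 ⟨S.st_le v h1,
        U3 y (S.st_le v h1) h4 (by rw [h3, h4]) (by rw [h3, h3, h4])⟩
  · intro n₁ hn₁ n₂ hn₂ a1 a2 b1 b2 hfe
    obtain ⟨c0, c4, c5⟩ := U1 n₁ hn₁ n₂ hn₂ a1 a2 b1 b2 hfe
    have hn : n₁⁻¹ * n₂ ∈ S.M := S.M.mul_mem (S.M.inv_mem hn₁) hn₂
    have c1 : (n₁⁻¹ * n₂) • v = v := by rw [mul_smul, b1, inv_smul_eq_iff, a1]
    obtain ⟨y, hy, hy1, hy2⟩ := conj_b S hv le_rfl hn hb c1 c1 c4 c5
    exact S.lemS hv le_rfl hb hBm ⟨x, hx, hnc⟩ hn (dd S hC hn c1 c0)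
      ⟨y, (hBm y).2 ⟨hy, hy1⟩, hy2⟩

end Po

open Ps Po in
theorem Sy.base_odd (S : Sy F V Γ) (hr : S.r ≠ 2) : ∃ B, S.P B := by
  obtain ⟨v, hv, hmax⟩ := S.exists_max
  have hC : ∀ y ∈ S.E, (∀ b ∈ S.st v, Commute b y) → ∃ b ∈ S.st v, ∃ c, y = b * S.ι c := by
    intro y hy hc
    obtain ⟨c, h | h⟩ := S.sq y hy
    · obtain ⟨b, hb, c', h'⟩ := S.max_cent hv hmax (S.E.mul_mem hy (S.ιE c))
        (fun b hb => (hc b hb).mul_right (S.cen c b (S.st_le v hb)).symm) h
      exact ⟨b, hb, c' * c⁻¹, by rw [map_mul, map_inv, ← mul_assoc, ← h', mul_inv_cancel_right]⟩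
    · exact (hr h.1).elim
  obtain ⟨x, hx, hx1⟩ : ∃ x ∈ S.st v, x ≠ 1 := by
    by_contra hcon
    push Not at hcon
    obtain ⟨y, hy, hy'⟩ := S.ne
    obtain ⟨b, hb, c, h⟩ := hC y hy fun b hb => by rw [hcon b hb]; exact Commute.one_left y
    rw [hcon b hb, one_mul] at h
    exact hy' c h
  obtain ⟨b, hb, hκ, -⟩ := S.exists_b hv hx hx1
  have hxE := S.st_le v hx
  have hκ' : (S.κ x b : F) ≠ 1 := fun h => hκ (Units.ext h)
  have hκ0 : (S.κ x b : F) ≠ 0 := Units.ne_zero _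
  have hs2 := sq_ne S hr hκ (S.κ_pow hxE hb)
  have hs3 : (S.κ x b : F) ≠ S.κ x b * S.κ x b := fun h =>
    hκ' ((mul_right_eq_self₀.1 h.symm).resolve_right hκ0)
  have e2 : Ev F (S.st v) (b • v) := ⟨ne0 hv, fun a ha => ⟨_, eig S ha hb⟩⟩
  have e3 : Ev F (S.st v) (b • b • v) := ⟨ne0 (ne0 hv), fun a ha => ⟨_, eig2 S ha hb⟩⟩
  have d23 : Df F (S.st v) (b • v) (b • b • v) := ⟨x, hx, _, _, hs3, eig S hx hb, eig2 S hx hb⟩
  by_cases h3 : S.r = 3
  · refine finish S hv hC hx hb hκ (b • v + b • b • v)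
      (fun n => (Commute n (S.ι S.ω), n • b • v = b • v)) ?_ ?_ ?_
    · intro n₁ hn₁ n₂ hn₂ a1 a2 b1 b2 hfe
      obtain ⟨f1, f2⟩ := Prod.mk.inj hfe
      have c2 : (n₁⁻¹ * n₂) • (b • v + b • b • v) = b • v + b • b • v := by
        rw [mul_smul, b2, inv_smul_eq_iff, a2]
      have c4 : (n₁⁻¹ * n₂) • b • v = b • v := by
        rw [mul_smul, inv_smul_eq_iff]
        by_cases h : n₁ • b • v = b • v
        · rw [h, (Eq.mp f2 h)]
        · rw [((S.perm2 (S.st_le v) (S.nz_fix hn₁ a1) e2 e3 d23 a2).resolve_left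
            fun hh => h hh.1).1, ((S.perm2 (S.st_le v) (S.nz_fix hn₂ b1) e2 e3 d23 b2).resolve_left
            fun hh => h (f2 ▸ hh.1)).1]
      refine ⟨?_, c4, ?_⟩
      · by_cases h : Commute n₁ (S.ι S.ω)
        · exact h.inv_left.mul_left (f1 ▸ h)
        · have key : ∀ n ∈ S.M, ¬ Commute n (S.ι S.ω) → n * S.ι S.ω * n⁻¹ = S.ι (S.ω ^ 2) := by
            intro n hn hc
            obtain ⟨c, hc'⟩ := S.conj_ι hn S.ω
            have hc3 : c ^ S.r = 1 := S.ι_inj (by
              rw [map_pow, ← hc', conj_pow, ← map_pow, S.ω_pow]; simp)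
            obtain ⟨k, hk⟩ := S.root S.ω_ne S.ω_pow hc3
            have hω3 : S.ω ^ 3 = 1 := h3 ▸ S.ω_pow
            rw [← pow_mod_orderOf, S.hω, h3] at hk
            have : k % 3 = 0 ∨ k % 3 = 1 ∨ k % 3 = 2 := by omega
            rcases this with h0 | h0 | h0 <;> rw [h0] at hk
            · rw [hk, pow_zero, map_one, conj_eq_one_iff] at hc'
              exact (S.ω_ne (S.ι_inj (hc'.trans (map_one _).symm))).elim
            · rw [hk, pow_one, mul_inv_eq_iff_eq_mul] at hc'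
              exact (hc hc').elim
            · rw [hc', hk]
          have k1 := key n₁ hn₁ h
          have k2 := key n₂ hn₂ (f1 ▸ h)
          change n₁⁻¹ * n₂ * S.ι S.ω = S.ι S.ω * (n₁⁻¹ * n₂)
          calc n₁⁻¹ * n₂ * S.ι S.ω = n₁⁻¹ * (n₂ * S.ι S.ω * n₂⁻¹) * n₂ := by group
            _ = n₁⁻¹ * (n₁ * S.ι S.ω * n₁⁻¹) * n₂ := by rw [k1, k2]
            _ = _ := by group
      · rw [smul_add, c4] at c2
        exact add_left_cancel c2
    · intro y hy
      have hw : b • v + b • b • v ≠ 0 := by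
        have := indep S hxE (a := 0) (α := 1) (by simp) (eig S hx hb) (eig2 S hx hb) hκ' hs3
          (ne0 hv)
        rwa [zero_add] at this
      have hp := S.st_pow hw hy
      rw [h3] at hp
      rcases S.perm2 (S.st_le v) (S.nz_E (S.st_le v) (S.st_le _ hy)) e2 e3 d23
        (S.mem_st.1 hy).2 with h | ⟨h1, h2⟩
      · exact h
      · exact ⟨fix_of_cop (m := 2) (by norm_num) (by rw [pow_two, mul_smul, h1, h2]) hp,
          fix_of_cop (m := 2) (by norm_num) (by rw [pow_two, mul_smul, h2, h1]) hp⟩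
    · intro y _ _ h1 h2
      rw [smul_add, h1, h2]
  · have hω0 : (S.ω : F) • v ≠ 0 := smul_ne_zero (Units.ne_zero _) hv
    have x1 : ∀ a ∈ S.st v, a • (S.ω : F) • v = (1 : F) • (S.ω : F) • v := fun a ha => by
      rw [one_smul, S.lin (S.st_le v ha), (S.mem_st.1 ha).2]
    have e1 : Ev F (S.st v) ((S.ω : F) • v) := ⟨hω0, fun a ha => ⟨1, x1 a ha⟩⟩
    have d12 : Df F (S.st v) ((S.ω : F) • v) (b • v) :=
      ⟨x, hx, _, _, hκ'.symm, x1 x hx, eig S hx hb⟩
    have d13 : Df F (S.st v) ((S.ω : F) • v) (b • b • v) :=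
      ⟨x, hx, _, _, hs2.symm, x1 x hx, eig2 S hx hb⟩
    refine finish S hv hC hx hb hκ ((S.ω : F) • v + b • v + b • b • v)
      (fun _ => (True, True)) ?_ ?_ ?_
    · intro n₁ hn₁ n₂ hn₂ a1 a2 b1 b2 _
      have hn : n₁⁻¹ * n₂ ∈ S.M := S.M.mul_mem (S.M.inv_mem hn₁) hn₂
      have c1 : (n₁⁻¹ * n₂) • v = v := by rw [mul_smul, b1, inv_smul_eq_iff, a1]
      have c2 : (n₁⁻¹ * n₂) • ((S.ω : F) • v + b • v + b • b • v) =
          (S.ω : F) • v + b • v + b • b • v := by rw [mul_smul, b2, inv_smul_eq_iff, a2]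
      generalize n₁⁻¹ * n₂ = n at hn c1 c2
      obtain ⟨p1, p2, p3⟩ := S.perm3 (S.st_le v) (S.nz_fix hn c1) e1 e2 e3 d12 d13 d23 c2
      obtain ⟨c, hc⟩ := S.conj_ι hn S.ω
      have q1 : n • (S.ω : F) • v = (c : F) • v := by
        rw [← S.hι, ← S.hι, ← hc, mul_smul, mul_smul, inv_smul_eq_iff.2 c1.symm]
      have q2 : x • n • (S.ω : F) • v = (1 : F) • n • (S.ω : F) • v := by
        rw [q1, S.lin hxE, (S.mem_st.1 hx).2, one_smul]
      have q3 : n • (S.ω : F) • v = (S.ω : F) • v := by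
        rcases p1 with h | h | h
        · exact h
        · rw [h, eig S hx hb] at q2
          exact (hκ' (smul_cancel (ne0 hv) q2)).elim
        · rw [h, eig2 S hx hb] at q2
          exact (hs2 (smul_cancel (ne0 (ne0 hv)) q2)).elim
      have q4 : c = S.ω := Units.ext (smul_cancel hv (q1.symm.trans q3))
      have q5 : n • b • v = b • v := by
        rcases p2 with h | h | h
        · have h' := MulAction.injective n (h.trans q3.symm)
          have := eig S hx hb
          rw [h', x1 x hx] at this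
          exact (hκ' (smul_cancel hω0 this).symm).elim
        · exact h
        · exfalso
          have h' : n • b • b • v = b • v := by
            rw [smul_add, smul_add, q3, h, add_right_comm] at c2
            exact add_left_cancel (add_right_cancel c2)
          have hy : (b * b)⁻¹ * (n * b * n⁻¹) ∈ S.st v :=
            S.mem_st.2 ⟨S.E.mul_mem (S.E.inv_mem (S.E.mul_mem hb hb)) (S.conj_mem hn hb), by
              rw [mul_smul, mul_smul, mul_smul, inv_smul_eq_iff.2 c1.symm, h, inv_smul_eq_iff,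
                mul_smul]⟩
          have hnb : n * b * n⁻¹ = b * b * ((b * b)⁻¹ * (n * b * n⁻¹)) := by group
          generalize (b * b)⁻¹ * (n * b * n⁻¹) = y at hy hnb
          have h1 : n • b • b • v = (b * b * y) • (b * b * y) • v := by
            rw [← hnb]
            simp only [mul_smul, inv_smul_smul]
            rw [inv_smul_eq_iff.2 c1.symm]
          simp only [mul_smul] at h1
          rw [h', (S.mem_st.1 hy).2, eig2 S hy hb, S.lin hb, S.lin hb] at h1
          have h2 := eig S hx hb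
          have h4 : x • b • b • b • b • v =
              ((S.κ x b : F) * S.κ x b * (S.κ x b * S.κ x b)) • b • b • b • b • v := by
            rw [S.κ_smul hxE hb, S.κ_smul hxE hb, eig2 S hx hb]
            simp only [S.lin hb]
            generalize b • b • b • b • v = z
            simp only [smul_smul, mul_assoc]
          have h7 := congrArg (x • ·) h1
          simp only [S.lin hxE, h4] at h7
          rw [smul_comm (_ * _ : F), ← h1, h2] at h7
          have h5 := smul_cancel (ne0 hv) h7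
          have h6 : S.κ x b ^ 3 = 1 := by
            ext
            push_cast
            apply mul_left_cancel₀ hκ0
            linear_combination -h5
          have hc : Nat.Coprime 3 S.r := (Nat.coprime_primes Nat.prime_three S.hr).2 (Ne.symm h3)
          apply hκ
          have := pow_gcd_eq_one.2 ⟨h6, S.κ_pow hxE hb⟩
          rwa [hc, pow_one] at this
      refine ⟨?_, q5, ?_⟩
      · rw [q4, mul_inv_eq_iff_eq_mul] at hc
        exact hc
      · rw [smul_add, smul_add, q3, q5] at c2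
        exact add_left_cancel c2
    · intro y hy
      have hp := S.st_pow (indep S hxE (x1 x hx) (eig S hx hb) (eig2 S hx hb) hκ' hs3 (ne0 hv)) hy
      obtain ⟨p1, p2, p3⟩ := S.perm3 (S.st_le v) (S.nz_E (S.st_le v) (S.st_le _ hy)) e1 e2 e3
        d12 d13 d23 (S.mem_st.1 hy).2
      have hc : Nat.Coprime 6 S.r := Nat.Coprime.mul_left (m := 2) (n := 3)
        ((Nat.coprime_primes Nat.prime_two S.hr).2 (Ne.symm hr))
        ((Nat.coprime_primes Nat.prime_three S.hr).2 (Ne.symm h3))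
      exact ⟨fix_of_cop hc (six p1 p2 p3).1 hp, fix_of_cop hc (six p1 p2 p3).2 hp⟩
    · intro y hy h0 h1 h2
      rw [smul_add, smul_add, h1, h2, S.lin hy, h0]

end H64.C3
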