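import Cfsg.Agent.Lib.C3.Bas

/-! # 3-closure of a solvable group: the induction step of PAIR (package PS) -/

set_option autoImplicit false
set_option linter.unusedSectionVars false

namespace H64.C3

variable {F V Γ : Type*} [Field F] [AddCommGroup V] [Module F V] [Group Γ]
  [DistribMulAction Γ V] [Finite V] [Nontrivial V] [Finite Γ] [FaithfulSMul Γ V]

namespace Ps

theorem ne0 {n : Γ} {v : V} (hv : v ≠ 0) : n • v ≠ 0 :=
  fun h => hv (by simpa using congrArg (n⁻¹ • ·) h)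

theorem eig (S : Sy F V Γ) {x b : Γ} {v : V} (hx : x ∈ S.st v) (hb : b ∈ S.E) :
    x • b • v = (S.κ x b : F) • b • v := by
  rw [S.κ_smul (S.mem_st.1 hx).1 hb, (S.mem_st.1 hx).2]

theorem eig2 (S : Sy F V Γ) {x b : Γ} {v : V} (hx : x ∈ S.st v) (hb : b ∈ S.E) :
    x • b • b • v = ((S.κ x b : F) * S.κ x b) • b • b • v := by
  rw [S.κ_smul (S.mem_st.1 hx).1 hb, eig S hx hb, S.lin hb, smul_smul]

theorem sq_ne (S : Sy F V Γ) (hr : S.r ≠ 2) {ζ : Fˣ} (h1 : ζ ≠ 1) (hζ : ζ ^ S.r = 1) :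
    (ζ : F) * ζ ≠ 1 := by
  intro h
  have h2 : ζ ^ 2 = 1 := by
    ext
    simpa [sq] using h
  have hc : Nat.Coprime 2 S.r := (Nat.coprime_primes Nat.prime_two S.hr).2 (Ne.symm hr)
  apply h1
  have := pow_gcd_eq_one.2 ⟨h2, hζ⟩
  rwa [hc, pow_one] at this

theorem vec (S : Sy F V Γ) {v w : V} (hv : v ≠ 0) (hw : w ≠ 0) (hle : S.st w ≤ S.st v)
    {x b : Γ} (hx : x ∈ S.st w) (hb : b ∈ S.E) (hκ : S.κ x b ≠ 1)
    (hb2 : b ^ S.r = 1 ∨ (S.r = 2 ∧ b ^ 2 = S.ι (-1))) :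
    ∃ u : V, (∀ n, S.Nz (S.st w) n → n • u = u →
      (n • v = v ∨ n • v = b • w ∨ ((S.κ x b : F) * S.κ x b ≠ 1 ∧ n • v = b • b • v)) ∧
        (n • b • w = v ∨ n • b • w = b • w ∨ n • b • w = b • b • v)) ∧
      (∀ n : Γ, n • v = v → n • b • w = b • w → n • u = u → n • b • b • v = b • b • v) ∧
      (∀ n : Γ, n • v = v → n • b • w = b • w → n • b • b • v = b • b • v → n • u = u) := by
  have hκ' : (S.κ x b : F) ≠ 1 := fun h => hκ (Units.ext h)
  have e1 : Ev F (S.st w) v := ⟨hv, fun a ha => ⟨1, by rw [one_smul, (S.mem_st.1 (hle ha)).2]⟩⟩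
  have e2 : Ev F (S.st w) (b • w) := ⟨ne0 hw, fun a ha => ⟨_, eig S ha hb⟩⟩
  have e3 : Ev F (S.st w) (b • b • v) := ⟨ne0 (ne0 hv), fun a ha => ⟨_, eig2 S (hle ha) hb⟩⟩
  have x1 : x • v = (1 : F) • v := by rw [one_smul, (S.mem_st.1 (hle hx)).2]
  have d12 : Df F (S.st w) v (b • w) := ⟨x, hx, _, _, hκ'.symm, x1, eig S hx hb⟩
  by_cases hr : S.r = 2
  · refine ⟨v + b • w, fun n hn hs => ?_, fun n h1 _ _ => ?_, fun n h1 h2 _ => ?_⟩
    · rcases S.perm2 (S.st_le w) hn e1 e2 d12 hs with ⟨h1, h2⟩ | ⟨h1, h2⟩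
      · exact ⟨Or.inl h1, Or.inr (Or.inl h2)⟩
      · exact ⟨Or.inr (Or.inl h1), Or.inl h2⟩
    · rw [← mul_smul b b, ← sq]
      rcases hb2 with h | ⟨-, h⟩
      · rw [hr] at h
        rw [h, one_smul, h1]
      · rw [h, S.hι]
        simp [h1]
    · rw [smul_add, h1, h2]
  · have hs2 := sq_ne S hr hκ (S.κ_pow (S.st_le w hx) hb)
    have d13 : Df F (S.st w) v (b • b • v) := ⟨x, hx, _, _, hs2.symm, x1, eig2 S (hle hx) hb⟩
    have d23 : Df F (S.st w) (b • w) (b • b • v) :=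
      ⟨x, hx, _, _, fun h => hκ' (by
        have h0 : (S.κ x b : F) ≠ 0 := Units.ne_zero _
        exact (mul_right_eq_self₀.1 h.symm).resolve_right h0), eig S hx hb, eig2 S (hle hx) hb⟩
    refine ⟨v + b • w + b • b • v, fun n hn hs => ?_, fun n h1 h2 h3 => ?_,
      fun n h1 h2 h3 => ?_⟩
    · obtain ⟨h1, h2, -⟩ := S.perm3 (S.st_le w) hn e1 e2 e3 d12 d13 d23 hs
      refine ⟨?_, h2⟩
      rcases h1 with h | h | h
      · exact Or.inl h
      · exact Or.inr (Or.inl h)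
      · exact Or.inr (Or.inr ⟨hs2, h⟩)
    · rw [smul_add, smul_add, h1, h2] at h3
      exact add_left_cancel h3
    · rw [smul_add, smul_add, h1, h2, h3]

end Ps

open Ps in
theorem Sy.step (S : Sy F V Γ) (B' : Subgroup Γ) (hB : B' ≠ ⊥) (hP : S.P B') :
    ∃ B, B < B' ∧ S.P B := by
  obtain ⟨v, w, hv, rfl, hlt, f, hf⟩ := hP
  have hw : w ≠ 0 := by
    rintro rfl
    exact hlt.not_ge fun x hx => S.mem_st.2 ⟨S.st_le v hx, smul_zero x⟩
  obtain ⟨⟨x, hx⟩, hx1⟩ := (Subgroup.ne_bot_iff_exists_ne_one).1 hB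
  have hx1' : x ≠ 1 := fun h => hx1 (Subtype.ext h)
  obtain ⟨b, hb, hκ, hb2⟩ := S.exists_b hw hx hx1'
  have hκ' : (S.κ x b : F) ≠ 1 := fun h => hκ (Units.ext h)
  have hnc : ¬ Commute x b := fun h => hκ ((S.κ_one (S.st_le w hx) hb).2 h)
  obtain ⟨u, W1, W2, W3⟩ := vec S hv hw hlt.le hx hb hκ hb2
  let B : Subgroup Γ := S.st w ⊓ Subgroup.centralizer {b}
  have hBm : ∀ y, y ∈ B ↔ y ∈ S.st w ∧ Commute y b := by
    intro y
    rw [Subgroup.mem_inf, Subgroup.mem_centralizer_singleton_iff]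
    rfl
  have hBlt : B < S.st w := lt_of_le_of_ne inf_le_left fun h => hnc ((hBm x).1 (h ▸ hx)).2
  have hcard : Nat.card (S.st w) < Nat.card (S.st v) := 
    lt_of_not_ge fun h => hlt.ne (Subgroup.eq_of_le_of_card_ge hlt.le h)
  have hbM := S.E_le_M hb
  have size : ∀ n, S.Nz (S.st w) n → n • u = u → n • b • w = b • w := by
    intro n hn hs
    have c1 : Nat.card (S.st (n • b • w)) = Nat.card (S.st w) := by
      rw [S.card_st hn.1, S.card_st hbM]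
    rcases (W1 n hn hs).2 with h | h | h
    · rw [h] at c1; omega
    · exact h
    · rw [h, S.card_st hbM, S.card_st hbM] at c1; omega
  have typ : ∀ n, S.Nz (S.st w) n → n • u = u → x • n • v = n • v → n • v = v := by
    intro n hn hs hx'
    rcases (W1 n hn hs).1 with h | h | ⟨h0, h⟩
    · exact h
    · rw [h, eig S hx hb] at hx'
      exact (hκ' (smul_cancel (ne0 hw) (hx'.trans (one_smul F _).symm))).elim
    · rw [h, eig2 S (hlt.le hx) hb] at hx'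
      exact (h0 (smul_cancel (ne0 (ne0 hv)) (hx'.trans (one_smul F _).symm))).elim
  have fix : ∀ n ∈ S.M, n • w = w → n • u = u → n • v = v := by
    intro n hn h1 h2
    refine typ n (S.nz_fix hn h1) h2 ?_
    have h3 := S.st_conj (S.M.inv_mem hn) hx
    rw [inv_smul_eq_iff.2 h1.symm, inv_inv] at h3
    have h4 := (S.mem_st.1 (hlt.le h3)).2
    rwa [mul_smul, mul_smul, inv_smul_eq_iff] at h4
  refine ⟨B, hBlt, w, u, hw, ?_, hBlt, f, ?_⟩
  · apply le_antisymm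
    · intro y hy
      obtain ⟨hyE, hyu⟩ := S.mem_st.1 hy
      have hn := S.nz_E (S.st_le w) hyE
      have h1 := size y hn hyu
      have h2 : b⁻¹ * y * b ∈ S.st w :=
        S.mem_st.2 ⟨S.conj_mem' hbM hyE, by rw [mul_smul, mul_smul, h1, inv_smul_smul]⟩
      have h3 := S.κ_spec hb (S.st_le w h2)
      have h4 : y = S.ι (S.κ b (b⁻¹ * y * b)) * (b⁻¹ * y * b) := by
        apply mul_right_cancel (b := b)
        rw [mul_assoc, ← h3]
        group
      have h5 : y • v = (S.κ b (b⁻¹ * y * b) : F) • v := by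
        conv_lhs => rw [h4, mul_smul, (S.mem_st.1 (hlt.le h2)).2, S.hι]
      have h6 := typ y hn hyu (by rw [h5, S.lin (S.st_le w hx), (S.mem_st.1 (hlt.le hx)).2])
      have h7 : S.κ b (b⁻¹ * y * b) = 1 :=
        Units.ext (smul_cancel hv (h5.symm.trans (h6.trans (one_smul F v).symm)))
      rw [h7, map_one, one_mul] at h4
      refine (hBm y).2 ⟨h4 ▸ h2, ?_⟩
      change y * b = b * y
      conv_rhs => rw [h4]
      group
    · intro y hy
      obtain ⟨h1, h2⟩ := (hBm y).1 hy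
      have h3 : ∀ z : V, y • b • z = b • y • z := fun z => by rw [← mul_smul, h2.eq, mul_smul]
      have h4 := (S.mem_st.1 (hlt.le h1)).2
      exact S.mem_st.2 ⟨S.st_le w h1,
        W3 y h4 (by rw [h3, (S.mem_st.1 h1).2]) (by rw [h3, h3, h4])⟩
  · intro n₁ hn₁ n₂ hn₂ a1 a2 b1 b2 hfe
    have hD := hf n₁ hn₁ n₂ hn₂ (fix n₁ hn₁ a1 a2) a1 (fix n₂ hn₂ b1 b2) b1 hfe
    have hn : n₁⁻¹ * n₂ ∈ S.M := S.M.mul_mem (S.M.inv_mem hn₁) hn₂
    have c1 : (n₁⁻¹ * n₂) • w = w := by rw [mul_smul, b1, inv_smul_eq_iff, a1]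
    have c2 : (n₁⁻¹ * n₂) • u = u := by rw [mul_smul, b2, inv_smul_eq_iff, a2]
    generalize n₁⁻¹ * n₂ = n at hD hn c1 c2
    have c3 := fix n hn c1 c2
    have c4 := size n (S.nz_fix hn c1) c2
    have c5 := W2 n c3 c4 c2
    have hy : b⁻¹ * (n * b * n⁻¹) ∈ S.st w :=
      S.mem_st.2 ⟨S.E.mul_mem (S.E.inv_mem hb) (S.conj_mem hn hb), by
        rw [mul_smul, mul_smul, mul_smul, inv_smul_eq_iff.2 c1.symm, c4, inv_smul_smul]⟩
    have hnb : n * b * n⁻¹ = b * (b⁻¹ * (n * b * n⁻¹)) := by group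
    generalize b⁻¹ * (n * b * n⁻¹) = y at hy hnb
    refine S.lemS hw le_rfl hb hBm ⟨x, hx, hnc⟩ hn hD ⟨y, (hBm y).2 ⟨hy, ?_⟩, hnb⟩
    rw [← S.κ_one (S.st_le w hy) hb]
    have h1 : n • b • b • v = (b * y) • (b * y) • v := by
      rw [← hnb, mul_smul, mul_smul, mul_smul, mul_smul, inv_smul_smul, inv_smul_eq_iff.2 c3.symm]
    rw [c5, mul_smul, mul_smul, (S.mem_st.1 (hlt.le hy)).2, eig S (hlt.le hy) hb, S.lin hb] at h1
    exact Units.ext (smul_cancel (ne0 (ne0 hv)) (h1.symm.trans (one_smul F _).symm))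

end H64.C3
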