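import Cfsg.Agent.Lib.C3.Add
import Cfsg.Agent.Lib.C3.Nrm
import Cfsg.Agent.Lib.C3.Ani
import Cfsg.Agent.Lib.C3.Ps
import Cfsg.Agent.Lib.C3.Po
import Cfsg.Agent.Lib.C3.P2
import Cfsg.Agent.Lib.C3.Om
import Cfsg.Agent.Lib.C3.EStr

/-! # C3: the quasi-primitive case -/

set_option autoImplicit false
set_option linter.unusedSectionVars false

namespace H64.C3

universe u

section

variable {F V Γ : Type*} [Field F] [AddCommGroup V] [Module F V] [Group Γ]
  [DistribMulAction Γ V] [Finite V] [Nontrivial V] [Finite Γ] [FaithfulSMul Γ V]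

theorem Sy.pair (S : Sy F V Γ) : ∃ v w : V, S.Col ⊥ v w := by
  have key : ∀ n, ∀ B : Subgroup Γ, Nat.card B = n → S.P B → ∃ v w : V, S.Col ⊥ v w := by
    intro n
    induction n using Nat.strong_induction_on with
    | _ n ih =>
      intro B hn hP
      by_cases hB : B = ⊥
      · obtain ⟨v, w, -, -, -, h⟩ := hP
        exact ⟨v, w, hB ▸ h⟩
      · obtain ⟨B', hlt, hP'⟩ := S.step B hB hP
        refine ih _ (hn ▸ ?_) B' rfl hP'
        exact lt_of_le_of_ne (Subgroup.card_le_of_le hlt.le)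
          fun h => hlt.ne (Subgroup.eq_of_le_of_card_ge hlt.le h.ge)
  by_cases hr : S.r = 2
  · rcases S.base_two hr with ⟨B, hB⟩ | h
    exacts [key _ B rfl hB, h]
  · obtain ⟨B, hB⟩ := S.base_odd hr
    exact key _ B rfl hB

theorem Sy.zd (S : Sy F V Γ) : ∃ s : V →+ V,
    (∀ k : Γ, (∀ x ∈ S.E, Commute k x) → ∀ v, s (k • v) = k • s v) ∧ s ≠ 0 ∧
      ∃ v, v ≠ 0 ∧ s v = 0 := by
  have cm : ∀ k : Γ, (∀ x ∈ S.E, Commute k x) → ∀ x ∈ S.E, ∀ v : V, x • k • v = k • x • v :=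
    fun k hk x hx v => by rw [← mul_smul, ← (hk x hx).eq, mul_smul]
  obtain ⟨v, hv⟩ := exists_ne (0 : V)
  by_cases h : ∃ x ∈ S.E, (∀ c, x ≠ S.ι c) ∧ x ^ S.r = 1
  · obtain ⟨x, hx, hne, h1⟩ := h
    obtain ⟨u, hs, he, -⟩ := S.eig_sum hx h1 v
    obtain ⟨j, hj⟩ : ∃ j, u j ≠ 0 := by
      by_contra h
      push Not at h
      exact hv (by rw [← hs]; simp [h])
    obtain ⟨c, hc⟩ := he j
    refine ⟨DistribSMul.toAddMonoidHom V x - DistribSMul.toAddMonoidHom V (S.ι c), ?_, ?_, u j, hj, ?_⟩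
    · intro k hk v
      change x • k • v - S.ι c • k • v = k • (x • v - S.ι c • v)
      rw [cm k hk x hx, cm k hk _ (S.ιE c), smul_sub]
    · intro h0
      exact hne c (eq_of_smul_eq_smul fun z : V => sub_eq_zero.1 (DFunLike.congr_fun h0 z))
    · change x • u j - S.ι c • u j = 0
      rw [hc, S.hι, sub_self]
  · have norm : ∀ x ∈ S.E, (∀ c, x ≠ S.ι c) → ∃ c, S.r = 2 ∧ (x * S.ι c) ^ 2 = S.ι (-1) ∧
        ¬ IsSquare (-1 : F) := by
      intro x hx hne
      obtain ⟨c, hc | hc⟩ := S.sq x hx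
      · exact absurd ⟨_, S.E.mul_mem hx (S.ιE c), fun d hd => hne (d * c⁻¹) (by
          rw [map_mul, ← hd]; simp), hc⟩ h
      · exact ⟨c, hc⟩
    obtain ⟨x, hx, hne⟩ := S.ne
    obtain ⟨y, hy, hxy⟩ : ∃ y ∈ S.E, ¬ Commute x y := by
      by_contra h'
      push Not at h'
      obtain ⟨c, hc⟩ := S.nd x hx h'
      exact hne c hc
    obtain ⟨c, hr, h2, hns⟩ := norm x hx hne
    obtain ⟨c', -, h2', -⟩ := norm y hy fun d hd => hxy (hd ▸ (S.cen d x hx).symm)
    have ht := S.E.mul_mem hx (S.ιE c)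
    have ht' := S.E.mul_mem hy (S.ιE c')
    have hκ : S.κ (x * S.ι c) (y * S.ι c') = -1 := by
      rw [S.κ_mul_left hx (S.ιE c) ht', S.κ_ι_left ht', S.κ_mul_right hx hy (S.ιE c'),
        S.κ_ι_right hx, mul_one, mul_one]
      have h3 := S.κ_pow hx hy
      rw [hr, pow_two, ← Units.val_inj, Units.val_mul, Units.val_one, mul_self_eq_one_iff] at h3
      rcases h3 with h3 | h3
      · exact absurd ((S.κ_one hx hy).1 (Units.ext h3)) hxy
      · exact Units.ext h3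
    generalize x * S.ι c = t at ht h2 hκ
    generalize y * S.ι c' = t' at ht' h2' hκ
    obtain ⟨α, β, -, u', -, h4, h5⟩ := S.xi hns ht ht' h2 h2' hκ hv
    refine ⟨α • DistribSMul.toAddMonoidHom V t + β • DistribSMul.toAddMonoidHom V t' +
      DistribSMul.toAddMonoidHom V (t * t'), ?_, ?_, _, h4, ?_⟩
    · intro k hk v
      change α • t • k • v + β • t' • k • v + (t * t') • k • v =
        k • (α • t • v + β • t' • v + (t * t') • v)
      rw [cm k hk t ht, cm k hk t' ht', cm k hk _ (S.E.mul_mem ht ht'), smul_add, smul_add,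
        smul_comm k α, smul_comm k β]
    · intro h0
      exact h4 (by simpa [mul_smul] using DFunLike.congr_fun h0 u')
    · simpa [mul_smul] using h5 u'

end

theorem caseII {B F V Γ : Type u} [Group B] [Field F] [AddCommGroup V] [Module F V] [Group Γ]
    [DistribMulAction Γ V] [Finite V] [Nontrivial V] [Finite Γ] [FaithfulSMul Γ V]
    (hB : commutator B = ⊤) (G : Subgroup Γ) [Group.IsSolvable G] (hirr : Irr G V) (ι : Fˣ →* Γ)
    (hι : ∀ (c : Fˣ) (v : V), ι c • v = (c : F) • v) (hZG : ∀ c, ι c ∈ G)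
    (hn : ∀ g ∈ G, ∀ c, ∃ c', g * ι c * g⁻¹ = ι c') (hσ : ∀ g ∈ G, Semi F V g)
    (hmax : ∀ A : Subgroup Γ, A ≤ G → (∀ a ∈ A, ∀ b ∈ A, Commute a b) →
      (∀ g ∈ G, ∀ a ∈ A, g * a * g⁻¹ ∈ A) → (∀ c, ι c ∈ A) → ∀ a ∈ A, ∃ c, a = ι c)
    (β : B →* Γ) (hβ : ∀ h, β h ∈ cl2 G V) (ih : IH B (Nat.card V)) (h : B) (v : V) :
    β h • v = v := by
  obtain ⟨v₁, hv₁⟩ := exists_ne (0 : V)
  haveI : Finite F := Finite.of_injective _ (smul_left_injective F hv₁)
  have hs := semi_cl2 G hσ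
  obtain ⟨ζ, hζ⟩ := IsCyclic.exists_monoid_generator (α := Fˣ)
  have cj : ∀ k ∈ cl2 G V, ∀ c, ∃ c', k * ι c * k⁻¹ = ι c' := by
    intro k hk c
    obtain ⟨σ, hσ⟩ := hs k hk
    refine ⟨Units.map σ.toMonoidHom c, eq_of_smul_eq_smul fun z : V => ?_⟩
    rw [mul_smul, mul_smul, hι, hσ, hι, smul_inv_smul]; rfl
  have hlin : ∀ h c, Commute (β h) (ι c) := by
    have hle : commutator B ≤ (Subgroup.centralizer {ι ζ}).comap β := by
      refine Subgroup.commutator_le.2 fun a _ b _ => ?_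
      obtain ⟨c, hc⟩ := cj _ (hβ a⁻¹) ζ
      obtain ⟨d, hd⟩ := cj _ (hβ b⁻¹) ζ
      obtain ⟨m, rfl⟩ := hζ c
      obtain ⟨n, rfl⟩ := hζ d
      simp only [map_pow, map_inv, inv_inv] at hc hd
      rw [Subgroup.mem_comap, Subgroup.mem_centralizer_singleton_iff, map_commutatorElement,
        commutatorElement_def]
      have e : ∀ (x : Γ) (k : ℕ), x⁻¹ * ι ζ ^ k * x = (x⁻¹ * ι ζ * x) ^ k := fun x k => by
        simpa using (conj_pow (a := x⁻¹) (b := ι ζ) (i := k)).symm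
      have h1 : (β a)⁻¹ * ((β b)⁻¹ * ι ζ * β b) * β a = (β b)⁻¹ * ((β a)⁻¹ * ι ζ * β a) * β b := by
        rw [hc, hd, e, e, hc, hd, ← pow_mul, ← pow_mul, mul_comm]
      calc β a * β b * (β a)⁻¹ * (β b)⁻¹ * ι ζ
          = β a * β b * ((β a)⁻¹ * ((β b)⁻¹ * ι ζ * β b) * β a) * (β a)⁻¹ * (β b)⁻¹ := by group
        _ = _ := by rw [h1]; group
    intro h c
    obtain ⟨m, rfl⟩ := hζ c
    have := hle (hB ▸ Subgroup.mem_top h : h ∈ commutator B)
    rw [Subgroup.mem_comap, Subgroup.mem_centralizer_singleton_iff] at this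
    simpa using (show Commute (β h) (ι ζ) from this).pow_right m
  by_cases hne : ∃ x ∈ G, (∀ c, Commute (ι c) x) ∧ ∀ c, x ≠ ι c
  swap
  · push Not at hne
    have sc : ∀ h (z : V), ∃ c, β h • z = ι c • z := by
      intro h z
      by_cases hz : z = 0
      · exact ⟨1, by simp [hz]⟩
      obtain ⟨g, hg, h1, h2⟩ := hβ h z (ι ζ • z)
      obtain ⟨c, hc⟩ := hn g hg ζ
      have h3 : ι c • g • z = ι ζ • g • z := by
        rw [← hc, mul_smul, mul_smul, inv_smul_smul, h2, ← mul_smul, (hlin h ζ).eq, mul_smul, h1]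
      rw [hι, hι] at h3
      have h4 : c = ζ := Units.ext (smul_cancel ((smul_ne_zero_iff_ne g).2 hz) h3)
      obtain ⟨d, hd⟩ := hne g hg fun c' => by
        obtain ⟨m, rfl⟩ := hζ c'
        rw [h4, mul_inv_eq_iff_eq_mul] at hc
        simpa using (show Commute (ι ζ) g from hc.symm).pow_left m
      exact ⟨d, by rw [← h1, hd]⟩
    haveI : Group.IsSolvable β.range := Group.isSolvable_of_comm (by
      rintro ⟨_, a, rfl⟩ ⟨_, b, rfl⟩
      refine Subtype.ext (eq_of_smul_eq_smul fun z : V => ?_)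
      obtain ⟨c, hc⟩ := sc a z
      obtain ⟨d, hd⟩ := sc b z
      change (β a * β b) • z = (β b * β a) • z
      rw [mul_smul, mul_smul, hc, hd, ← mul_smul, ← mul_smul (β b), (hlin a d).eq, (hlin b c).eq,
        mul_smul, mul_smul, hc, hd, ← mul_smul, ← mul_smul, ← map_mul, ← map_mul, mul_comm])
    rw [perf_triv' β.range hB β (fun k => ⟨k, rfl⟩), one_smul]
  obtain ⟨S, rfl, hGM, hmin⟩ := exists_sy G ι hι hZG hn hmax hne
  have hcl : cl2 G V ≤ S.M ∨ cl2 G V ≤ G := by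
    by_cases hfree : ∀ u : V, u ≠ 0 → S.st u = ⊥
    · exact S.ani G hGM hs hfree
    left
    push Not at hfree
    obtain ⟨u, hu, hub⟩ := hfree
    obtain ⟨v₀, hv₀, hm⟩ := S.exists_max
    obtain ⟨x, hx, hx1⟩ : ∃ x ∈ S.st v₀, x ≠ 1 := by
      by_contra h'
      push Not at h'
      have := hm u hu
      rw [(Subgroup.eq_bot_iff_forall _).2 h', Subgroup.card_bot] at this
      exact hub (Subgroup.card_le_one_iff_eq_bot _ |>.1 this)
    let X : Subgroup Γ :=
      { carrier := {x | ∀ k ∈ cl2 G V, k * x * k⁻¹ ∈ S.E}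
        one_mem' := fun k _ => by simp
        mul_mem' := fun {a b} ha hb k hk => by
          simpa [mul_assoc] using S.E.mul_mem (ha k hk) (hb k hk)
        inv_mem' := fun {a} ha k hk => by simpa [mul_assoc] using S.E.inv_mem (ha k hk) }
    have hX : X = S.E := hmin X (fun a ha => by simpa using ha 1 (one_mem _))
      (fun c k hk => by obtain ⟨c', hc⟩ := cj k hk c; rw [hc]; exact S.ιE c')
      (fun g hg a ha k hk => by
        simpa [mul_assoc] using ha (k * g) (mul_mem hk (le_cl2 G V hg)))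
      ⟨x, fun k hk => S.nrm G hGM hs v₀ hv₀ hm x hx k hk, fun c hc => hx1 (by
        rw [hc, S.ι_st hv₀ (c := c) (hc ▸ hx), map_one])⟩
    intro k hk
    refine Subgroup.mem_normalizer_iff.2 fun a => ⟨fun ha => (hX ▸ ha : a ∈ X) k hk, fun ha => ?_⟩
    simpa [mul_assoc] using (hX ▸ ha : k * a * k⁻¹ ∈ X) k⁻¹ (inv_mem hk)
  rcases hcl with hcl | hcl
  swap
  · rw [perf_triv' G hB β fun k => hcl (hβ k), one_smul]
  have hc := S.gl4 hB G hGM hcl S.pair β hβ hlin
  obtain ⟨s, hs1, hs2⟩ := S.zd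
  refine omega G hirr β hβ ih
    {s | ∀ k : Γ, (∀ x ∈ S.E, Commute k x) → ∀ v, s (k • v) = k • s v} ?_
    (fun h s hs => hs _ fun x hx => hc h hx) ⟨s, hs1, hs2⟩ h v
  intro g hg s hs
  refine ⟨(DistribSMul.toAddMonoidHom V g).comp (s.comp (DistribSMul.toAddMonoidHom V g⁻¹)), ?_,
    fun z => by simp⟩
  intro k hk z
  change g • s (g⁻¹ • k • z) = k • g • s (g⁻¹ • z)
  have h1 := hs (g⁻¹ * k * g) (fun x hx => by
    have := (hk _ (S.conj_mem (hGM hg) hx)).eq
    change g⁻¹ * k * g * x = x * (g⁻¹ * k * g)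
    calc g⁻¹ * k * g * x = g⁻¹ * (k * (g * x * g⁻¹)) * g := by group
      _ = _ := by rw [this]; group) (g⁻¹ • z)
  rw [mul_smul, mul_smul, smul_inv_smul] at h1
  rw [h1, mul_smul, mul_smul, smul_inv_smul]

end H64.C3
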